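import Cfsg.Agent.BS.SE0
import Cfsg.Agent.H4.Replacement
import Cfsg.Agent.H4.Dihedral
import Cfsg.Agent.H9.Fusion
import Mathlib.GroupTheory.SemidirectProduct

/-! Failure of factorization modules for groups with TI Sylow `2`-subgroups. -/

set_option autoImplicit false
set_option linter.unusedSectionVars false

namespace Cfsg.Agent.H9.AI

open Subgroup Cfsg.Agent.FT Cfsg.Agent.L0 Cfsg.Agent.H8
open scoped commutatorElement

variable {Γ V : Type*} [Group Γ] [Finite Γ] [CommGroup V] [Finite V] [MulDistribMulAction Γ V]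

/-- fixed points -/
def fx (V : Type*) [CommGroup V] [MulDistribMulAction Γ V] (A : Subgroup Γ) : Subgroup V where
  carrier := {v | ∀ a ∈ A, a • v = v}
  one_mem' _ _ := smul_one _
  mul_mem' hx hy a ha := by rw [smul_mul', hx a ha, hy a ha]
  inv_mem' hx a ha := by rw [smul_inv', hx a ha]

theorem mem_fx {A : Subgroup Γ} {v : V} : v ∈ fx V A ↔ ∀ a ∈ A, a • v = v := Iff.rfl

theorem fx_anti {A B : Subgroup Γ} (h : A ≤ B) : fx V B ≤ fx V A := fun _ hv a ha => hv a (h ha)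

theorem fx_sup (A B : Subgroup Γ) : fx V (A ⊔ B) = fx V A ⊓ fx V B :=
  le_antisymm (le_inf (fx_anti le_sup_left) (fx_anti le_sup_right)) fun v hv =>
    show A ⊔ B ≤ MulAction.stabilizer Γ v from sup_le hv.1 hv.2

theorem smul_mem_fx {A : Subgroup Γ} {v : V} (h : v ∈ fx V A) (g : Γ) : g • v ∈ fx V (cj g A) := fun a ha => by
  have := h _ (mem_cj.mp ha)
  rw [mul_smul, mul_smul, inv_smul_eq_iff] at this
  exact this

theorem card_fx_cj (g : Γ) (A : Subgroup Γ) : #|fx V (cj g A)| = #|fx V A| := by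
  have key : ∀ (g : Γ) (A : Subgroup Γ), #|fx V A| ≤ #|fx V (cj g A)| := fun g A =>
    Nat.card_le_card_of_injective (fun v => ⟨g • v.1, smul_mem_fx v.2 g⟩) fun v w e =>
      Subtype.ext (MulAction.injective g (congrArg Subtype.val e))
  refine le_antisymm ?_ (key g A)
  simpa [cj_inv_cj] using key g⁻¹ (cj g A)

/-- `v ↦ v⁻¹ (a • v)` -/
def cmh (V : Type*) [CommGroup V] [MulDistribMulAction Γ V] (a : Γ) : V →* V where
  toFun v := v⁻¹ * a • v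
  map_one' := by simp
  map_mul' v w := by rw [smul_mul', mul_inv, mul_mul_mul_comm]

theorem cmh_apply (a : Γ) (v : V) : cmh V a v = v⁻¹ * a • v := rfl

/-- the involutions of `P` -/
def zz (P : Subgroup Γ) : Subgroup Γ := closure {a | a ∈ P ∧ a * a = 1}

theorem zz_le (P : Subgroup Γ) : zz P ≤ P := (closure_le _).mpr fun _ h => h.1

/-- the hypothesis -/
structure TIF (Γ V : Type*) [Group Γ] [CommGroup V] [MulDistribMulAction Γ V] : Prop where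
  sq : ∀ v : V, v * v = 1
  faith : ∀ g : Γ, (∀ v : V, g • v = v) → g = 1
  ti : ∀ P Q : Subgroup Γ, IsSylowIn 2 P ⊤ → IsSylowIn 2 Q ⊤ → P ≠ Q → P ⊓ Q = ⊥
  two : ∃ P Q : Subgroup Γ, IsSylowIn 2 P ⊤ ∧ IsSylowIn 2 Q ⊤ ∧ P ≠ Q
  off : ∃ B : Subgroup Γ, B ≠ ⊥ ∧ (∀ b ∈ B, b * b = 1) ∧ Nat.card V ≤ #|B| * #|fx V B|

theorem syl_cj {P : Subgroup Γ} (hP : IsSylowIn 2 P ⊤) (g : Γ) : IsSylowIn 2 (cj g P) ⊤ := by
  simpa [cj_top] using hP.cj g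

theorem two_of_sq {B : Subgroup Γ} (h : ∀ b ∈ B, b * b = 1) : IsPGroup 2 B :=
  isPGroup_of_pow_eq_one fun a ha => by rw [pow_two]; exact h a ha

theorem exists_cj_le {P B : Subgroup Γ} (hP : IsSylowIn 2 P ⊤) (hB : IsPGroup 2 B) : ∃ g : Γ, cj g B ≤ P := by
  obtain ⟨Q, hQ, h⟩ := exists_isSylowIn_ge hB le_top
  obtain ⟨g, -, e⟩ := hQ.exists_cj_eq hP
  exact ⟨g, e ▸ cj_mono g h⟩

namespace TIF

variable (h : TIF Γ V) {P Q R : Subgroup Γ} {a b g x : Γ} {v : V}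
include h

theorem eq_of (hP : IsSylowIn 2 P ⊤) (hQ : IsSylowIn 2 Q ⊤) (h1 : x ∈ P) (h2 : x ∈ Q) (hx : x ≠ 1) : P = Q := by
  by_contra e
  exact hx (mem_bot.mp (h.ti P Q hP hQ e ▸ (⟨h1, h2⟩ : x ∈ P ⊓ Q)))

theorem cj_eq (hP : IsSylowIn 2 P ⊤) (hQ : IsSylowIn 2 Q ⊤) (ha : a ∈ P) (h1 : a ≠ 1) (hg : g * a * g⁻¹ ∈ Q) :
    cj g P = Q := h.eq_of (syl_cj hP g) hQ (conj_mem_cj g ha) hg (by simpa using h1)

omit h in
theorem mem_of_norm (hP : IsSylowIn 2 P ⊤) (hx : x ∈ 𝐍(P)) (h2 : ∃ k, x ^ 2 ^ k = 1) : x ∈ P :=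
  hP.le_of_le_normalizer' (isPGroup_zpowers h2) le_top (zpowers_le.mpr hx) (mem_zpowers x)

theorem exists_ne (hP : IsSylowIn 2 P ⊤) : ∃ Q : Subgroup Γ, IsSylowIn 2 Q ⊤ ∧ P ≠ Q := by
  obtain ⟨Q, Q', h1, h2, h3⟩ := h.two
  by_cases e : P = Q
  · exact ⟨Q', h2, e ▸ h3⟩
  · exact ⟨Q, h1, e⟩

theorem exists_z (hP : IsSylowIn 2 P ⊤) : ∃ z ∈ P, z ≠ 1 ∧ z * z = 1 ∧ ∀ g ∈ P, g * z = z * g := by
  obtain ⟨B, h1, h2, -⟩ := h.off
  obtain ⟨g, hg⟩ := exists_cj_le hP (two_of_sq h2)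
  obtain ⟨z, h3, h4, h5, -⟩ := exists_orderOf_centralized hP.pgroup hP.pgroup le_normalizer
    fun e => h1 (cj_eq_bot_iff.mp (le_bot_iff.mp (e ▸ hg)))
  exact ⟨z, h3, ne_one_of_orderOf_two h4, mul_self_of_orderOf_two h4, h5⟩

theorem odd (hP : IsSylowIn 2 P ⊤) (hQ : IsSylowIn 2 Q ⊤) (hne : P ≠ Q) (ha : a ∈ P) (ha1 : a ≠ 1) (ha2 : a * a = 1)
    (hb : b ∈ Q) (hb1 : b ≠ 1) (hb2 : b * b = 1) : Odd (orderOf (a * b)) := by
  by_contra e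
  obtain ⟨n, h1, h2, h3⟩ := exists_central_involution_of_even ha2 hb2 (Nat.not_odd_iff_even.mp e)
  have h4 : ∃ k, ((a * b) ^ n) ^ 2 ^ k = 1 := ⟨1, by rw [pow_one, ← h1, pow_orderOf_eq_one]⟩
  exact hne (h.eq_of hP hQ
    (mem_of_norm hP (cj_eq_self_iff.mp (h.cj_eq hP hP ha ha1 (by rw [h2.eq, mul_inv_cancel_right]; exact ha))) h4)
    (mem_of_norm hQ (cj_eq_self_iff.mp (h.cj_eq hQ hQ hb hb1 (by rw [h3.eq, mul_inv_cancel_right]; exact hb))) h4)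
    (ne_one_of_orderOf_two h1))

theorem conj (hP : IsSylowIn 2 P ⊤) (ha : a ∈ P) (ha1 : a ≠ 1) (ha2 : a * a = 1) (hb : b ∈ P) (hb1 : b ≠ 1)
    (hb2 : b * b = 1) : ∃ g ∈ 𝐍(P), g * a * g⁻¹ = b := by
  obtain ⟨Q, hQ, hne⟩ := h.exists_ne hP
  obtain ⟨z, h1, h2, h3, -⟩ := h.exists_z hQ
  obtain ⟨g, e⟩ := isConj_iff.mp ((H4.isConj_of_odd_orderOf_mul ha2 h3 (h.odd hP hQ hne ha ha1 ha2 h1 h2 h3)).trans
    (H4.isConj_of_odd_orderOf_mul hb2 h3 (h.odd hP hQ hne hb hb1 hb2 h1 h2 h3)).symm)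
  exact ⟨g, cj_eq_self_iff.mp (h.cj_eq hP hP ha ha1 (e ▸ hb)), e⟩

theorem cent (hP : IsSylowIn 2 P ⊤) (ha : a ∈ P) (ha2 : a * a = 1) (hx : x ∈ P) : x * a = a * x := by
  by_cases ha1 : a = 1
  · simp [ha1]
  obtain ⟨z, h1, h2, h3, h4⟩ := h.exists_z hP
  obtain ⟨g, hg, rfl⟩ := h.conj hP h1 h2 h3 ha ha1 ha2
  calc x * (g * z * g⁻¹) = g * (g⁻¹ * x * g * z) * g⁻¹ := by group
    _ = g * z * g⁻¹ * x := by rw [h4 _ (conj_mem_of_mem_normalizer' hg hx)]; group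

theorem mem_zz (hP : IsSylowIn 2 P ⊤) : a ∈ zz P ↔ a ∈ P ∧ a * a = 1 := by
  refine ⟨fun ha => ?_, fun ha => subset_closure ha⟩
  induction ha using closure_induction with
  | mem x hx => exact hx
  | one => exact ⟨one_mem _, mul_one _⟩
  | mul x y _ _ hx hy => exact ⟨mul_mem hx.1 hy.1, by
      calc x * y * (x * y) = x * (y * x) * y := by group
        _ = x * x * (y * y) := by rw [h.cent hP hx.1 hx.2 hy.1]; group
        _ = 1 := by rw [hx.2, hy.2, mul_one]⟩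
  | inv x _ hx => exact ⟨inv_mem hx.1, by rw [← mul_inv_rev, hx.2, inv_one]⟩

theorem cj_zz (hP : IsSylowIn 2 P ⊤) (g : Γ) : cj g (zz P) = zz (cj g P) := by
  ext x
  rw [mem_cj, h.mem_zz hP, h.mem_zz (syl_cj hP g), mem_cj,
    show g⁻¹ * x * g * (g⁻¹ * x * g) = g⁻¹ * (x * x) * g⁻¹⁻¹ by group, conj_eq_one_iff]

theorem zz_of (hP : IsSylowIn 2 P ⊤) {A : Subgroup Γ} (h1 : A ≤ zz P) (h2 : A ≠ ⊥) (h3 : 𝐍(P) ≤ 𝐍(A)) : A = zz P := by
  refine le_antisymm h1 fun b hb => ?_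
  by_cases hb1 : b = 1
  · exact hb1 ▸ one_mem _
  obtain ⟨a, ha, ha1⟩ := (bot_or_exists_ne_one _).resolve_left h2
  obtain ⟨g, hg, rfl⟩ := h.conj hP (zz_le P (h1 ha)) ha1 ((h.mem_zz hP).mp (h1 ha)).2 (zz_le P hb) hb1
    ((h.mem_zz hP).mp hb).2
  exact conj_mem_of_mem_normalizer (h3 hg) ha

theorem best (hP : IsSylowIn 2 P ⊤) : (∀ A ≤ zz P, #|A| * #|fx V A| ≤ #|zz P| * #|fx V (zz P)|) ∧
    Nat.card V ≤ #|zz P| * #|fx V (zz P)| := by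
  let f : Subgroup Γ → ℕ := fun A => #|A| * #|fx V A|
  let M : Set (Subgroup Γ) := {A | A ≤ zz P ∧ ∀ A' ≤ zz P, f A' ≤ f A}
  have f0 : f ⊥ = Nat.card V := by
    simp only [f, card_bot, one_mul]
    rw [show fx V (⊥ : Subgroup Γ) = ⊤ from eq_top_iff.mpr fun v _ a ha => by rw [mem_bot.mp ha, one_smul], card_top]
  have fc : ∀ g A, f (cj g A) = f A := fun g A => by simp only [f, card_cj, card_fx_cj]
  have hsup : ∀ A ∈ M, ∀ B ∈ M, A ⊔ B ∈ M := fun A hA B hB => ⟨sup_le hA.1 hB.1, fun A' hA' => by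
    have e1 := H8.card_sup_mul_card_inf (N := A) (H := B) fun b hb => mem_normalizer_of_conj_mem fun a ha => by
      rwa [h.cent hP (zz_le P (hA.1 ha)) ((h.mem_zz hP).mp (hA.1 ha)).2 (zz_le P (hB.1 hb)), mul_inv_cancel_right]
    have e2 := H8.card_sup_mul_card_inf (N := fx V A) (H := fx V B) le_normalizer_of_normal
    rw [← fx_sup] at e2
    have e3 : #|(fx V A ⊔ fx V B : Subgroup V)| ≤ #|fx V (A ⊓ B)| :=
      card_le_of_le (sup_le (fx_anti inf_le_left) (fx_anti inf_le_right))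
    have e4 := hA.2 (A ⊓ B) (inf_le_left.trans hA.1)
    have e5 : f A * f B ≤ f A * f (A ⊔ B) := by
      calc f A * f B = #|A| * #|B| * (#|fx V A| * #|fx V B|) := by simp only [f]; ring
        _ = #|(A ⊓ B : Subgroup Γ)| * #|(fx V A ⊔ fx V B : Subgroup V)| * f (A ⊔ B) := by
          rw [← e1, ← e2]; simp only [f]; ring
        _ ≤ f A * f (A ⊔ B) := Nat.mul_le_mul_right _ ((Nat.mul_le_mul_left _ e3).trans e4)
    exact (hB.2 A' hA').trans (Nat.le_of_mul_le_mul_left e5 (Nat.mul_pos Nat.card_pos Nat.card_pos))⟩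
  obtain ⟨A₀, h0, h1⟩ : ∃ A ∈ M, A ≠ ⊥ := by
    obtain ⟨A, hA, hm⟩ := Set.exists_max_image {A | A ≤ zz P} f (Set.toFinite _)
      ⟨⊥, (bot_le : (⊥ : Subgroup Γ) ≤ zz P)⟩
    by_cases e : A = ⊥
    · obtain ⟨B, h1, h2, h3⟩ := h.off
      obtain ⟨g, hg⟩ := exists_cj_le hP (two_of_sq h2)
      refine ⟨cj g B, ⟨?_, fun A' hA' => (hm A' hA').trans ?_⟩, fun e => h1 (cj_eq_bot_iff.mp e)⟩
      · rintro _ ⟨b, hb, rfl⟩
        exact (h.mem_zz hP).mpr ⟨hg ⟨b, hb, rfl⟩, by rw [← map_mul, h2 b hb, map_one]⟩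
      · rw [e, f0, fc]; exact h3
    · exact ⟨A, ⟨hA, hm⟩, e⟩
  obtain ⟨A, h2, hA⟩ := exists_maximal_ge_of_wellFoundedGT (· ∈ M) A₀ h0
  have e : A = zz P := h.zz_of hP hA.1.1 (fun e => h1 (le_bot_iff.mp (e ▸ h2))) fun g hg =>
    mem_normalizer_of_cj_le (le_sup_right.trans (hA.2 (hsup A hA.1 (cj g A) ⟨by
      rw [← cj_eq_self hg, ← h.cj_zz hP]; exact cj_mono g hA.1.1, fun A' hA' => fc g A ▸ hA.1.2 A' hA'⟩) le_sup_left))
  subst e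
  exact ⟨hA.1.2, f0 ▸ hA.1.2 ⊥ bot_le⟩

open SemidirectProduct in
theorem quad (hP : IsSylowIn 2 P ⊤) (hb : b ∈ zz P) (v : V) : v⁻¹ * b • v ∈ fx V (zz P) := by
  let H := V ⋊[MulDistribMulAction.toMulAut Γ V] Γ
  haveI : Finite H := Finite.of_equiv _ SemidirectProduct.equivProd.symm
  have key : ∀ (a : Γ) (v : V), (inr a * inl v * (inr a)⁻¹ : H) = inl (a • v) := fun a v => by
    rw [← map_inv, ← inl_aut]; rfl
  have kc : ∀ (a : Γ) (v : V), (inr a * inl v : H) = inl v * inr a ↔ a • v = v := fun a v => by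
    rw [← mul_inv_eq_iff_eq_mul, key, inl_injective.eq_iff]
  have e1 : ∀ B : Subgroup Γ, H4.jv (inl : V →* H).range (B.map inr) = #|B| * #|fx V B| := fun B => by
    rw [H4.jv_def, card_map_of_injective inr_injective, ← card_map_of_injective (K := fx V B) (inl_injective (φ :=
      MulDistribMulAction.toMulAut Γ V))]
    congr 3
    ext x
    constructor
    · rintro ⟨⟨v, rfl⟩, h2⟩
      exact ⟨v, fun a ha => (kc a v).mp (h2 _ ⟨a, ha, rfl⟩), rfl⟩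
    · rintro ⟨v, hv, rfl⟩
      refine ⟨⟨v, rfl⟩, ?_⟩
      rintro _ ⟨a, ha, rfl⟩
      exact (kc a v).mpr (hv a ha)
  have hN : (zz P).map inr ≤ 𝐍((inl : V →* H).range) := by
    rintro _ ⟨a, -, rfl⟩
    refine mem_normalizer_of_conj_mem ?_
    rintro _ ⟨v, rfl⟩
    exact ⟨_, (key a v).symm⟩
  have hq := (H4.timmesfeld_replacement (p := 2) (V := (inl : V →* H).range) (A := (zz P).map inr)
    (isElementaryAbelian_two_iff.mpr (by rintro _ ⟨v, rfl⟩; rw [← map_pow, pow_two, h.sq, map_one])) hN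
    (H4.isBestOffenderOn_iff.mpr ⟨fun B hB => by
      rw [← map_comap_eq_self (hB.trans (map_le_range _ _)), e1, e1]
      exact (h.best hP).1 _ ((comap_mono hB).trans (comap_map_eq_self_of_injective inr_injective _).le), by
      rw [← map_commutator, commutator_eq_bot_iff_comm.mpr fun a ha b hb =>
        h.cent hP (zz_le P hb) ((h.mem_zz hP).mp hb).2 (zz_le P ha), Subgroup.map_bot]
      exact bot_le, by
      rintro _ ⟨a, ha, rfl⟩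
      rw [← map_pow, pow_two, ((h.mem_zz hP).mp ha).2, map_one]
      exact one_mem _⟩) le_rfl).2.2 fun e => by
    obtain ⟨z, h1, h2, h3, -⟩ := h.exists_z hP
    exact h2 (h.faith z fun v => (kc z v).mp (commutator_eq_bot_iff_comm.mp e _ ⟨v, rfl⟩ _
      ⟨z, (h.mem_zz hP).mpr ⟨h1, h3⟩, rfl⟩).symm)
  let A : Subgroup Γ := zz P ⊓ ⨅ (b ∈ zz P) (v : V), MulAction.stabilizer Γ (v⁻¹ * b • v)
  have hA : ∀ a, a ∈ A ↔ a ∈ zz P ∧ ∀ b ∈ zz P, ∀ v : V, a • (v⁻¹ * b • v) = v⁻¹ * b • v := fun a => by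
    simp only [A, mem_inf, mem_iInf, MulAction.mem_stabilizer_iff]
  have e : A = zz P := h.zz_of hP inf_le_left (fun e => hq ?_) fun g hg => mem_normalizer_of_conj_mem fun a ha => ?_
  · exact fun a ha => ((hA a).mp (e ▸ ha)).2 b hb v
  · rw [show (zz P).map inr ⊓ _ = ⊥ from eq_bot_iff.mpr ?_, commutator_bot_right]
    rintro _ ⟨⟨a, ha, rfl⟩, h2⟩
    have : a ∈ A := (hA a).mpr ⟨ha, fun b hb v => (kc _ _).mp (h2 _ (by
      rw [map_mul, ← key, ← mul_assoc, ← mul_assoc, show (inl v : H) = (inl v⁻¹)⁻¹ by simp]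
      simpa [commutatorElement_def] using commutator_mem_commutator
        (show (inl v⁻¹ : H) ∈ (inl : V →* H).range from ⟨v⁻¹, rfl⟩) (mem_map_of_mem (inr : Γ →* H) hb))).symm⟩
    rw [show a = 1 from mem_bot.mp (e ▸ this), map_one]
    exact one_mem _
  · have hg' : g ∈ 𝐍(zz P) := cj_eq_self_iff.mp (by rw [h.cj_zz hP, cj_eq_self hg])
    refine (hA _).mpr ⟨conj_mem_of_mem_normalizer hg' ((hA a).mp ha).1, fun b hb v => ?_⟩
    have := ((hA a).mp ha).2 _ (conj_mem_of_mem_normalizer' hg' hb) (g⁻¹ • v)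
    rw [mul_smul, mul_smul, smul_inv_smul, ← smul_inv', ← smul_mul'] at this
    rw [mul_smul, mul_smul, this, smul_inv_smul]

theorem free (hP : IsSylowIn 2 P ⊤) (hQ : IsSylowIn 2 Q ⊤) (hne : P ≠ Q) (hv : v ∈ fx V (zz Q)) (ha : a ∈ P)
    (h1 : a ≠ 1) (e : a • v = v) : v ∈ fx V (zz P) := by
  obtain ⟨j, h2, h3⟩ := exists_pow_ne_one_pow_eq_one h1 (exists_pow_eq_one_of_mem hP.pgroup ha)
  obtain ⟨b, h4, h5, h6, -⟩ := h.exists_z hQ
  rw [pow_two] at h3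
  obtain ⟨n, e'⟩ := exists_conj_of_odd h3 h6 (h.odd hP hQ hne (pow_mem ha _) h2 h3 h4 h5 h6)
  have hg : (a ^ 2 ^ j * b) ^ n ∈ MulAction.stabilizer Γ v :=
    pow_mem (mul_mem (pow_mem e _) (hv b ((h.mem_zz hQ).mpr ⟨h4, h6⟩))) _
  have := smul_mem_fx hv ((a ^ 2 ^ j * b) ^ n)
  rwa [hg, h.cj_zz hQ, h.cj_eq hQ hP h4 h5 (by
    generalize (a ^ 2 ^ j * b) ^ n = d at e'
    rw [← e']; simpa [mul_assoc] using pow_mem ha _)] at this

theorem fix2 (hP : IsSylowIn 2 P ⊤) (hQ : IsSylowIn 2 Q ⊤) (hne : P ≠ Q) (hv : v ∈ fx V (zz Q)) (ha : a ∈ zz P)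
    (h1 : a ≠ 1) (e : a • v ∈ fx V (zz Q)) : v ∈ fx V (zz P) := by
  obtain ⟨b, h4, h5, h6, -⟩ := h.exists_z hQ
  obtain ⟨h2, h3⟩ := (h.mem_zz hP).mp ha
  have hb := (h.mem_zz hQ).mpr ⟨h4, h6⟩
  obtain ⟨k, hk⟩ := h.odd hP hQ hne h2 h1 h3 h4 h5 h6
  have e1 : (a * b) ^ 2 ∈ MulAction.stabilizer Γ v := by
    rw [MulAction.mem_stabilizer_iff, pow_two, mul_smul, mul_smul, mul_smul, hv b hb, e b hb, ← mul_smul, h3, one_smul]
  have e2 : (a * b) • v = v := by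
    have : (a * b) ^ (2 * k + 1) • v = v := by rw [← hk, pow_orderOf_eq_one, one_smul]
    rwa [pow_succ', mul_smul, pow_mul, show ((a * b) ^ 2) ^ k • v = v from pow_mem e1 k] at this
  exact h.free hP hQ hne hv h2 h1 (by rwa [mul_smul, hv b hb] at e2)

theorem card_w (hP : IsSylowIn 2 P ⊤) (hQ : IsSylowIn 2 Q ⊤) : #|fx V (zz P)| = #|fx V (zz Q)| := by
  obtain ⟨g, -, rfl⟩ := hP.exists_cj_eq hQ
  rw [← h.cj_zz hP, card_fx_cj]

theorem not_le (hP : IsSylowIn 2 P ⊤) (hQ : IsSylowIn 2 Q ⊤) (hne : P ≠ Q) : ¬ fx V (zz Q) ≤ fx V (zz P) := fun hle => by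
  have e := eq_of_le_of_card_ge hle (h.card_w hP hQ).le
  obtain ⟨a, h1, h2, h3, -⟩ := h.exists_z hP
  obtain ⟨b, h4, h5, h6, -⟩ := h.exists_z hQ
  have ha := (h.mem_zz hP).mpr ⟨h1, h3⟩
  have hb := (h.mem_zz hQ).mpr ⟨h4, h6⟩
  obtain ⟨k, hk⟩ := h.odd hP hQ hne h1 h2 h3 h4 h5 h6
  have e1 : (a * b) ^ 2 = 1 := h.faith _ fun v => by
    have h7 := h.quad hP ha v
    have h8 := hle (h.quad hQ hb v)
    have h9 : (a * b) • v = v * (v⁻¹ * a • v * (v⁻¹ * b • v)) := by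
      rw [mul_smul, ← h8 a ha, smul_mul', smul_inv']; simp
    have h10 : (a * b) • (v⁻¹ * a • v * (v⁻¹ * b • v)) = v⁻¹ * a • v * (v⁻¹ * b • v) := by
      rw [mul_smul, (e ▸ mul_mem h7 h8 : _ ∈ fx V (zz Q)) b hb, mul_mem h7 h8 a ha]
    rw [pow_two, mul_smul, h9, smul_mul', h10, h9, mul_assoc, h.sq, mul_one]
  have e2 : a * b = 1 := by
    have := pow_orderOf_eq_one (a * b)
    rwa [hk, pow_succ, pow_mul, e1, one_pow, one_mul] at this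
  exact hne (h.eq_of hP hQ h1 (by rw [eq_inv_of_mul_eq_one_left e2]; exact inv_mem h4) h2)

theorem count (hP : IsSylowIn 2 P ⊤) (hQ : IsSylowIn 2 Q ⊤) (hne : P ≠ Q) (hv : v ∈ fx V (zz Q))
    (hv' : v ∉ fx V (zz P)) : fx V (zz P) ⊔ fx V (zz Q) = ⊤ ∧ #|zz P| * #|fx V (zz P)| = Nat.card V ∧
      ∀ u : V, ∃ a ∈ zz P, (v⁻¹ * a • v)⁻¹ * u ∈ fx V (zz Q) := by
  let f : zz P → V ⧸ fx V (zz Q) := fun a => QuotientGroup.mk (v⁻¹ * a.1 • v)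
  have hf : Function.Injective f := fun a a' e => by
    by_contra hn
    refine hv' (h.fix2 hP hQ hne hv (mul_mem (inv_mem a.2) a'.2) (fun e => hn (Subtype.ext (inv_mul_eq_one.mp e))) ?_)
    have h1 := QuotientGroup.eq.mp e
    have h2 : (a.1⁻¹ * a'.1) • v = v * ((v⁻¹ * a.1 • v)⁻¹ * (v⁻¹ * a'.1 • v)) := by
      rw [← mul_mem (inv_mem (h.quad hP a.2 v)) (h.quad hP a'.2 v) _ (inv_mem a.2), mul_smul, ← inv_smul_smul a.1 v,
        ← smul_mul', inv_smul_smul]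
      congr 1
      simp [mul_comm, mul_left_comm]
    rw [h2]
    exact mul_mem hv h1
  have e1 := (fx V (zz Q)).card_mul_index
  have e2 := (h.best hP).2
  have e3 : (fx V (zz Q)).index ≤ #|zz P| := by
    rw [← e1, h.card_w hP hQ, mul_comm] at e2
    exact Nat.le_of_mul_le_mul_right e2 Nat.card_pos
  have hb := hf.bijective_of_nat_card_le e3
  have hs : ∀ u : V, ∃ a ∈ zz P, (v⁻¹ * a • v)⁻¹ * u ∈ fx V (zz Q) := fun u => by
    obtain ⟨a, e⟩ := hb.2 (QuotientGroup.mk u)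
    exact ⟨a, a.2, QuotientGroup.eq.mp e⟩
  refine ⟨eq_top_iff.mpr fun u _ => ?_, ?_, hs⟩
  · obtain ⟨a, ha, e⟩ := hs u
    simpa only [mul_inv_cancel_left] using mul_mem_sup (h.quad hP ha v) e
  · rw [Nat.card_congr (Equiv.ofBijective f hb), h.card_w hP hQ, mul_comm]
    exact e1

theorem dec (hP : IsSylowIn 2 P ⊤) (hQ : IsSylowIn 2 Q ⊤) (hne : P ≠ Q) (u : V) :
    ∃ w ∈ fx V (zz P), ∃ w' ∈ fx V (zz Q), w * w' = u := by
  obtain ⟨v, h1, h2⟩ := SetLike.not_le_iff_exists.mp (h.not_le hP hQ hne)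
  exact mem_sup.mp ((h.count hP hQ hne h1 h2).1 ▸ mem_top u)

theorem fixb (hP : IsSylowIn 2 P ⊤) (ha : a ∈ P) (h1 : a ≠ 1) (e : a • v = v) : v ∈ fx V (zz P) := by
  obtain ⟨j, h2, h3⟩ := exists_pow_ne_one_pow_eq_one h1 (exists_pow_eq_one_of_mem hP.pgroup ha)
  obtain ⟨Q, hQ, hne⟩ := h.exists_ne hP
  obtain ⟨w, hw, w', hw', rfl⟩ := h.dec hP hQ hne v
  have h4 : a ^ 2 ^ j • (w * w') = w * w' := pow_mem (show a ∈ MulAction.stabilizer Γ _ from e) _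
  rw [smul_mul', hw _ ((h.mem_zz hP).mpr ⟨pow_mem ha _, pow_two (a ^ 2 ^ j) ▸ h3⟩), mul_right_inj] at h4
  exact mul_mem hw (h.free hP hQ hne hw' (pow_mem ha _) h2 h4)

theorem nd0 (hP : IsSylowIn 2 P ⊤) (hQ : IsSylowIn 2 Q ⊤) (hne : P ≠ Q) (ha : a ∈ zz P) (h1 : a ≠ 1)
    (e : v⁻¹ * a • v ∈ fx V (zz Q)) : v ∈ fx V (zz P) := by
  obtain ⟨w, hw, w', hw', rfl⟩ := h.dec hP hQ hne v
  refine mul_mem hw (h.fix2 hP hQ hne hw' ha h1 ?_)
  rw [smul_mul', hw a ha, mul_inv, mul_mul_mul_comm, inv_mul_cancel, one_mul] at e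
  simpa only [mul_inv_cancel_left] using mul_mem hw' e

theorem line0 (hP : IsSylowIn 2 P ⊤) (hQ : IsSylowIn 2 Q ⊤) (hR : IsSylowIn 2 R ⊤) (hne : P ≠ Q) (hne' : P ≠ R) :
    ∃ a ∈ zz P, cj a Q = R := by
  obtain ⟨c, h1, h2, h3, -⟩ := h.exists_z hR
  have hc := (h.mem_zz hR).mpr ⟨h1, h3⟩
  obtain ⟨v, -, hv⟩ := SetLike.not_le_iff_exists.mp (h.not_le hR hP hne'.symm)
  obtain ⟨w, hw, w', hw', e⟩ := h.dec hP hQ hne (v⁻¹ * c • v)
  have h4 : w' ∉ fx V (zz P) := fun h4 => hv (h.nd0 hR hP hne'.symm hc h2 (e ▸ mul_mem hw h4))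
  obtain ⟨a, ha, h5⟩ := (h.count hP hQ hne hw' h4).2.2 w
  refine ⟨a, ha, by_contra fun hn => hv (h.nd0 hR (syl_cj hQ a) (Ne.symm hn) hc h2 ?_)⟩
  have := smul_mem_fx (mul_mem hw' h5) a
  rw [h.cj_zz hQ, smul_mul', mul_mem (inv_mem (h.quad hP ha w')) hw a ha] at this
  rw [← e]
  simpa [mul_comm, mul_left_comm] using this

theorem zz_eq (hP : IsSylowIn 2 P ⊤) : zz P = P := le_antisymm (zz_le P) fun x hx => by
  obtain ⟨Q, hQ, hne⟩ := h.exists_ne hP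
  obtain ⟨a, ha, e⟩ := h.line0 hP hQ (syl_cj hQ x) hne fun e =>
    hne (cj_injective x ((cj_eq_self (le_normalizer hx)).trans e))
  have h1 : a⁻¹ * x ∈ P := mul_mem (inv_mem (zz_le P ha)) hx
  by_contra hn
  refine hne (h.eq_of hP hQ h1 (mem_of_norm hQ (cj_eq_self_iff.mp ?_) (exists_pow_eq_one_of_mem hP.pgroup h1))
    fun e => hn (inv_mul_eq_one.mp e ▸ ha))
  rw [cj_mul, ← e, cj_inv_cj]

theorem card (hP : IsSylowIn 2 P ⊤) : #|P| * #|fx V P| = Nat.card V := by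
  obtain ⟨Q, hQ, hne⟩ := h.exists_ne hP
  obtain ⟨v, h1, h2⟩ := SetLike.not_le_iff_exists.mp (h.not_le hP hQ hne)
  simpa only [h.zz_eq hP] using (h.count hP hQ hne h1 h2).2.1

theorem uniq (hP : IsSylowIn 2 P ⊤) (h2 : ∀ u u' : V, u ∉ fx V P → u' ∉ fx V P → u * u' ∈ fx V P) (ha : a ∈ P)
    (hb : b ∈ P) (h3 : a ≠ 1) (h4 : b ≠ 1) : a = b := by
  obtain ⟨Q, hQ, hne⟩ := h.exists_ne hP
  obtain ⟨v, h5, h6⟩ := SetLike.not_le_iff_exists.mp (h.not_le hP hQ hne)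
  obtain ⟨w, h7, h8⟩ := SetLike.not_le_iff_exists.mp (h.not_le hQ hP hne.symm)
  by_contra hn
  have h9 : ∀ c ∈ P, c ≠ 1 → v⁻¹ * c • v ∉ fx V Q := fun c hc h1 e =>
    h6 (h.nd0 hP hQ hne ((h.zz_eq hP).symm ▸ hc) h1 ((h.zz_eq hQ).symm ▸ e))
  obtain ⟨g, -, rfl⟩ := hP.exists_cj_eq hQ
  have h10 : ∀ u u' : V, u ∉ fx V (cj g P) → u' ∉ fx V (cj g P) → u * u' ∈ fx V (cj g P) := fun u u' hu hu' => by
    simpa using smul_mem_fx (h2 (g⁻¹ • u) (g⁻¹ • u') (fun e => hu (by simpa using smul_mem_fx e g))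
      fun e => hu' (by simpa using smul_mem_fx e g)) g
  refine h9 (a * b) (mul_mem ha hb) (fun e => hn ?_) ?_
  · rw [eq_inv_of_mul_eq_one_left e, inv_eq_of_mul_eq_one_right ((h.mem_zz hP).mp ((h.zz_eq hP).symm ▸ hb)).2]
  · convert h10 _ _ (h9 a ha h3) (h9 b hb h4) using 1
    rw [← h.quad hP ((h.zz_eq hP).ge hb) v a ((h.zz_eq hP).ge ha), mul_smul, smul_mul', smul_inv']
    simp

theorem two' (hP : IsSylowIn 2 P ⊤) (hQ : IsSylowIn 2 Q ⊤) (hR : IsSylowIn 2 R ⊤)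
    (h2 : ∀ K : Subgroup Γ, IsSylowIn 2 K ⊤ → ∀ u u' : V, u ∉ fx V K → u' ∉ fx V K → u * u' ∈ fx V K) (ha : a ∈ P) (h3 : a ≠ 1)
    (hb : b ∈ Q) (hx : x ∈ R) {u : V} (h4 : v⁻¹ * b • v ∉ fx V P) (h5 : u⁻¹ * x • u ∉ fx V P) :
    u⁻¹ * x • u = v⁻¹ * b • v ∨ u⁻¹ * x • u = a • (v⁻¹ * b • v) := by
  have h6 : ∀ {K c} (w : V), IsSylowIn 2 K ⊤ → c ∈ K → w⁻¹ * c • w ∉ fx V P → P ≠ K ∧ c ≠ 1 ∧ w ∉ fx V K :=
    fun w hK hc e => ⟨fun e' => e (by subst e'; simpa only [h.zz_eq hP] using h.quad hP ((h.zz_eq hP).symm ▸ hc) w),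
      fun e' => e (by simp [e']), fun e' => e (by simp [e' _ hc])⟩
  obtain ⟨e1, e2, e3⟩ := h6 v hQ hb h4
  obtain ⟨e4, e5, e6⟩ := h6 u hR hx h5
  obtain ⟨a', ha', rfl⟩ := h.line0 hP hQ hR e1 e4
  have e7 : a'⁻¹ * x * a' = b := h.uniq hQ (h2 Q hQ) (mem_cj.mp hx) hb
    (fun e => e5 (by simpa [mul_assoc] using congrArg (fun y => a' * y * a'⁻¹) e)) e2
  have e8 := h2 Q hQ v⁻¹ (a'⁻¹ • u) (fun e => e3 (inv_mem_iff.mp e)) (fun e => e6 (by simpa using smul_mem_fx e a')) b hb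
  have e9 : u⁻¹ * x • u = a' • (v⁻¹ * b • v) := by
    rw [smul_mul', smul_inv', inv_mul_eq_iff_eq_mul] at e8
    rw [← inv_smul_eq_iff, smul_mul', smul_inv', show a'⁻¹ • x • u = b • a'⁻¹ • u by simp [← e7, mul_smul], e8]
    simp [mul_comm, mul_left_comm, mul_assoc]
  by_cases e : a' = 1
  · exact Or.inl (by rw [e9, e, one_smul])
  · exact Or.inr (by rw [e9, h.uniq hP (h2 P hP) (zz_le P ha') ha e h3])

end TIF

end Cfsg.Agent.H9.AI
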