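import Cfsg.Agent.H9.AI1
import Cfsg.Agent.H7.TwoTools

/-! Abelian essential subgroups of groups with abelian Sylow `2`-intersections. -/

set_option autoImplicit false
set_option linter.unusedSectionVars false

namespace Cfsg.Agent.H9.AI

open Subgroup Cfsg.Agent.FT Cfsg.Agent.L0 Cfsg.Agent.H8
open scoped commutatorElement

variable {G : Type*} [Group G] [Finite G] {D X Y S P Q : Subgroup G} {x y v g : G}

/-- Sylow intersections are abelian -/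
def HA (G : Type*) [Group G] : Prop :=
  ∀ P Q : Subgroup G, IsSylowIn 2 P ⊤ → IsSylowIn 2 Q ⊤ → P ≠ Q → P ⊓ Q ≤ 𝐂((P ⊓ Q : Subgroup G))

theorem HA.eq (H : HA G) (hP : IsSylowIn 2 P ⊤) (hQ : IsSylowIn 2 Q ⊤) (h1 : X ≤ P) (h2 : X ≤ Q) (h3 : ¬ X ≤ 𝐂(X)) :
    P = Q := by_contra fun e =>
  h3 ((le_inf h1 h2).trans ((H P Q hP hQ e).trans (centralizer_le (SetLike.coe_subset_coe.mpr (le_inf h1 h2)))))

theorem cj_zz' (g : G) (D : Subgroup G) : cj g (zz D) = zz (cj g D) := by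
  have key : ∀ (g : G) (D : Subgroup G), cj g (zz D) ≤ zz (cj g D) := fun g D =>
    cj_le_iff.mpr ((closure_le _).mpr fun a ha => mem_cj.mpr (subset_closure ⟨by simpa using conj_mem_cj g ha.1, by
      simp [mul_assoc, ← mul_assoc a, ha.2]⟩))
  exact le_antisymm (key g D) (by simpa only [cj_cj_inv, cj_inv_cj] using cj_mono g (key g⁻¹ (cj g D)))

theorem norm_zz (D : Subgroup G) : 𝐍(D) ≤ 𝐍(zz D) := fun g hg => cj_eq_self_iff.mp (by rw [cj_zz', cj_eq_self hg])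

theorem mem_zz' (h : D ≤ 𝐂(D)) : v ∈ zz D ↔ v ∈ D ∧ v * v = 1 := by
  refine ⟨fun ha => ?_, fun ha => subset_closure ha⟩
  induction ha using closure_induction with
  | mem x hx => exact hx
  | one => exact ⟨one_mem _, mul_one _⟩
  | mul x y _ _ hx hy => exact ⟨mul_mem hx.1 hy.1, by
      calc x * y * (x * y) = x * (y * x) * y := by group
        _ = x * x * (y * y) := by rw [h hx.1 y hy.1]; group
        _ = 1 := by rw [hx.2, hy.2, mul_one]⟩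
  | inv x _ hx => exact ⟨inv_mem hx.1, by rw [← mul_inv_rev, hx.2, inv_one]⟩

theorem cent_anti (h : X ≤ Y) : 𝐂(Y) ≤ 𝐂(X) := centralizer_le (SetLike.coe_subset_coe.mpr h)

theorem odd_cent (h : D ≤ 𝐂(D)) (h2 : IsPGroup 2 D) (hg : g ∈ 𝐍(D)) (hc : g ∈ 𝐂(zz D)) : ∃ k, g ^ 2 ^ k ∈ 𝐂(D) := by
  obtain ⟨k, hk⟩ := H7.exists_odd_orderOf_pow g
  refine ⟨k, ?_⟩
  have c : CopAct (zpowers (g ^ 2 ^ k)) D := CopAct.of_pgroup_right (p := 2)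
    (by rw [Nat.card_zpowers]; exact hk.not_two_dvd_nat) h2 (zpowers_le.mpr (pow_mem hg _))
  have e : ⁅D, zpowers (g ^ 2 ^ k)⁆ = ⊥ := by
    by_contra e
    obtain ⟨z, h3, h4, -⟩ := exists_orderOf_centralized (P := ⊥) IsPGroup.of_bot (h2.to_le c.commutator_le) bot_le e
    refine ne_one_of_orderOf_two h4 (mem_bot.mp
      (c.commutator_inf_centralizer_eq_bot (isMulCommutative_of_comm fun a ha b hb => h hb a ha) ▸ mem_inf.mpr ⟨h3, ?_⟩))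
    exact le_centralizer_iff.mp (zpowers_le.mpr (pow_mem hc _))
      ((mem_zz' h).mpr ⟨c.commutator_le h3, mul_self_of_orderOf_two h4⟩)
  exact fun d hd => commutator_eq_bot_iff_comm.mp e d hd _ (mem_zpowers _)

/-- essential subgroups -/
structure Ess (D : Subgroup G) : Prop where
  syl : IsSylowIn 2 D 𝐂(D)
  two : ∃ X Y, IsSylowIn 2 X 𝐍(D) ∧ IsSylowIn 2 Y 𝐍(D) ∧ ¬ Y ≤ X ⊔ 𝐂(D)

theorem cn (D : Subgroup G) : 𝐂(D) ≤ 𝐍(D) := centralizer_le_normalizer _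

theorem nc (D : Subgroup G) : 𝐍(D) ≤ 𝐍(𝐂(D)) := normalizer_le_normalizer_centralizer _

namespace Ess

variable (h : Ess D)
include h

theorem ab : D ≤ 𝐂(D) := h.syl.le

theorem cj (g : G) : Ess (cj g D) := by
  obtain ⟨X, Y, h1, h2, h3⟩ := h.two
  exact ⟨cj_centralizer g D ▸ h.syl.cj g, H8.cj g X, H8.cj g Y, cj_normalizer g D ▸ h1.cj g, cj_normalizer g D ▸ h2.cj g,
    by rwa [← cj_centralizer, ← cj_sup, cj_le_cj_iff]⟩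

theorem le (hX : IsSylowIn 2 X 𝐍(D)) : D ≤ X := hX.le_of_le_normalizer h.syl.pgroup le_normalizer hX.le

theorem mem (hP : IsPGroup 2 P) (hD : D ≤ P) (h1 : x ∈ P) (h2 : x ∈ 𝐂(D)) : x ∈ D :=
  h.syl.max (P ⊓ 𝐂(D)) inf_le_right hP.to_inf_left (le_inf hD h.ab) ▸ mem_inf.mpr ⟨h1, h2⟩

theorem other (hX : IsSylowIn 2 X 𝐍(D)) : ∃ Y, IsSylowIn 2 Y 𝐍(D) ∧ ¬ Y ≤ X ⊔ 𝐂(D) := by
  obtain ⟨X', Y, h1, h2, h3⟩ := h.two
  obtain ⟨n, hn, rfl⟩ := h1.exists_cj_eq hX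
  refine ⟨H8.cj n Y, h2.cj_of_mem_normalizer (le_normalizer hn), ?_⟩
  rwa [← cj_eq_self (nc D hn), ← cj_sup, cj_le_cj_iff]

theorem not_le (hX : IsSylowIn 2 X 𝐍(D)) : ¬ X ≤ D := fun e => by
  obtain ⟨Y, h1, h2⟩ := h.other hX
  exact h2 ((eq_of_le_of_card_ge (h.le h1) ((h1.card_eq_card hX).le.trans (card_le_of_le e))).ge.trans
    (h.ab.trans le_sup_right))

theorem nab (hX : IsSylowIn 2 X 𝐍(D)) : ¬ X ≤ 𝐂(X) := fun e =>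
  h.not_le hX fun _ hx => h.mem hX.pgroup (h.le hX) hx (cent_anti (h.le hX) (e hx))

theorem ti (H : HA G) (hX : IsSylowIn 2 X 𝐍(D)) (hY : IsSylowIn 2 Y 𝐍(D)) (hne : X ≠ Y) (h1 : x ∈ X) (h2 : x ∈ Y) :
    x ∈ D := by
  obtain ⟨P, hP, h3⟩ := exists_isSylowIn_ge hX.pgroup le_top
  obtain ⟨Q, hQ, h4⟩ := exists_isSylowIn_ge hY.pgroup le_top
  have e : P ≠ Q := fun e => hne (by
    rw [← hX.max (P ⊓ 𝐍(D)) inf_le_right hP.pgroup.to_inf_left (le_inf h3 hX.le),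
      ← hY.max (Q ⊓ 𝐍(D)) inf_le_right hQ.pgroup.to_inf_left (le_inf h4 hY.le), e])
  exact h.mem hX.pgroup (h.le hX) h1
    (cent_anti (le_inf ((h.le hX).trans h3) ((h.le hY).trans h4)) (H P Q hP hQ e ⟨h3 h1, h4 h2⟩))

theorem til (H : HA G) (hX : IsSylowIn 2 X 𝐍(D)) (hY : IsSylowIn 2 Y 𝐍(D)) (hne : ¬ Y ≤ X ⊔ 𝐂(D)) (h1 : y ∈ Y)
    (h2 : y ∈ X ⊔ 𝐂(D)) : y ∈ D := by
  obtain ⟨k, hk, e⟩ := exists_conj_mem_of_not_dvd_relIndex (isPGroup_zpowers (exists_pow_eq_one_of_mem hY.pgroup h1))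
    (zpowers_le.mpr h2) (hX.of_le le_sup_left (sup_le hX.le (cn D))).not_dvd_relIndex
  have h3 := h.ti H hX (hY.cj_of_mem_normalizer (le_normalizer (inv_mem (sup_le hX.le (cn D) hk))))
    (fun e => hne ?_) (e y (mem_zpowers y)) (by simpa using conj_mem_cj k⁻¹ h1)
  · simpa [mul_assoc] using conj_mem_of_mem_normalizer (sup_le hX.le (cn D) hk) h3
  · rw [← cj_cj_inv k Y, ← e]
    exact cj_le_of_mem hk le_sup_left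

theorem faith (H : HA G) (h1 : g ∈ 𝐍(D)) (h2 : g ∈ 𝐂(zz D)) : g ∈ 𝐂(D) := by
  have key : ∀ {X}, IsSylowIn 2 X 𝐍(D) → ∀ {g}, g ∈ 𝐍(D) ⊓ 𝐂(zz D) → ∃ p ∈ X ⊓ 𝐂(zz D), ∃ k ∈ 𝐂(D), p * k = g :=
    fun hX _ hg => H7.exists_sylow_mul_of_pow_mem (hX.inf_of_le_normalizer ((norm_zz D).trans (nc _)))
      (le_inf (cn D) (cent_anti (zz_le D))) (inf_le_left.trans (nc D))
      (fun g hg => odd_cent h.ab h.syl.pgroup hg.1 hg.2) hg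
  obtain ⟨X, Y, hX, hY, hne⟩ := h.two
  obtain ⟨p, hp, k, hk, rfl⟩ := key hY ⟨h1, h2⟩
  obtain ⟨p', hp', k', hk', e⟩ := key hX ⟨hY.le hp.1, hp.2⟩
  exact mul_mem (h.ab (h.til H hX hY hne hp.1 (e ▸ mul_mem_sup hp'.1 hk'))) hk

end Ess

/-- the automizer -/
abbrev Gm (D : Subgroup G) := 𝐍(D) ⧸ (𝐂(D)).subgroupOf 𝐍(D)

/-- the image in the automizer -/
def pm (D X : Subgroup G) : Subgroup (Gm D) := (X.subgroupOf 𝐍(D)).map (QuotientGroup.mk' _)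

theorem mem_pm {γ : Gm D} : γ ∈ pm D X ↔ ∃ n : 𝐍(D), n.1 ∈ X ∧ (n : Gm D) = γ := Iff.rfl

theorem mk_eq {a b : 𝐍(D)} : (a : Gm D) = b ↔ a.1⁻¹ * b.1 ∈ 𝐂(D) := QuotientGroup.eq

theorem mk_eq_one {a : 𝐍(D)} : (a : Gm D) = 1 ↔ a.1 ∈ 𝐂(D) := QuotientGroup.eq_one_iff a

theorem mk_mem_pm {a : 𝐍(D)} (h : (a : Gm D) ∈ pm D X) : a.1 ∈ X ⊔ 𝐂(D) := by
  obtain ⟨n, h1, h2⟩ := mem_pm.mp h
  simpa using mul_mem_sup h1 (mk_eq.mp h2)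

theorem syl_pm (hX : IsSylowIn 2 X 𝐍(D)) : IsSylowIn 2 (pm D X) ⊤ := by
  have := (isSylowIn_top hX.toSylow).map (QuotientGroup.mk' ((𝐂(D)).subgroupOf 𝐍(D)))
  rwa [map_top_of_surjective _ (QuotientGroup.mk'_surjective _)] at this

theorem exists_pm {K : Subgroup (Gm D)} (hK : IsSylowIn 2 K ⊤) : ∃ X, IsSylowIn 2 X 𝐍(D) ∧ pm D X = K := by
  obtain ⟨X, hX⟩ := exists_isSylowIn 2 𝐍(D)
  obtain ⟨γ, -, rfl⟩ := (syl_pm hX).exists_cj_eq hK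
  obtain ⟨n, rfl⟩ := QuotientGroup.mk_surjective γ
  refine ⟨cj n.1 X, hX.cj_of_mem_normalizer (le_normalizer n.2), ?_⟩
  rw [pm, show (cj n.1 X).subgroupOf 𝐍(D) = cj n (X.subgroupOf 𝐍(D)) from by
    ext x; simp only [mem_subgroupOf, mem_cj]; rfl, map_cj]
  rfl

theorem card_pm (hX : X ≤ 𝐍(D)) : #|pm D X| * #|(X ⊓ 𝐂(D) : Subgroup G)| = #|X| := by
  rw [pm, ← relIndex_ker, QuotientGroup.ker_mk', relIndex_subgroupOf hX, mul_comm, inf_comm, card_inf_mul_relIndex]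

/-- the action on the involutions -/
def act (D : Subgroup G) : Gm D →* MulAut (zz D) :=
  QuotientGroup.lift _ ((normalizerMonoidHom (zz D)).comp (inclusion (norm_zz D))) fun n hn =>
    MulEquiv.ext fun v => Subtype.ext (mul_inv_eq_of_eq_mul (hn v.1 (zz_le D v.2)).symm)

/-- the consequences of failure of factorization -/
structure FF (D : Subgroup G) : Prop where
  card : ∀ {X}, IsSylowIn 2 X 𝐍(D) → #|X| * #|(zz D ⊓ 𝐂(X) : Subgroup G)| = #|D| * #|zz D|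
  fixb : ∀ {X x v}, IsSylowIn 2 X 𝐍(D) → x ∈ X → x ∉ D → v ∈ zz D → x * v = v * x → v ∈ 𝐂(X)
  quad : ∀ {X x v}, IsSylowIn 2 X 𝐍(D) → x ∈ X → v ∈ zz D → v⁻¹ * (x * v * x⁻¹) ∈ 𝐂(X)
  nd : ∀ {X Y x v}, IsSylowIn 2 X 𝐍(D) → IsSylowIn 2 Y 𝐍(D) → ¬ Y ≤ X ⊔ 𝐂(D) ∨ ¬ X ≤ Y ⊔ 𝐂(D) → x ∈ X → x ∉ D →
    v ∈ zz D → v⁻¹ * (x * v * x⁻¹) ∈ 𝐂(Y) → v ∈ 𝐂(X)
  uniq : ∀ {X x y}, IsSylowIn 2 X 𝐍(D) → (∀ u ∈ zz D, ∀ v ∈ zz D, u ∉ 𝐂(X) → v ∉ 𝐂(X) → u * v ∈ 𝐂(X)) →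
    x ∈ X → y ∈ X → x ∉ D → y ∉ D → x⁻¹ * y ∈ D
  two : ∀ {X Y R x y r u v}, IsSylowIn 2 X 𝐍(D) → IsSylowIn 2 Y 𝐍(D) → IsSylowIn 2 R 𝐍(D) →
    (∀ u ∈ zz D, ∀ v ∈ zz D, u ∉ 𝐂(X) → v ∉ 𝐂(X) → u * v ∈ 𝐂(X)) → x ∈ X → x ∉ D → y ∈ Y → r ∈ R →
    u ∈ zz D → v ∈ zz D → v⁻¹ * (y * v * y⁻¹) ∉ 𝐂(X) → u⁻¹ * (r * u * r⁻¹) ∉ 𝐂(X) →
    u⁻¹ * (r * u * r⁻¹) = v⁻¹ * (y * v * y⁻¹) ∨ u⁻¹ * (r * u * r⁻¹) = x * (v⁻¹ * (y * v * y⁻¹)) * x⁻¹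

theorem Ess.ff (h : Ess D) (H : HA G) {B : Subgroup G} (hB : B ≤ 𝐍(D)) (h2 : ∀ b ∈ B, b * b = 1) (h3 : ¬ B ≤ 𝐂(D))
    (h4 : #|zz D| ≤ #|B|) (h5 : B ⊓ 𝐂(D) ≤ D) : FF D := by
  letI : CommGroup (zz D) := { (inferInstance : Group (zz D)) with
    mul_comm := fun a b => Subtype.ext (h.ab (zz_le D b.2) a (zz_le D a.2)) }
  letI : MulDistribMulAction (Gm D) (zz D) := MulDistribMulAction.compHom _ (act D)
  have sm : ∀ (n : 𝐍(D)) (v : zz D), (((n : Gm D) • v : zz D) : G) = n * v * n⁻¹ := fun _ _ => rfl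
  have mf : ∀ {X}, X ≤ 𝐍(D) → ∀ v : zz D, v ∈ fx (zz D) (pm D X) ↔ v.1 ∈ 𝐂(X) := fun hX v =>
    ⟨fun e x hx => mul_inv_eq_iff_eq_mul.mp (congrArg Subtype.val (e _ (mem_pm.mpr ⟨⟨x, hX hx⟩, hx, rfl⟩))), by
      rintro e _ ⟨n, hn, rfl⟩
      exact Subtype.ext (mul_inv_eq_of_eq_mul (e n hn))⟩
  have cf : ∀ {X}, X ≤ 𝐍(D) → #|fx (zz D) (pm D X)| = #|(zz D ⊓ 𝐂(X) : Subgroup G)| := fun {X} hX => by
    rw [← card_map_of_injective (K := fx (zz D) (pm D X)) (zz D).subtype_injective, inf_comm, ← subgroupOf_map_subtype,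
      show fx (zz D) (pm D X) = (𝐂(X)).subgroupOf (zz D) from Subgroup.ext (mf hX)]
  have n1 : ∀ {X x} (hX : IsSylowIn 2 X 𝐍(D)) (hx : x ∈ X), x ∉ D → ((⟨x, hX.le hx⟩ : 𝐍(D)) : Gm D) ≠ 1 :=
    fun hX hx e e' => e (h.mem hX.pgroup (h.le hX) hx (mk_eq_one.mp e'))
  have mm : ∀ {X x} (hX : IsSylowIn 2 X 𝐍(D)) (hx : x ∈ X), ((⟨x, hX.le hx⟩ : 𝐍(D)) : Gm D) ∈ pm D X :=
    fun hX hx => mem_pm.mpr ⟨_, hx, rfl⟩
  have ne : ∀ {X Y}, IsSylowIn 2 Y 𝐍(D) → ¬ Y ≤ X ⊔ 𝐂(D) → pm D X ≠ pm D Y := fun hY e e' =>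
    e fun y hy => mk_mem_pm (e' ▸ mm hY hy)
  have T : TIF (Gm D) (zz D) := ⟨fun v => Subtype.ext ((mem_zz' h.ab).mp v.2).2, fun γ e => by
    obtain ⟨n, rfl⟩ := QuotientGroup.mk_surjective γ
    exact mk_eq_one.mpr (h.faith H n.2 fun v hv => (mul_inv_eq_iff_eq_mul.mp (congrArg Subtype.val (e ⟨v, hv⟩))).symm),
    fun P Q hP hQ e => by
      obtain ⟨X, hX, rfl⟩ := exists_pm hP
      obtain ⟨Y, hY, rfl⟩ := exists_pm hQ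
      refine eq_bot_iff.mpr ?_
      rintro _ ⟨h1, n, hn, rfl⟩
      refine mk_eq_one.mpr (h.ab (h.til H hX hY (fun e' => e (eq_of_le_of_card_ge ?_ (hP.card_eq_card hQ).le).symm) hn
        (mk_mem_pm h1)))
      rintro _ ⟨m, hm, rfl⟩
      obtain ⟨a, ha, c, hc, e⟩ := (mem_sup_of_le_normalizer (hX.le.trans (nc D))).mp (e' hm)
      exact mem_pm.mpr ⟨⟨a, hX.le ha⟩, ha, mk_eq.mpr (by rwa [← show a * c = m.1 from e, inv_mul_cancel_left])⟩, by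
    obtain ⟨X, Y, hX, hY, e⟩ := h.two
    exact ⟨_, _, syl_pm hX, syl_pm hY, ne hY e⟩, pm D B, fun e => h3 fun b hb =>
      mk_eq_one.mp (mem_bot.mp (e ▸ mem_pm.mpr ⟨⟨b, hB hb⟩, hb, rfl⟩)), by
      rintro _ ⟨n, hn, rfl⟩
      rw [← map_mul, show n * n = 1 from Subtype.ext (h2 n hn), map_one], by
      rw [cf hB]
      refine h4.trans ((card_pm hB).ge.trans (Nat.mul_le_mul_left _ (card_le_of_le fun b hb => ⟨?_, fun b' hb' => ?_⟩)))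
      · exact (mem_zz' h.ab).mpr ⟨h5 hb, h2 b hb.1⟩
      · exact comm_of_sq_eq_one (fun a ha => pow_two a ▸ h2 a ha) hb' hb.1⟩
  have q2 : ∀ {X}, IsSylowIn 2 X 𝐍(D) → (∀ u ∈ zz D, ∀ v ∈ zz D, u ∉ 𝐂(X) → v ∉ 𝐂(X) → u * v ∈ 𝐂(X)) →
      ∀ u u' : zz D, u ∉ fx (zz D) (pm D X) → u' ∉ fx (zz D) (pm D X) → u * u' ∈ fx (zz D) (pm D X) :=
    fun hX e u u' h1 h2 => (mf hX.le _).mpr (e u u.2 u' u'.2 (mt (mf hX.le _).mpr h1) (mt (mf hX.le _).mpr h2))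
  refine ⟨fun {X} hX => ?_, fun hX hx h1 hv e => ?_, fun hX hx hv => ?_, fun hX hY e hx h1 hv h2 => ?_,
    fun hX e hx hy h1 h2 => ?_, fun {X Y R x y r u v} hX hY hR e hx h1 hy hr hu hv h2 h3 => ?_⟩
  · rw [← T.card (syl_pm hX), cf hX.le, ← card_pm hX.le, show X ⊓ 𝐂(D) = D from
      le_antisymm (fun x hx => h.mem hX.pgroup (h.le hX) hx.1 hx.2) (le_inf (h.le hX) h.ab)]
    ring
  · have := T.fixb (v := ⟨_, hv⟩) (syl_pm hX) (mm hX hx) (n1 hX hx h1) (Subtype.ext (mul_inv_eq_of_eq_mul e))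
    rw [T.zz_eq (syl_pm hX)] at this
    exact (mf hX.le _).mp this
  · have := T.quad (syl_pm hX) ((T.zz_eq (syl_pm hX)).ge (mm hX hx)) ⟨_, hv⟩
    rw [T.zz_eq (syl_pm hX)] at this
    exact (mf hX.le _).mp this
  · have := T.nd0 (v := ⟨_, hv⟩) (syl_pm hX) (syl_pm hY) (e.elim (ne hY) fun e => (ne hX e).symm)
      ((T.zz_eq (syl_pm hX)).ge (mm hX hx)) (n1 hX hx h1)
    rw [T.zz_eq (syl_pm hX), T.zz_eq (syl_pm hY)] at this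
    exact (mf hX.le _).mp (this ((mf hY.le _).mpr h2))
  · exact h.mem hX.pgroup (h.le hX) (mul_mem (inv_mem hx) hy)
      (mk_eq.mp (T.uniq (syl_pm hX) (q2 hX e) (mm hX hx) (mm hX hy) (n1 hX hx h1) (n1 hX hy h2)))
  · refine (T.two' (v := ⟨v, hv⟩) (u := ⟨u, hu⟩) (syl_pm hX) (syl_pm hY) (syl_pm hR) (fun K hK => ?_) (mm hX hx)
      (n1 hX hx h1) (mm hY hy) (mm hR hr) (mt (mf hX.le _).mp h2) (mt (mf hX.le _).mp h3)).imp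
      (congrArg Subtype.val) (congrArg Subtype.val)
    obtain ⟨γ, -, rfl⟩ := (syl_pm hX).exists_cj_eq hK
    exact fun u u' hu hu' => by
      simpa using smul_mem_fx (q2 hX e (γ⁻¹ • u) (γ⁻¹ • u') (fun e => hu (by simpa using smul_mem_fx e γ))
        fun e => hu' (by simpa using smul_mem_fx e γ)) γ

end Cfsg.Agent.H9.AI
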