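import Cfsg.Agent.H9.AI2
import Cfsg.Agent.H6.Transfer

/-! Fusion in groups with abelian Sylow `2`-intersections. -/

set_option autoImplicit false
set_option linter.unusedSectionVars false

namespace Cfsg.Agent.H9.AI

open Subgroup Cfsg.Agent.FT Cfsg.Agent.L0 Cfsg.Agent.H8
open scoped commutatorElement

variable {G : Type*} [Group G] [Finite G] {D X Y S K B D' : Subgroup G} {x y v g d s : G}

theorem sylN (H : HA G) (hS : IsSylowIn 2 S ⊤) (hn : ¬ S ≤ 𝐂(S)) (hD : D ≤ S) (h1 : D ≤ 𝐂(D)) (h2 : S ⊓ 𝐂(D) ≤ D) :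
    IsSylowIn 2 (S ⊓ 𝐍(D)) 𝐍(D) ∧ ¬ S ⊓ 𝐍(D) ≤ 𝐂((S ⊓ 𝐍(D) : Subgroup G)) ∧ IsSylowIn 2 D 𝐂(D) := by
  have h3 := lt_inf_normalizer_of_pgroup hS.pgroup (lt_of_le_of_ne hD fun e => hn (e ▸ h1))
  have h4 : ¬ S ⊓ 𝐍(D) ≤ 𝐂((S ⊓ 𝐍(D) : Subgroup G)) := fun e =>
    h3.not_ge fun x hx => h2 ⟨hx.1, cent_anti h3.le (e hx)⟩
  have h5 : IsSylowIn 2 (S ⊓ 𝐍(D)) 𝐍(D) := ⟨inf_le_right, hS.pgroup.to_inf_left, fun Q h5 h6 h7 => by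
    obtain ⟨P, hP, h8⟩ := exists_isSylowIn_ge h6 le_top
    exact le_antisymm (le_inf (H.eq hP hS (h7.trans h8) inf_le_left h4 ▸ h8) h5) h7⟩
  refine ⟨h5, h4, ?_⟩
  have := h5.inf_of_le_normalizer (nc D)
  rwa [inf_eq_right.mpr (cn D), show S ⊓ 𝐍(D) ⊓ 𝐂(D) = D from
    le_antisymm (fun x hx => h2 ⟨hx.1.1, hx.2⟩) (le_inf h3.le h1)] at this

theorem Ess.sylS (h : Ess D) (H : HA G) (hS : IsSylowIn 2 S ⊤) (hn : ¬ S ≤ 𝐂(S)) (hD : D ≤ S) :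
    IsSylowIn 2 (S ⊓ 𝐍(D)) 𝐍(D) := (sylN H hS hn hD h.ab fun _ hx => h.mem hS.pgroup hD hx.1 hx.2).1

theorem nab_cj (g : G) (h : ¬ X ≤ 𝐂(X)) : ¬ cj g X ≤ 𝐂(cj g X) := by rwa [← cj_centralizer, cj_le_cj_iff]

theorem fus (H : HA G) (hS : IsSylowIn 2 S ⊤) (hn : ¬ S ≤ 𝐂(S)) {r : G → G → Prop} (hr : Equivalence r)
    (hM : ∀ s ∈ S, ∀ m ∈ 𝐍(S), r s (m * s * m⁻¹))
    (hE : ∀ D ≤ S, Ess D → ∀ Y, IsSylowIn 2 Y 𝐍(D) → ∀ y ∈ Y, ∀ d ∈ D, r d (y * d * y⁻¹))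
    (hx : x ∈ S) (hg : g * x * g⁻¹ ∈ S) : r x (g * x * g⁻¹) := by
  obtain ⟨T, hT⟩ := exists_isSylowIn 2 𝐂[x]
  obtain ⟨k, hk⟩ := exists_cj_le hS hT.pgroup
  have hT' := hT.cj k
  rw [cj_centralizer_singleton] at hT'
  have key : ∀ u ∈ S, ∀ g : G, g⁻¹ * u * g = k * x * k⁻¹ → r u (k * x * k⁻¹) := fun u hu g e => by
    obtain ⟨h, e1, e2⟩ := exists_extremal_conj' hT'.not_dvd_relIndex e (R := S ⊓ 𝐂[u]) hS.pgroup.to_inf_left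
      fun r hr => mem_centralizer_singleton_iff.mp hr.2
    have huD : u ∈ S ⊓ 𝐂[u] := ⟨hu, mem_centralizer_singleton_iff.mpr rfl⟩
    have e3 : cj h⁻¹ (S ⊓ 𝐂[u]) ≤ S := fun y hy => by simpa [mul_assoc] using hk (e2 _ (mem_cj.mp hy))
    rw [← e1]
    by_cases hc : S ⊓ 𝐂[u] ≤ 𝐂((S ⊓ 𝐂[u] : Subgroup G))
    swap
    · simpa using hM u hu h⁻¹ (cj_eq_self_iff.mp (H.eq (syl_cj hS _) hS (cj_mono _ inf_le_left) e3 (nab_cj _ hc)))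
    have e4 : S ⊓ 𝐂((S ⊓ 𝐂[u] : Subgroup G)) ≤ S ⊓ 𝐂[u] := fun y hy =>
      ⟨hy.1, mem_centralizer_singleton_iff.mpr (hy.2 u huD).symm⟩
    have e5 : S ⊓ 𝐂[u] ≤ S := inf_le_left
    generalize S ⊓ 𝐂[u] = D at *
    obtain ⟨h1, h2, h3⟩ := sylN H hS hn e5 hc e4
    have h4 := h3.cj h⁻¹
    rw [cj_centralizer] at h4
    have h5 := (sylN H hS hn e3 h4.le
      (h4.max _ inf_le_right hS.pgroup.to_inf_left (le_inf e3 h4.le)).le).1.cj h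
    rw [cj_normalizer, cj_cj_inv] at h5
    let R : Subgroup G :=
      { carrier := {n | n ∈ 𝐍(D) ∧ ∀ d ∈ D, r d (n * d * n⁻¹)}
        one_mem' := ⟨one_mem _, fun d _ => by simpa using hr.refl d⟩
        mul_mem' := fun {a b} ha hb => ⟨mul_mem ha.1 hb.1, fun d hd => hr.trans (hb.2 d hd) (by
          simpa [mul_assoc] using ha.2 _ (conj_mem_of_mem_normalizer hb.1 hd))⟩
        inv_mem' := fun {a} ha => ⟨inv_mem ha.1, fun d hd => hr.symm (by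
          simpa [mul_assoc] using ha.2 _ (conj_mem_of_mem_normalizer' ha.1 hd))⟩ }
    have h6 : S ⊓ 𝐍(D) ≤ R := fun n hn => ⟨hn.2, fun d hd => hM d (e5 hd) n (le_normalizer hn.1)⟩
    have h7 : cj h (S ⊓ 𝐍(cj h⁻¹ D)) ≤ R := by
      by_cases he : cj h (S ⊓ 𝐍(cj h⁻¹ D)) ≤ S ⊓ 𝐍(D) ⊔ 𝐂(D)
      · exact he.trans (sup_le h6 fun c hc => ⟨cn D hc, fun d hd => by simpa [← hc d hd] using hr.refl d⟩)
      · exact fun n hn => ⟨h5.le hn, hE D e5 ⟨h3, _, _, h1, h5, he⟩ _ h5 n hn⟩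
    have h8 : R ≤ 𝐍(D) := fun _ hn => hn.1
    obtain ⟨n, h9, e⟩ := (h1.of_le h6 h8).exists_cj_eq (h5.of_le h7 h8)
    have h10 : h⁻¹ * n ∈ 𝐍(S) := cj_eq_self_iff.mp (H.eq (syl_cj hS _) hS (cj_mono _ inf_le_left)
      (by rw [cj_mul, e, cj_inv_cj]; exact inf_le_left) (nab_cj _ h2))
    refine hr.trans ((inv_mem h9).2 u huD) ?_
    simpa [mul_assoc] using hM _ (e5 (conj_mem_of_mem_normalizer' h9.1 huD)) _ h10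
  exact hr.trans (key x hx k⁻¹ (by simp)) (hr.symm (key _ hg (g * k⁻¹) (by group)))

theorem tr (hG : commutator G = ⊤) (H : HA G) (hS : IsSylowIn 2 S ⊤) (hn : ¬ S ≤ 𝐂(S))
    (hM : ∀ s ∈ S, ∀ m ∈ 𝐍(S), s⁻¹ * (m * s * m⁻¹) ∈ K)
    (hE : ∀ D ≤ S, Ess D → ∀ Y, IsSylowIn 2 Y 𝐍(D) → ∀ y ∈ Y, ∀ d ∈ D, d⁻¹ * (y * d * y⁻¹) ∈ K) : S ≤ K := by
  obtain ⟨P, rfl⟩ := hS.exists_sylow_top
  have := commutator_inf_eq_focalSubgroup P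
  rw [hG, top_inf_eq] at this
  rw [this, focalSubgroup_def, closure_le]
  rintro _ ⟨h1, x, hx, u, rfl⟩
  simpa [commutatorElement_def, mul_assoc] using fus (r := fun a b => a⁻¹ * b ∈ K) (g := u) H hS hn
    ⟨fun a => by simp, fun h => by simpa using inv_mem h, fun h h' => by simpa [mul_assoc] using mul_mem h h'⟩ hM hE
    (inv_mem hx) (by simpa [commutatorElement_def, mul_assoc] using mul_mem (inv_mem hx) h1)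

theorem tr2 (hG : commutator G = ⊤) (H : HA G) (hS : IsSylowIn 2 S ⊤) (hn : ¬ S ≤ 𝐂(S)) (hM : 𝐍(S) ≤ 𝐍(K))
    (h2 : ∀ s ∈ S, ∀ t ∈ S, s ∉ K → t ∉ K → s * t ∈ K)
    (hE : ∀ D ≤ S, Ess D → ∀ Y, IsSylowIn 2 Y 𝐍(D) → ∀ y ∈ Y, ∀ d ∈ D, d⁻¹ * (y * d * y⁻¹) ∈ K) : S ≤ K :=
  tr hG H hS hn (fun s hs m hm => by
    by_cases e : s ∈ K
    · exact mul_mem (inv_mem e) (conj_mem_of_mem_normalizer (hM hm) e)
    · exact h2 _ (inv_mem hs) _ (conj_mem_of_mem_normalizer hm hs) (mt inv_mem_iff.mp e) fun e' => e (by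
        simpa [mul_assoc] using conj_mem_of_mem_normalizer' (hM hm) e')) hE

theorem eq_of_mul_le {a b A B : ℕ} (h1 : a ≤ A) (h2 : b ≤ B) (h3 : A * B ≤ a * b) (h4 : 0 < A) (h5 : 0 < B) :
    A ≤ a ∧ B ≤ b :=
  ⟨Nat.le_of_mul_le_mul_right (h3.trans (Nat.mul_le_mul_left _ h2)) h5,
    Nat.le_of_mul_le_mul_left (h3.trans (Nat.mul_le_mul_right _ h1)) h4⟩

theorem Ess.vz1 (h : Ess D) (H : HA G) (hX : IsSylowIn 2 X 𝐍(D)) (hB : B ≤ X) (h2 : ∀ b ∈ B, b * b = 1) (h3 : ¬ B ≤ D)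
    (h4 : #|zz D| ≤ #|B|) :
    FF D ∧ D ⊓ B = zz D ⊓ 𝐂(X) ∧ (∀ x ∈ X, ∃ b ∈ B, ∃ d ∈ D, b * d = x) ∧ #|B| ≤ #|zz D| := by
  have h5 : B ⊓ 𝐂(D) ≤ D := fun b hb => h.mem hX.pgroup (h.le hX) (hB hb.1) hb.2
  have F := h.ff H (hB.trans hX.le) h2 (fun e => h3 ((le_inf le_rfl e).trans h5)) h4 h5
  obtain ⟨b, hb, h6⟩ := SetLike.not_le_iff_exists.mp h3
  have h7 : D ⊓ B ≤ zz D ⊓ 𝐂(X) := fun e he =>
    have := (mem_zz' h.ab).mpr ⟨he.1, h2 e he.2⟩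
    ⟨this, F.fixb hX (hB hb) h6 this (comm_of_sq_eq_one (fun a ha => pow_two a ▸ h2 a ha) hb he.2)⟩
  have e1 := H8.card_sup_mul_card_inf (hB.trans hX.le)
  have e2 := F.card hX
  have h8 : D ⊔ B ≤ X := sup_le (h.le hX) hB
  obtain ⟨e3, e4⟩ := eq_of_mul_le (card_le_of_le h8) (card_le_of_le h7)
    (by rw [e1, e2]; exact Nat.mul_le_mul_left _ h4) Nat.card_pos Nat.card_pos
  refine ⟨F, eq_of_le_of_card_ge h7 e4, fun x hx => (mem_sup_of_le_normalizer (hB.trans hX.le)).mp ?_,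
    Nat.le_of_mul_le_mul_left ?_ (Nat.card_pos (α := D))⟩
  · rwa [sup_comm, eq_of_le_of_card_ge h8 e3]
  · rw [← e1, ← e2]; exact Nat.mul_le_mul (card_le_of_le h8) (card_le_of_le h7)

/-- `D = V Z(Y)` -/
def VZ (D : Subgroup G) : Prop :=
  ∀ Y, IsSylowIn 2 Y 𝐍(D) → ∀ d ∈ D, ∃ v ∈ zz D, ∃ c ∈ D, c ∈ 𝐂(Y) ∧ v * c = d

theorem Ess.vz2 (h : Ess D) (F : FF D) (hX : IsSylowIn 2 X 𝐍(D)) (h1 : ∀ x ∈ X, ∃ b ∈ D', ∃ d ∈ D, b * d = x)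
    (h2 : D' ≤ X) (h3 : D' ≤ 𝐂(D')) (h4 : #|D| ≤ #|D'|) : VZ D := by
  have h5 : D ⊓ D' ≤ D ⊓ 𝐂(X) := fun e he => ⟨he.1, fun x hx => by
    obtain ⟨b, hb, d, hd, rfl⟩ := h1 x hx
    rw [mul_assoc, h.ab he.1 d hd, ← mul_assoc, h3 he.2 b hb, mul_assoc]⟩
  have h6 : D ⊓ 𝐂(X) ≤ 𝐍(zz D) := inf_le_left.trans (le_normalizer.trans (norm_zz D))
  have e1 := H8.card_sup_mul_card_inf (h2.trans hX.le)
  have e2 := F.card hX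
  have e3 := H8.card_sup_mul_card_inf h6
  rw [← inf_assoc, inf_eq_left.mpr (zz_le D)] at e3
  have h7 : zz D ⊔ D ⊓ 𝐂(X) = D := eq_of_le_of_card_ge (sup_le (zz_le D) inf_le_left) (by
    refine Nat.le_of_mul_le_mul_right ?_ (Nat.mul_pos (Nat.card_pos (α := D)) (Nat.card_pos (α := zz D)))
    calc #|D| * (#|D| * #|zz D|) ≤ #|D| * #|D'| * #|zz D| := by rw [← mul_assoc]; gcongr
      _ ≤ #|X| * #|(D ⊓ 𝐂(X) : Subgroup G)| * #|zz D| := by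
        rw [← e1]
        exact Nat.mul_le_mul_right _ (Nat.mul_le_mul (card_le_of_le (sup_le (h.le hX) h2)) (card_le_of_le h5))
      _ = _ := by rw [← e2, mul_left_comm, e3]; ring)
  intro Y hY d hd
  obtain ⟨n, hn, rfl⟩ := hX.exists_cj_eq hY
  obtain ⟨v, hv, c, hc, e⟩ := (mem_sup_of_le_normalizer' h6).mp (h7.ge (conj_mem_of_mem_normalizer' hn hd))
  exact ⟨_, conj_mem_of_mem_normalizer (norm_zz D hn) hv, _, conj_mem_of_mem_normalizer hn hc.1,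
    cj_centralizer n X ▸ conj_mem_cj n hc.2, by rw [conj_mul, e]; group⟩

theorem VZ.comm (Z : VZ D) (hY : IsSylowIn 2 Y 𝐍(D)) (hy : y ∈ Y) (hd : d ∈ D) (h : Ess D) :
    ∃ v ∈ zz D, d⁻¹ * (y * d * y⁻¹) = v⁻¹ * (y * v * y⁻¹) := by
  obtain ⟨v, hv, c, h1, h2, rfl⟩ := Z Y hY d hd
  refine ⟨v, hv, ?_⟩
  rw [← conj_mul, h2 y hy, mul_inv_cancel_right, mul_inv_rev, mul_assoc, inv_mul_eq_iff_eq_mul, ← mul_assoc]
  exact h.ab h1 _ (mul_mem (inv_mem (zz_le D hv)) (conj_mem_of_mem_normalizer (hY.le hy) (zz_le D hv)))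

theorem VZ.sq (Z : VZ D) (hY : IsSylowIn 2 Y 𝐍(D)) (hd : d ∈ D) (h : Ess D) : d * d ∈ 𝐂(Y) := by
  obtain ⟨v, hv, c, h1, h2, rfl⟩ := Z Y hY d hd
  rw [mul_assoc, ← mul_assoc c, ← h.ab h1 v (zz_le D hv), ← mul_assoc, ← mul_assoc, ((mem_zz' h.ab).mp hv).2, one_mul]
  exact mul_mem h2 h2

theorem VZ.not_sq (Z : VZ D) (h : Ess D) (F : FF D) (hX : IsSylowIn 2 X 𝐍(D)) (hx : x ∈ X) (h1 : x ∉ D) (hv : v ∈ zz D)
    (h2 : v ∉ 𝐂(X)) (hd : d ∈ D) : d * d ≠ v⁻¹ * (x * v * x⁻¹) := fun e => by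
  obtain ⟨Y, hY, h3⟩ := h.other hX
  exact h2 (F.nd hX hY (Or.inl h3) hx h1 hv (e ▸ Z.sq hY hd h))

theorem VZ.cl2 (Z : VZ D) (h : Ess D) (F : FF D) (hX : IsSylowIn 2 X 𝐍(D))
    (h1 : ∀ x ∈ X, ∃ b ∈ D', ∃ d ∈ D, b * d = x) (h2 : D' ≤ X) (h3 : D' ≤ 𝐂(D')) (hx : x ∈ X) (hy : y ∈ X) :
    ⁅x, y⁆ ∈ 𝐂(X) := by
  have key : ∀ x ∈ X, ∀ d ∈ D, d⁻¹ * (x * d * x⁻¹) ∈ 𝐂(X) := fun x hx d hd => by
    obtain ⟨v, hv, e⟩ := Z.comm hX hx hd h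
    exact e ▸ F.quad hX hx hv
  haveI : ((𝐂(X)).subgroupOf X).Normal := (normal_subgroupOf_iff_le_normalizer_inf).mpr
    (le_normalizer_inf (le_normalizer.trans (nc X)) le_normalizer)
  let f := QuotientGroup.mk' ((𝐂(X)).subgroupOf X)
  have k2 : ∀ (x d : X), d.1 ∈ D → Commute (f x) (f d) := fun x d hd => by
    have : f (d⁻¹ * (x * d * x⁻¹)) = 1 := (QuotientGroup.eq_one_iff _).mpr (key x x.2 d hd)
    rwa [map_mul, map_inv, inv_mul_eq_one, map_mul, map_mul, map_inv, eq_mul_inv_iff_mul_eq, eq_comm] at this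
  obtain ⟨b, hb, d, hd, rfl⟩ := h1 x hx
  obtain ⟨b', hb', d', hd', rfl⟩ := h1 y hy
  have : Commute (f (⟨b, h2 hb⟩ * ⟨d, h.le hX hd⟩)) (f (⟨b', h2 hb'⟩ * ⟨d', h.le hX hd'⟩)) := by
    rw [map_mul]
    refine Commute.mul_left ?_ (k2 _ _ hd).symm
    rw [map_mul]
    exact Commute.mul_right (Commute.map (Subtype.ext (h3 hb' b hb)) f) (k2 _ _ hd')
  exact (QuotientGroup.eq_one_iff ⁅(⟨_, hx⟩ : X), ⟨_, hy⟩⁆).mp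
    ((map_commutatorElement f _ _).trans (commutatorElement_eq_one_iff_commute.mpr this))

end Cfsg.Agent.H9.AI
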