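import Cfsg.Agent.H9.AI3

/-! Abelian Sylow `2`-intersections: reduction to the dihedral case. -/

set_option autoImplicit false
set_option linter.unusedSectionVars false

namespace Cfsg.Agent.H9.AI

open Subgroup Cfsg.Agent.FT Cfsg.Agent.L0 Cfsg.Agent.H8
open scoped commutatorElement

variable {G : Type*} [Group G] [Finite G] {D X Y S A B C D' : Subgroup G} {x y v g d s t m : G}

theorem grow (hP : IsPGroup 2 S) (h1 : D ≤ S) (h2 : S ⊓ 𝐍(D) ≤ D) : S ≤ D := by_contra fun e =>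
  (lt_inf_normalizer_of_pgroup hP (lt_of_le_not_ge h1 e)).not_ge h2

theorem le_or_le (h : ∀ a ∈ A, a ∈ B ∨ a ∈ C) : A ≤ B ∨ A ≤ C := by
  by_contra e
  obtain ⟨a, h1, h2⟩ := SetLike.not_le_iff_exists.mp (not_or.mp e).1
  obtain ⟨b, h3, h4⟩ := SetLike.not_le_iff_exists.mp (not_or.mp e).2
  exact (h _ (mul_mem h1 h3)).elim (fun e => h2 ((mul_mem_cancel_right ((h b h3).resolve_right h4)).mp e))
    fun e => h4 ((mul_mem_cancel_left ((h a h1).resolve_left h2)).mp e)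

/-- a counterexample -/
structure St (S : Subgroup G) : Prop where
  H : HA G
  syl : IsSylowIn 2 S ⊤
  perf : commutator G = ⊤
  c3 : ∃ x ∈ S, ∃ y ∈ S, ⁅x, y⁆ ∉ 𝐂(S)
  nsc : ∀ A ≤ S, A ≠ ⊥ → (∀ a ∈ A, a * a = 1) → ¬ ∀ a ∈ A, ∀ g, g * a * g⁻¹ ∈ S → g * a * g⁻¹ ∈ A

namespace St

variable (c : St S)
include c

theorem nab : ¬ S ≤ 𝐂(S) := fun e => by
  obtain ⟨x, hx, y, hy, h⟩ := c.c3
  exact h (commutatorElement_eq_one_iff_mul_comm.mpr (e hy x hx) ▸ one_mem _)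

theorem scl (h1 : A ≤ S) (h2 : A ≠ ⊥) (h3 : ∀ a ∈ A, a * a = 1) (hM : 𝐍(S) ≤ 𝐍(A))
    (hE : ∀ D ≤ S, Ess D → ∀ Y, IsSylowIn 2 Y 𝐍(D) → ∀ y ∈ Y, ∀ d ∈ D, d ∈ A → y * d * y⁻¹ ∈ A) : False :=
  c.nsc A h1 h2 h3 fun a ha g hg => (fus (r := fun a b => a ∈ A ↔ b ∈ A) c.H c.syl c.nab
    ⟨fun _ => Iff.rfl, Iff.symm, Iff.trans⟩ (fun s _ m hm => hM hm s) (fun D hD h Y hY y hy d hd =>
      ⟨hE D hD h Y hY y hy d hd, fun e => by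
        simpa [mul_assoc] using hE D hD h Y hY _ (inv_mem hy) _ (conj_mem_of_mem_normalizer (hY.le hy) hd) e⟩)
    (h1 ha) hg).mp ha

theorem case0 : ∃ D ≤ S, Ess D := by
  by_contra e
  have h1 : S ⊓ 𝐂(S) ≤ 𝐂((S ⊓ 𝐂(S) : Subgroup G)) := inf_le_right.trans (cent_anti inf_le_left)
  obtain ⟨z, h2, h3, h4, -⟩ := exists_orderOf_centralized c.syl.pgroup c.syl.pgroup le_normalizer
    fun e => c.nab (e ▸ bot_le)
  exact c.scl ((zz_le _).trans inf_le_left) (fun e => ne_one_of_orderOf_two h3 (mem_bot.mp (e ▸ (mem_zz' h1).mpr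
    ⟨⟨h2, h4⟩, mul_self_of_orderOf_two h3⟩))) (fun a ha => ((mem_zz' h1).mp ha).2)
    ((le_normalizer_inf le_rfl (nc S)).trans (norm_zz _)) fun D hD h => (e ⟨D, hD, h⟩).elim

variable (h : Ess D) (hD : D ≤ S)
include h hD

theorem sy : IsSylowIn 2 (S ⊓ 𝐍(D)) 𝐍(D) := h.sylS c.H c.syl c.nab hD

theorem cV : S ⊓ 𝐂(zz D) = D :=
  have h1 : D ≤ S ⊓ 𝐂(zz D) := le_inf hD (h.ab.trans (cent_anti (zz_le D)))
  le_antisymm (grow c.syl.pgroup.to_inf_left h1 fun _ hx =>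
    h.mem c.syl.pgroup hD hx.1.1 (h.faith c.H hx.2 hx.1.2)) h1

theorem nV (hm : m ∈ 𝐍(S)) (h1 : cj m (zz D) ≤ zz D) : m ∈ 𝐍(D) := by
  rw [← c.cV h hD]
  exact cj_eq_self_iff.mp (by rw [cj_inf, cj_eq_self hm, cj_eq_self (nc _ (mem_normalizer_of_cj_le h1))])

theorem eq_of (h' : Ess D') (hD' : D' ≤ S) (e : zz D ≤ D') : D = D' :=
  have h1 : D' ≤ D := c.cV h hD ▸ le_inf hD' (h'.ab.trans (cent_anti e))
  le_antisymm (fun _ hx => h'.mem c.syl.pgroup hD' (hD hx) (cent_anti h1 (h.ab hx))) h1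

theorem exV : ∃ v ∈ zz D, v ∉ 𝐂((S ⊓ 𝐍(D) : Subgroup G)) := SetLike.not_le_iff_exists.mp fun e =>
  h.not_le (c.sy h hD) ((le_inf inf_le_left (le_centralizer_iff.mp e)).trans (c.cV h hD).le)

theorem cv (F : FF D) (hv : v ∈ zz D) (h1 : v ∉ 𝐂((S ⊓ 𝐍(D) : Subgroup G))) : S ⊓ 𝐂[v] = D :=
  have h2 : D ≤ S ⊓ 𝐂[v] := le_inf hD fun _ hx => mem_centralizer_singleton_iff.mpr (h.ab (zz_le D hv) _ hx)
  le_antisymm (grow c.syl.pgroup.to_inf_left h2 fun _ hx => by_contra fun e =>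
    h1 (F.fixb (c.sy h hD) ⟨hx.1.1, hx.2⟩ e hv (mem_centralizer_singleton_iff.mp hx.1.2))) h2

omit h hD in
theorem two_normal : ∀ D ≤ S, ∀ D' ≤ S, Ess D → Ess D' → S ≤ 𝐍(D) → S ≤ 𝐍(D') → D = D' := by
  have k : ∀ D ≤ S, ∀ D' ≤ S, Ess D → Ess D' → S ≤ 𝐍(D) → D ≠ D' → #|zz D| ≤ #|zz D'| →
      #|zz D'| ≤ #|zz D| ∧ ¬ #|D| ≤ #|D'| := fun D hD D' hD' h h' h1 e h2 => by
    have hX := c.syl.of_le h1 le_top
    obtain ⟨F, -, h3, h4⟩ := h.vz1 c.H hX ((zz_le D').trans hD') (fun b hb => ((mem_zz' h'.ab).mp hb).2)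
      (fun e' => e (c.eq_of h' hD' h hD e').symm) h2
    have h5 : ∀ x ∈ S, ∃ b ∈ D', ∃ d ∈ D, b * d = x := fun x hx => by
      obtain ⟨b, hb, e⟩ := h3 x hx
      exact ⟨b, zz_le _ hb, e⟩
    obtain ⟨x, hx, y, hy, h6⟩ := c.c3
    exact ⟨h4, fun h7 => h6 ((h.vz2 F hX h5 hD' h'.ab h7).cl2 h F hX h5 hD' h'.ab hx hy)⟩
  intro D hD D' hD' h h' h1 h2
  by_contra e
  have e1 : #|zz D| = #|zz D'| := (le_total _ _).elim (fun h3 => le_antisymm h3 (k D hD D' hD' h h' h1 e h3).1)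
    fun h3 => le_antisymm (k D' hD' D hD h' h h2 (Ne.symm e) h3).1 h3
  exact (le_total _ _).elim (k D hD D' hD' h h' h1 e e1.le).2 (k D' hD' D hD h' h h2 (Ne.symm e) e1.ge).2

omit h hD in
theorem exs (hn : ¬ S ≤ 𝐍(D)) : ∃ s ∈ S, s ∈ 𝐍((S ⊓ 𝐍(D) : Subgroup G)) ∧ s ∉ 𝐍(D) := by
  obtain ⟨s, h1, h2⟩ := SetLike.not_le_iff_exists.mp fun e : S ⊓ 𝐍((S ⊓ 𝐍(D) : Subgroup G)) ≤ S ⊓ 𝐍(D) =>
    hn ((grow c.syl.pgroup inf_le_left e).trans inf_le_right)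
  exact ⟨s, h1.1, h1.2, fun e => h2 ⟨h1.1, e⟩⟩

theorem nn (hs : s ∈ S) (h1 : s ∈ 𝐍((S ⊓ 𝐍(D) : Subgroup G))) (h2 : s ∉ 𝐍(D)) :
    FF D ∧ VZ D ∧ D ⊓ cj s (zz D) = zz D ⊓ 𝐂((S ⊓ 𝐍(D) : Subgroup G)) ∧
      ∀ x ∈ S ⊓ 𝐍(D), x * x = 1 → x ∈ zz D ∨ x ∈ cj s (zz D) := by
  have hX := c.sy h hD
  have h3 : cj s D ≤ S ⊓ 𝐍(D) := cj_le_of_mem_normalizer h1 (h.le hX)
  have h' := h.cj s
  rw [cj_zz']
  obtain ⟨F, h4, h5, -⟩ := h.vz1 c.H hX ((zz_le _).trans h3) (fun b hb => ((mem_zz' h'.ab).mp hb).2)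
    (fun e => h2 (cj_eq_self_iff.mp (c.eq_of h' (h3.trans inf_le_left) h hD e))) (by rw [← cj_zz', card_cj])
  have Z := h.vz2 F hX (fun x hx => by
    obtain ⟨b, hb, e⟩ := h5 x hx
    exact ⟨b, zz_le _ hb, e⟩) h3 h'.ab (card_cj s D).ge
  refine ⟨F, Z, h4, fun x hx e => ?_⟩
  obtain ⟨b, hb, d, hd, rfl⟩ := h5 x hx
  obtain ⟨v, hv, z, h6, h7, rfl⟩ := Z _ hX d hd
  by_cases e1 : b ∈ D
  · exact Or.inl ((mem_zz' h.ab).mpr ⟨mul_mem e1 hd, e⟩)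
  by_cases e2 : v ∈ 𝐂((S ⊓ 𝐍(D) : Subgroup G))
  · refine Or.inr ((mem_zz' h'.ab).mpr ⟨mul_mem (zz_le _ hb) (h.mem c.syl.pgroup hD
      (conj_mem_of_mem_normalizer' (le_normalizer hs) (hD hd))
      (cent_anti (h.le hX) (conj_mem_of_mem_normalizer' (nc _ h1) (mul_mem e2 h7))) |> mem_cj.mpr), e⟩)
  have hb' := h3 (zz_le _ hb)
  refine (Z.not_sq h F hX hb' e1 hv e2 (inv_mem h6) ?_).elim
  have e3 := inv_eq_of_mul_eq_one_right ((mem_zz' h.ab).mp hv).2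
  have e4 := h.ab (zz_le D hv) _ (conj_mem_of_mem_normalizer hb'.2 (zz_le D hv))
  rw [e3, ← e4, inv_eq_of_mul_eq_one_right ((mem_zz' h'.ab).mp hb).2, ← mul_inv_rev, inv_eq_iff_mul_eq_one, ← e]
  have e5 := h7 _ (mul_mem hb' (h.le hX (zz_le D hv)))
  calc z * z * (b * v * b * v) = z * (z * (b * v)) * (b * v) := by group
    _ = (z * (b * v)) * (z * (b * v)) := by rw [← e5, ← mul_assoc z, mul_assoc _ z, ← e5]
    _ = _ := by rw [← e5, mul_assoc b]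

theorem case1 (hn : S ≤ 𝐍(D)) : False := by
  have key : ∀ D' ≤ S, Ess D' → D' = D := fun D' hD' h' => by
    by_cases e : S ≤ 𝐍(D')
    · exact c.two_normal D' hD' D hD h' h e hn
    have hX := c.sy h' hD'
    by_cases e1 : zz D ≤ S ⊓ 𝐍(D')
    · obtain ⟨s, hs, h1, h2⟩ := c.exs e
      rcases le_or_le fun a ha => (c.nn h' hD' hs h1 h2).2.2.2 a (e1 ha) ((mem_zz' h.ab).mp ha).2 with e2 | e2
      · exact (c.eq_of h hD h' hD' (e2.trans (zz_le _))).symm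
      · exact cj_injective s ((c.eq_of h hD (h'.cj s) (cj_le_of_mem hs hD') (e2.trans (cj_mono s (zz_le _)))).symm.trans
          (cj_eq_self (hn hs)).symm)
    obtain ⟨t, ⟨h1, h2⟩, h3⟩ := SetLike.not_le_iff_exists.mp fun e2 => e1 (le_sup_left.trans (grow
      (c.syl.pgroup.to_le (sup_le ((zz_le D).trans hD) inf_le_left)) (le_sup_right (a := zz D)) e2))
    obtain ⟨s, hs, x, hx, rfl⟩ := (mem_sup_of_le_normalizer' (inf_le_left.trans (hn.trans (norm_zz D)))).mp h1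
    have h4 := (mul_mem_cancel_right (le_normalizer hx)).mp h2
    obtain ⟨-, -, h5, h6⟩ := c.nn h' hD' (hD (zz_le D hs)) h4 fun e => h3 (mul_mem ⟨hD (zz_le D hs), e⟩ hx)
    obtain ⟨v, hv, h7⟩ := c.exV h' hD'
    have h8 : v * (s * v * s⁻¹) ∈ zz D := by
      have := mul_mem (conj_mem_of_mem_normalizer (norm_zz D (hn (hD' (zz_le _ hv)))) hs) (inv_mem hs)
      rwa [inv_eq_of_mul_eq_one_right ((mem_zz' h'.ab).mp hv).2, mul_assoc, mul_assoc, ← mul_assoc s] at this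
    have h9 := h'.le hX (zz_le _ hv)
    rcases h6 _ (mul_mem h9 (conj_mem_of_mem_normalizer h4 h9)) ((mem_zz' h.ab).mp h8).2 with e2 | e2
    · exact (h7 ((nc _ h4 v).mpr (h5.le ⟨zz_le _ ((mul_mem_cancel_left hv).mp e2), conj_mem_cj s hv⟩).2)).elim
    · exact (h7 (h5.le ⟨zz_le _ hv, (mul_mem_cancel_right (conj_mem_cj s hv)).mp e2⟩).2).elim
  obtain ⟨v, hv, h1⟩ := c.exV h hD
  refine c.scl ((zz_le D).trans hD) (fun e => h1 (mem_bot.mp (e ▸ hv) ▸ one_mem _)) (fun a ha => ((mem_zz' h.ab).mp ha).2)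
    (fun m hm => norm_zz D (cj_eq_self_iff.mp (key _ (cj_le_of_mem_normalizer hm hD) (h.cj m))))
    fun D' hD' h' Y hY y hy d _ hd => ?_
  obtain rfl := key D' hD' h'
  exact conj_mem_of_mem_normalizer (norm_zz _ (hY.le hy)) hd

theorem alt (hs : s ∈ S) (h1 : s ∈ 𝐍((S ⊓ 𝐍(D) : Subgroup G))) (h2 : s ∉ 𝐍(D)) (hm : m ∈ 𝐍(S))
    (h3 : cj m (zz D) ≤ S ⊓ 𝐍(D)) : m ∈ 𝐍(D) ∨ s⁻¹ * m ∈ 𝐍(D) :=
  (le_or_le fun a ha => (c.nn h hD hs h1 h2).2.2.2 a (h3 ha) ((mem_zz' (h.cj m).ab).mp (cj_zz' m D ▸ ha)).2).imp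
    (c.nV h hD hm) fun e => c.nV h hD (mul_mem (inv_mem (le_normalizer hs)) hm) (by
      rw [cj_mul, cj_le_iff, inv_inv]; exact e)

theorem idx (hs : s ∈ S) (h1 : s ∈ 𝐍((S ⊓ 𝐍(D) : Subgroup G))) (h2 : s ∉ 𝐍(D)) (ht : t ∈ S)
    (h3 : t ∈ 𝐍((S ⊓ 𝐍(D) : Subgroup G))) (h4 : t ∉ 𝐍(D)) : s * t ∈ 𝐍(D) := by
  simpa using (c.alt h hD (inv_mem hs) (inv_mem h1) (mt inv_mem_iff.mp h2) (le_normalizer ht)
    (cj_le_of_mem_normalizer h3 ((zz_le D).trans (h.le (c.sy h hD))))).resolve_left h4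

theorem fixW (hs : s ∈ S) (h1 : s ∈ 𝐍((S ⊓ 𝐍(D) : Subgroup G))) (h2 : s ∉ 𝐍(D)) (hx : x ∈ S ⊓ 𝐍(D)) (h3 : x * x = 1)
    (h4 : s * x = x * s) : x ∈ 𝐂((S ⊓ 𝐍(D) : Subgroup G)) := by
  obtain ⟨-, -, h5, h6⟩ := c.nn h hD hs h1 h2
  have h7 : x ∈ cj s (zz D) ↔ x ∈ zz D := by rw [mem_cj, mul_assoc, ← h4, inv_mul_cancel_left]
  exact (h5.le ⟨zz_le D ((h6 x hx h3).elim id h7.mp), (h6 x hx h3).elim h7.mpr id⟩).2

theorem case2a (hall : ∀ D' ≤ S, Ess D' → ¬ S ≤ 𝐍(D')) {v₁ v₂ : G} (hv₁ : v₁ ∈ zz D) (hv₂ : v₂ ∈ zz D)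
    (n₁ : v₁ ∉ 𝐂((S ⊓ 𝐍(D) : Subgroup G))) (n₂ : v₂ ∉ 𝐂((S ⊓ 𝐍(D) : Subgroup G))) :
    v₁ * v₂ ∈ 𝐂((S ⊓ 𝐍(D) : Subgroup G)) := by
  by_contra n₃
  have hX := c.sy h hD
  obtain ⟨s, hs, h1, h2⟩ := c.exs (hall D hD h)
  have F := (c.nn h hD hs h1 h2).1
  have b1 : ∀ m ∈ 𝐍(S), cj m (zz D) ≤ S ⊓ 𝐍((S ⊓ 𝐍(D) : Subgroup G)) → m ∈ 𝐍((S ⊓ 𝐍(D) : Subgroup G)) := fun m hm e => by
    have k : ∀ m ∈ 𝐍(S), m ∈ 𝐍(D) → m ∈ 𝐍((S ⊓ 𝐍(D) : Subgroup G)) := fun m h1 h2 =>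
      le_normalizer_inf inf_le_left (inf_le_right.trans le_normalizer) (mem_inf.mpr ⟨h1, h2⟩)
    refine (c.alt h hD hs h1 h2 hm fun a ha => ⟨(e ha).1, by_contra fun e1 => ?_⟩).elim (k m hm) fun e' =>
      (mul_mem_cancel_left (inv_mem h1)).mp (k _ (mul_mem (inv_mem (le_normalizer hs)) hm) e')
    have k2 : ∀ v ∈ zz D, v ∉ 𝐂((S ⊓ 𝐍(D) : Subgroup G)) → m * v * m⁻¹ ∉ 𝐍(D) := fun v hv h3 h4 => by
      have h5 := conj_mem_cj m hv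
      have h6 := c.fixW h hD (e ha).1 (e ha).2 e1 ⟨(e h5).1, h4⟩ ((mem_zz' (h.cj m).ab).mp (cj_zz' m D ▸ h5)).2
        ((h.cj m).ab (cj_mono m (zz_le D) h5) _ (cj_mono m (zz_le D) ha))
      have h7 : S ⊓ 𝐍(D) ≤ cj m D := by
        rw [← congrArg (cj m) (c.cv h hD F hv h3), cj_inf, cj_eq_self hm, cj_centralizer_singleton]
        exact fun x hx => ⟨hx.1, mem_centralizer_singleton_iff.mpr (h6 x hx)⟩
      exact h.nab hX (h7.trans ((h.cj m).ab.trans (cent_anti h7)))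
    exact k2 _ (mul_mem hv₁ hv₂) n₃ (conj_mul (a := v₁) (b := m) ▸ c.idx h hD (e (conj_mem_cj m hv₁)).1 (e (conj_mem_cj m hv₁)).2
      (k2 _ hv₁ n₁) (e (conj_mem_cj m hv₂)).1 (e (conj_mem_cj m hv₂)).2 (k2 _ hv₂ n₂))
  have hVX : zz D ≤ S ⊓ 𝐍(D) := (zz_le D).trans (h.le hX)
  have b2 : S ≤ 𝐍((S ⊓ 𝐍(D) : Subgroup G)) := (grow c.syl.pgroup inf_le_left fun m hm => ⟨hm.1, b1 m (le_normalizer hm.1)
    (cj_le_of_mem_normalizer hm.2 (hVX.trans (le_inf inf_le_left le_normalizer)))⟩).trans inf_le_right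
  have b3 : ∀ s ∈ S, ∀ t ∈ S, s ∉ S ⊓ 𝐍(D) → t ∉ S ⊓ 𝐍(D) → s * t ∈ S ⊓ 𝐍(D) := fun s hs t ht e1 e2 =>
    ⟨mul_mem hs ht, c.idx h hD hs (b2 hs) (fun e => e1 ⟨hs, e⟩) ht (b2 ht) fun e => e2 ⟨ht, e⟩⟩
  refine h2 (tr2 c.perf c.H c.syl c.nab (fun m hm => b1 m hm (le_inf (cj_le_of_mem_normalizer hm (hVX.trans inf_le_left))
    ((cj_le_of_mem_normalizer hm (hVX.trans inf_le_left)).trans b2))) b3 (fun D' hD' h' Y hY y hy d hd => ?_) hs).2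
  obtain ⟨s', hs', h3, h4⟩ := c.exs (hall D' hD' h')
  obtain ⟨F', Z', -⟩ := c.nn h' hD' hs' h3 h4
  have hX' := c.sy h' hD'
  obtain ⟨u, hu, e⟩ := Z'.comm hY hy hd h'
  refine (?_ : zz D' ≤ _) (e ▸ mul_mem (inv_mem hu) (conj_mem_of_mem_normalizer (norm_zz _ (hY.le hy)) hu))
  by_contra e1
  obtain ⟨w, hw, h5, h6⟩ : ∃ w ∈ zz D', w ∉ 𝐂((S ⊓ 𝐍(D') : Subgroup G)) ∧ w ∉ S ⊓ 𝐍(D) := by
    by_contra e2
    push Not at e2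
    obtain ⟨w, hw, h5⟩ := c.exV h' hD'
    exact e1 fun a ha => by_contra fun e3 => e3 ((mul_mem_cancel_left (e2 w hw h5)).mp (e2 _ (mul_mem hw ha) fun e4 =>
      h5 ((mul_mem_cancel_right (by_contra fun e5 => e3 (e2 a ha e5))).mp e4)))
  have hwS := hD' (zz_le _ hw)
  have h7 : w ∉ 𝐍(D) := fun e => h6 ⟨hwS, e⟩
  have hw2 := ((mem_zz' h'.ab).mp hw).2
  have hw3 := inv_eq_of_mul_eq_one_right hw2
  have h8 := (c.nn h hD hwS (b2 hwS) h7).2.2.1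
  have k1 : ∀ v ∈ zz D, w * v * w⁻¹ ∈ S ⊓ 𝐍(D) := fun v hv => conj_mem_of_mem_normalizer (b2 hwS) (hVX hv)
  have k2 : ∀ v ∈ zz D, v ∉ 𝐂((S ⊓ 𝐍(D) : Subgroup G)) → v * (w * v * w⁻¹) ∈ S ⊓ 𝐍(D') ∧ v * (w * v * w⁻¹) ∉ D' ∧
      v * (w * v * w⁻¹) * (v * (w * v * w⁻¹)) = w⁻¹ * (v * (w * v * w⁻¹) * w * (v * (w * v * w⁻¹))⁻¹) := fun v hv h9 => by
    have hv2 := ((mem_zz' h.ab).mp hv).2
    have hv3 := inv_eq_of_mul_eq_one_right hv2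
    have e1 : v * (w * v * w⁻¹) * (v * (w * v * w⁻¹)) = v⁻¹ * (w * v * w⁻¹ * v * (w * v * w⁻¹)⁻¹) := by
      simp only [mul_inv_rev, hv3, inv_inv, mul_assoc]
    have e2 := F.quad hX (k1 v hv) hv
    have e3 : w * v * w⁻¹ ∉ D := fun e => h9 ((nc _ (b2 hwS) v).mpr (h8.le ⟨e, conj_mem_cj w hv⟩).2)
    have e4 : v⁻¹ * (w * v * w⁻¹ * v * (w * v * w⁻¹)⁻¹) ∈ zz D :=
      mul_mem (inv_mem hv) (conj_mem_of_mem_normalizer (norm_zz D (k1 v hv).2) hv)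
    have e5 := ((mem_zz' h.ab).mp e4).2
    have e6 : v⁻¹ * (w * v * w⁻¹ * v * (w * v * w⁻¹)⁻¹) ≠ 1 := fun e =>
      h9 (F.fixb hX (k1 v hv) e3 hv (mul_inv_eq_iff_eq_mul.mp (inv_mul_eq_one.mp e).symm))
    have e7 : w * (v * (w * v * w⁻¹)) = (v * (w * v * w⁻¹))⁻¹ * w := by
      simp only [mul_inv_rev, hv3, hw3, mul_assoc, hw2, mul_one]
    have e8 : v * (w * v * w⁻¹) ∈ S := (mul_mem (hVX hv) (k1 v hv)).1
    rw [← e1] at e5 e6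
    generalize v * (w * v * w⁻¹) = a at *
    have e9 : w * (a * a) = a * a * w := by
      rw [← mul_assoc, e7, mul_assoc, e7, ← mul_assoc, ← mul_inv_rev, inv_eq_of_mul_eq_one_right e5]
    have e10 : a * w * a⁻¹ = a * a * w := by
      rw [mul_assoc, mul_assoc, mul_right_inj, mul_inv_eq_iff_eq_mul, mul_assoc, e7, mul_inv_cancel_left]
    have e11 : a * a ∈ D' := c.cv h' hD' F' hw h5 ▸ mem_inf.mpr ⟨mul_mem e8 e8, mem_centralizer_singleton_iff.mpr e9.symm⟩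
    refine ⟨⟨e8, cj_eq_self_iff.mp (eq_of_le_of_card_ge ?_ (card_cj a D').le).symm⟩, fun e => e6 ?_, by
      rw [e10, ← e9, inv_mul_cancel_left]⟩
    · rw [← congrArg (cj a) (c.cv h' hD' F' hw h5), cj_inf, cj_eq_self (le_normalizer e8), cj_centralizer_singleton, e10]
      exact le_inf hD' fun x hx => mem_centralizer_singleton_iff.mpr (h'.ab (mul_mem e11 (zz_le _ hw)) x hx)
    · rwa [h'.ab (zz_le _ hw) a e, mul_inv_cancel_right, eq_comm, mul_eq_right] at e10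
  obtain ⟨a1, a2, -⟩ := k2 _ hv₁ n₁
  obtain ⟨a3, a4, -⟩ := k2 _ hv₂ n₂
  obtain ⟨a5, a6, a7⟩ := k2 _ (mul_mem hv₁ hv₂) n₃
  have k3 : ∀ u ∈ zz D', u ∈ S ⊓ 𝐍(D) → u ∈ 𝐂((S ⊓ 𝐍(D') : Subgroup G)) := fun u hu e => F'.fixb hX' a1 a2 hu
    (c.fixW h hD hwS (b2 hwS) h7 e ((mem_zz' h'.ab).mp hu).2 (h'.ab (zz_le _ hu) w (zz_le _ hw)) _
      (mul_mem (hVX hv₁) (k1 _ hv₁)))
  have a8 := F'.uniq hX' (fun a ha b hb e1 e2 => k3 _ (mul_mem ha hb) (b3 a (hD' (zz_le _ ha)) b (hD' (zz_le _ hb))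
    (mt (k3 a ha) e1) (mt (k3 b hb) e2))) (inv_mem a1) a3 (mt inv_mem_iff.mp a2) a4
  refine Z'.not_sq h' F' hX' a5 a6 hw h5 a8 ?_
  have a9 := F.quad hX (k1 _ hv₁) hv₂
  have a10 := ((mem_zz' h.ab).mp (mul_mem (inv_mem hv₂) (conj_mem_of_mem_normalizer (norm_zz D (k1 _ hv₁).2) hv₂))).2
  have a11 := a9 _ (mul_mem (hVX (mul_mem hv₁ hv₂)) (k1 _ (mul_mem hv₁ hv₂)))
  have a12 : v₁ * (w * v₁ * w⁻¹) * (v₂ * (w * v₂ * w⁻¹)) = v₁ * v₂ * (w * (v₁ * v₂) * w⁻¹) *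
      (v₂⁻¹ * (w * v₁ * w⁻¹ * v₂ * (w * v₁ * w⁻¹)⁻¹)) := by
    rw [mul_assoc (v₁ * v₂), a9 _ (k1 _ (mul_mem hv₁ hv₂))]; group
  rw [inv_inv, a12, ← a7]
  generalize v₂⁻¹ * (w * v₁ * w⁻¹ * v₂ * (w * v₁ * w⁻¹)⁻¹) = z at *
  generalize v₁ * v₂ * (w * (v₁ * v₂) * w⁻¹) = a at *
  rw [mul_assoc, ← mul_assoc z, ← a11, mul_assoc a z, a10, mul_one]

end St

end Cfsg.Agent.H9.AI
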