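import Cfsg.Agent.H9.AI4

/-! Abelian Sylow `2`-intersections: the dihedral case. -/

set_option autoImplicit false
set_option linter.unusedSectionVars false

namespace Cfsg.Agent.H9.AI

open Subgroup Cfsg.Agent.FT Cfsg.Agent.L0 Cfsg.Agent.H8
open scoped commutatorElement

variable {G : Type*} [Group G] [Finite G] {D X Y S K M : Subgroup G} {x y u v w g d s t m z a : G}

/-- the non-central involutions produced by essential subgroups -/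
def VV (S : Subgroup G) (v : G) : Prop :=
  ∃ D ≤ S, Ess D ∧ ∃ Y, IsSylowIn 2 Y 𝐍(D) ∧ ∃ y ∈ Y, ∃ u ∈ zz D, v = u⁻¹ * (y * u * y⁻¹) ∧
    v ∉ 𝐂((S ⊓ 𝐍(D) : Subgroup G))

/-- the local properties -/
structure PZ (S : Subgroup G) (v z : G) : Prop where
  ne : z ≠ 1
  sq : z * z = 1
  comm : z * v = v * z
  vv : VV S (v * z)
  cm : ∀ w, VV S w → w * v = v * w → w = v ∨ w = v * z
  nsq : ∀ d ∈ S, d * v = v * d → d * d ≠ z

theorem PZ.uniq {z' : G} (p : PZ S v z) (p' : PZ S v z') : z' = z :=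
  (p.cm _ p'.vv (by rw [mul_assoc, p'.comm])).elim (fun e => (p'.ne (mul_eq_left.mp e)).elim) mul_left_cancel

/-- centralizes all Sylow subgroups of the normalizer -/
def D0 (D : Subgroup G) (x : G) : Prop := ∀ Y, IsSylowIn 2 Y 𝐍(D) → x ∈ 𝐂(Y)

theorem D0.cj (h : D0 D x) (g : G) : D0 (cj g D) (g * x * g⁻¹) := fun Y hY => by
  have := hY.cj g⁻¹
  rw [cj_normalizer, cj_inv_cj] at this
  simpa only [cj_centralizer, cj_cj_inv] using conj_mem_cj g (h _ this)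

theorem comm_mem_zz (hy : y ∈ 𝐍(D)) (hu : u ∈ zz D) : u⁻¹ * (y * u * y⁻¹) ∈ zz D :=
  mul_mem (inv_mem hu) (conj_mem_of_mem_normalizer (norm_zz D hy) hu)

theorem cent_cj (h : u ∈ 𝐂(X)) (g : G) : g * u * g⁻¹ ∈ 𝐂(cj g X) := cj_centralizer g X ▸ conj_mem_cj g h

theorem comm_mem_of_idx (h : ∀ a ∈ M, ∀ b ∈ M, a ∉ K → b ∉ K → a * b ∈ K) (hs : s ∈ M) (hm : m ∈ M) :
    s⁻¹ * (m * s * m⁻¹) ∈ K := by
  by_cases e1 : s ∈ K <;> by_cases e2 : m ∈ K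
  · exact mul_mem (inv_mem e1) (mul_mem (mul_mem e2 e1) (inv_mem e2))
  · exact mul_mem (inv_mem e1) (h _ (mul_mem hm hs) _ (inv_mem hm) (mt (mul_mem_cancel_right e1).mp e2)
      (mt inv_mem_iff.mp e2))
  · rw [mul_assoc, ← mul_assoc]
    exact h _ (mul_mem (inv_mem hs) hm) _ (mul_mem hs (inv_mem hm))
      (mt (fun e => inv_mem_iff.mp ((mul_mem_cancel_right e2).mp e)) e1) (mt (mul_mem_cancel_right (inv_mem e2)).mp e1)
  · rw [mul_assoc, ← mul_assoc]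
    exact mul_mem (h _ (inv_mem hs) _ hm (mt inv_mem_iff.mp e1) e2) (h _ hs _ (inv_mem hm) e1 (mt inv_mem_iff.mp e2))

theorem cyc_comm (hs : s ∈ 𝐍(zpowers a)) (hm : m ∈ 𝐍(zpowers a)) :
    s⁻¹ * (m * s * m⁻¹) * a = a * (s⁻¹ * (m * s * m⁻¹)) := by
  obtain ⟨i, hi⟩ := mem_zpowers_iff.mp (conj_mem_of_mem_normalizer hs (mem_zpowers a))
  obtain ⟨j, hj⟩ := mem_zpowers_iff.mp (conj_mem_of_mem_normalizer hm (mem_zpowers a))
  obtain ⟨k, hk⟩ := mem_zpowers_iff.mp (conj_mem_of_mem_normalizer' hm (mem_zpowers a))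
  have e : m * s * a * (m * s)⁻¹ = s * m * a * (s * m)⁻¹ := by
    calc m * s * a * (m * s)⁻¹ = m * (s * a * s⁻¹) * m⁻¹ := by group
      _ = s * (m * a * m⁻¹) * s⁻¹ := by rw [← hi, ← hj, ← conj_zpow, ← conj_zpow, ← hi, ← hj, ← zpow_mul, ← zpow_mul, mul_comm]
      _ = _ := by group
  have e2 := congrArg (· ^ k) e
  simp only [conj_zpow, hk] at e2
  calc s⁻¹ * (m * s * m⁻¹) * a = s⁻¹ * (m * s * (m⁻¹ * a * m) * (m * s)⁻¹) * (m * s * m⁻¹) := by group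
    _ = _ := by rw [e2]; group

namespace St

variable (c : St S)
include c

theorem nnorm (h : Ess D) (hD : D ≤ S) : ¬ S ≤ 𝐍(D) := c.case1 h hD

theorem fz (h : Ess D) (hD : D ≤ S) : FF D ∧ VZ D := by
  obtain ⟨s, hs, h1, h2⟩ := c.exs (c.nnorm h hD)
  exact ⟨(c.nn h hD hs h1 h2).1, (c.nn h hD hs h1 h2).2.1⟩

theorem q2 (h : Ess D) (hD : D ≤ S) (hY : IsSylowIn 2 Y 𝐍(D)) :
    ∀ u ∈ zz D, ∀ v ∈ zz D, u ∉ 𝐂(Y) → v ∉ 𝐂(Y) → u * v ∈ 𝐂(Y) := fun u hu v hv h1 h2 => by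
  obtain ⟨n, hn, rfl⟩ := (c.sy h hD).exists_cj_eq hY
  simpa [mul_assoc] using cent_cj (c.case2a h hD (fun _ hD h => c.nnorm h hD)
    (conj_mem_of_mem_normalizer' (norm_zz D hn) hu) (conj_mem_of_mem_normalizer' (norm_zz D hn) hv)
    (fun e => h1 (by simpa [mul_assoc] using cent_cj e n)) fun e => h2 (by simpa [mul_assoc] using cent_cj e n)) n

theorem vv_cj (hv : VV S v) (hm : m ∈ 𝐍(S)) : VV S (m * v * m⁻¹) := by
  obtain ⟨D, hD, h, Y, hY, y, hy, u, hu, rfl, h1⟩ := hv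
  refine ⟨cj m D, cj_le_of_mem_normalizer hm hD, h.cj m, cj m Y, cj_normalizer m D ▸ hY.cj m, _, conj_mem_cj m hy, _,
    cj_zz' m D ▸ conj_mem_cj m hu, by group, fun e => h1 ?_⟩
  rw [← cj_normalizer, ← cj_eq_self hm, ← cj_inf, ← cj_centralizer, mem_cj] at e
  simpa [mul_assoc] using e

theorem vv_of (hv : VV S v) : ∃ D ≤ S, Ess D ∧ v ∈ zz D ∧ v ∉ 𝐂((S ⊓ 𝐍(D) : Subgroup G)) ∧ S ⊓ 𝐂[v] = D ∧
    ∃ Y, IsSylowIn 2 Y 𝐍(D) ∧ ∃ y ∈ Y, ∃ u ∈ zz D, v = u⁻¹ * (y * u * y⁻¹) := by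
  obtain ⟨D, hD, h, Y, hY, y, hy, u, hu, e, h1⟩ := hv
  have h2 : v ∈ zz D := e ▸ comm_mem_zz (hY.le hy) hu
  exact ⟨D, hD, h, h2, h1, c.cv h hD (c.fz h hD).1 h2 h1, Y, hY, y, hy, u, hu, e⟩

theorem vv_mem (hv : VV S v) : v ∈ S ∧ v * v = 1 ∧ v ≠ 1 := by
  obtain ⟨D, hD, h, h1, h2, -⟩ := c.vv_of hv
  exact ⟨hD (zz_le D h1), ((mem_zz' h.ab).mp h1).2, fun e => h2 (e ▸ one_mem _)⟩

theorem pz0 (hv : VV S v) (hx : x ∈ S) (h1 : x ∈ 𝐍((S ⊓ 𝐂[v] : Subgroup G))) (h2 : x ∉ S ⊓ 𝐂[v]) :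
    PZ S v (v⁻¹ * (x * v * x⁻¹)) := by
  obtain ⟨D, hD, h, h3, h4, h5, Y, hY, y, hy, u, hu, e⟩ := c.vv_of hv
  rw [h5] at h1 h2
  obtain ⟨F, Z⟩ := c.fz h hD
  have hX := c.sy h hD
  have h6 := comm_mem_zz h1 h3
  refine ⟨fun e => h4 (F.fixb hX ⟨hx, h1⟩ h2 h3 (mul_inv_eq_iff_eq_mul.mp (inv_mul_eq_one.mp e).symm)),
    ((mem_zz' h.ab).mp h6).2, h.ab (zz_le D h3) _ (zz_le D h6), by
      simpa using c.vv_cj hv (le_normalizer hx), fun w hw e' => ?_, fun d hd e' =>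
    Z.not_sq h F hX ⟨hx, h1⟩ h2 h3 h4 (h5 ▸ mem_inf.mpr ⟨hd, mem_centralizer_singleton_iff.mpr e'⟩)⟩
  obtain ⟨D', hD', h', h7, h8, h9, R, hR, r, hr, u', hu', e2⟩ := c.vv_of hw
  obtain rfl : D = D' := c.eq_of h hD h' hD' ((zz_le D).trans (h9 ▸ le_inf hD fun d hd =>
    mem_centralizer_singleton_iff.mpr (h.ab (h5 ▸ mem_inf.mpr ⟨hD' (zz_le _ h7), mem_centralizer_singleton_iff.mpr e'⟩) d hd)))
  subst e e2
  simpa only [mul_inv_cancel_left] using F.two hX hY hR (c.q2 h hD hX) ⟨hx, h1⟩ h2 hy hr hu' hu h4 h8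

theorem exx (hv : VV S v) : ∃ x ∈ S, x ∈ 𝐍((S ⊓ 𝐂[v] : Subgroup G)) ∧ x ∉ S ⊓ 𝐂[v] := by
  obtain ⟨D, hD, h, -, -, rfl, -⟩ := c.vv_of hv
  obtain ⟨x, h1, h2⟩ := SetLike.not_le_iff_exists.mp (h.not_le (c.sy h hD))
  exact ⟨x, h1.1, h1.2, h2⟩

theorem exv (h : Ess D) (hD : D ≤ S) : ∃ v, VV S v ∧ S ⊓ 𝐂[v] = D := by
  have hX := c.sy h hD
  obtain ⟨Y, hY, h1⟩ := h.other hX
  obtain ⟨y, h2, h3⟩ := SetLike.not_le_iff_exists.mp (h.not_le hY)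
  obtain ⟨u, h4, h5⟩ : ∃ u ∈ zz D, u ∉ 𝐂(Y) := SetLike.not_le_iff_exists.mp fun e =>
    h3 (h.mem hY.pgroup (h.le hY) h2 (h.faith c.H (hY.le h2) (le_centralizer_iff.mp e h2)))
  have h6 := mt ((c.fz h hD).1.nd hY hX (Or.inr h1) h2 h3 h4) h5
  exact ⟨_, ⟨D, hD, h, Y, hY, y, h2, u, h4, rfl, h6⟩, c.cv h hD (c.fz h hD).1 (comm_mem_zz (hY.le h2) h4) h6⟩

theorem exnc : ∃ v w, VV S v ∧ VV S w ∧ w * v ≠ v * w := by
  obtain ⟨D, hD, h⟩ := c.case0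
  obtain ⟨v, hv, e⟩ := c.exv h hD
  obtain ⟨s, hs, h1⟩ := SetLike.not_le_iff_exists.mp (c.nnorm h hD)
  refine ⟨v, _, hv, c.vv_cj hv (le_normalizer hs), fun e' => h1 (cj_eq_self_iff.mp (eq_of_le_of_card_ge ?_
    (card_cj s D).le).symm)⟩
  rw [← congrArg (cj s) e, cj_inf, cj_eq_self (le_normalizer hs), cj_centralizer_singleton]
  exact le_inf hD fun d hd => mem_centralizer_singleton_iff.mpr (h.ab (e ▸ mem_inf.mpr
    ⟨conj_mem_of_mem_normalizer (le_normalizer hs) (c.vv_mem hv).1, mem_centralizer_singleton_iff.mpr e'⟩) d hd)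

theorem ess_le (hK : ∀ v, VV S v → v ∈ K) (D : Subgroup G) (hD : D ≤ S) (h : Ess D) (Y : Subgroup G)
    (hY : IsSylowIn 2 Y 𝐍(D)) (y : G) (hy : y ∈ Y) (d : G) (hd : d ∈ D) : d⁻¹ * (y * d * y⁻¹) ∈ K := by
  obtain ⟨F, Z⟩ := c.fz h hD
  have hX := c.sy h hD
  obtain ⟨u, hu, e⟩ := Z.comm hY hy hd h
  rw [e]
  by_cases h1 : u⁻¹ * (y * u * y⁻¹) ∈ 𝐂((S ⊓ 𝐍(D) : Subgroup G))
  swap
  · exact hK _ ⟨D, hD, h, Y, hY, y, hy, u, hu, rfl, h1⟩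
  by_cases h2 : Y ≤ S ⊓ 𝐍(D) ⊔ 𝐂(D)
  · obtain ⟨x, hx, k, hk, rfl⟩ := (mem_sup_of_le_normalizer (inf_le_right.trans (nc D))).mp (h2 hy)
    rw [mul_assoc x, ← hk u (zz_le D hu), show x * (u * k) * (x * k)⁻¹ = x * u * x⁻¹ by group]
    by_cases h3 : u ∈ 𝐂((S ⊓ 𝐍(D) : Subgroup G))
    · simp [h3 x hx]
    obtain ⟨v, hv, e'⟩ := c.exv h hD
    obtain ⟨D, -, -, h4, h5, rfl, -⟩ := c.vv_of hv
    subst e'
    have h6 := c.q2 h hD hX u hu v h4 h3 h5 x hx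
    rw [show u⁻¹ * (x * u * x⁻¹) = v * (x * v * x⁻¹)⁻¹ by
      rw [inv_mul_eq_iff_eq_mul, ← mul_assoc, eq_mul_inv_iff_mul_eq, conj_mul, h6, mul_inv_cancel_right]]
    exact mul_mem (hK v hv) (inv_mem (hK _ (c.vv_cj hv (le_normalizer hx.1))))
  · by_cases h3 : y ∈ D
    · simp [h.ab (zz_le D hu) y h3]
    · simp [F.nd hY hX (Or.inr h2) hy h3 hu h1 y hy]

theorem pz_pow (hv : VV S v) (hw : VV S w) (p : PZ S v z) {k : ℕ} (h1 : (v * w) ^ k * (v * w) ^ k ≠ 1)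
    (h2 : ((v * w) ^ k * (v * w) ^ k) * ((v * w) ^ k * (v * w) ^ k) = 1) : (v * w) ^ k * (v * w) ^ k = z := by
  obtain ⟨h3, h4, -⟩ := c.vv_mem hv
  have h5 := conj_mul_pow_left h4 (c.vv_mem hw).2.1 k
  have h6 := c.vv_cj hv (le_normalizer (inv_mem (pow_mem (mul_mem h3 (c.vv_mem hw).1) k)))
  generalize (v * w) ^ k = e at *
  have h7 : e⁻¹ * v * e⁻¹⁻¹ = v * (e * e) := by rw [inv_inv, ← h5]; group
  rw [h7] at h6
  refine (p.cm _ h6 ?_).elim (fun e => (h1 (mul_eq_left.mp e)).elim) mul_left_cancel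
  have h8 : v * (e * e) * v⁻¹ = e * e := by rw [← conj_mul, h5, ← mul_inv_rev, inv_eq_of_mul_eq_one_right h2]
  rw [mul_assoc, mul_inv_eq_iff_eq_mul.mp h8]

theorem ex_pow (hv : VV S v) (hw : VV S w) (h : w * v ≠ v * w) : ∃ k, (v * w) ^ k * (v * w) ^ k ≠ 1 ∧
    ((v * w) ^ k * (v * w) ^ k) * ((v * w) ^ k * (v * w) ^ k) = 1 := by
  obtain ⟨h1, h2, -⟩ := c.vv_mem hv
  obtain ⟨h3, h4, -⟩ := c.vv_mem hw
  obtain ⟨j, h5, h6⟩ := exists_pow_ne_one_pow_eq_one (x := v * w * (v * w)) (fun e => h (by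
    rw [← inv_eq_of_mul_eq_one_right e, mul_inv_rev, inv_eq_of_mul_eq_one_right h2, inv_eq_of_mul_eq_one_right h4]))
    (exists_pow_eq_one_of_mem c.syl.pgroup (mul_mem (mul_mem h1 h3) (mul_mem h1 h3)))
  rw [(Commute.refl _).mul_pow] at h5 h6
  exact ⟨_, h5, pow_two (_ : G) ▸ h6⟩

theorem exz : ∃ z, ∀ v, VV S v → PZ S v z := by
  obtain ⟨v, -, hv, -⟩ := c.exnc
  obtain ⟨x, h1, h2, h3⟩ := c.exx hv
  have p := c.pz0 hv h1 h2 h3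
  refine ⟨v⁻¹ * (x * v * x⁻¹), fun w hw => ?_⟩
  obtain ⟨y, h4, h5, h6⟩ := c.exx hw
  have p' := c.pz0 hw h4 h5 h6
  generalize v⁻¹ * (x * v * x⁻¹) = z at *
  generalize w⁻¹ * (y * w * y⁻¹) = z' at *
  suffices z = z' from this ▸ p'
  by_cases e : w * v = v * w
  · rcases p.cm w hw e with rfl | rfl
    · exact p'.uniq p
    · refine (p'.cm v hv e.symm).elim (fun e => (p.ne (left_eq_mul.mp e)).elim) fun e => ?_
      rw [mul_assoc, left_eq_mul] at e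
      rw [← inv_eq_of_mul_eq_one_right e, inv_eq_of_mul_eq_one_right p.sq]
  obtain ⟨k, h7, h8⟩ := c.ex_pow hv hw e
  have e1 : (w * v) ^ k = ((v * w) ^ k)⁻¹ := by
    rw [← inv_pow, mul_inv_rev, inv_eq_of_mul_eq_one_right (c.vv_mem hv).2.1, inv_eq_of_mul_eq_one_right (c.vv_mem hw).2.1]
  rw [← c.pz_pow hw hv p' (k := k) (by rwa [e1, ← mul_inv_rev, inv_ne_one]) (by
    rw [e1, ← mul_inv_rev, ← mul_inv_rev, h8, inv_one]), e1, ← mul_inv_rev, c.pz_pow hv hw p h7 h8,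
    inv_eq_of_mul_eq_one_right p.sq]

theorem dh (hz : ∀ v, VV S v → PZ S v z) : ∃ v w, VV S v ∧ VV S w ∧ ∃ n, orderOf (v * w) = 2 ^ (n + 1) ∧
    z ∈ zpowers (v * w) ∧ ∀ u, VV S u → ∃ j : ℤ, u = v * (v * w) ^ j := by
  obtain ⟨v₀, w₀, h1, h2, h3⟩ := c.exnc
  obtain ⟨⟨v, w⟩, ⟨hv, hw⟩, hm⟩ := Set.exists_max_image {p : G × G | VV S p.1 ∧ VV S p.2} (fun p => orderOf (p.1 * p.2))
    (Set.toFinite _) ⟨(v₀, w₀), h1, h2⟩
  dsimp only at hv hw hm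
  have ho : ∀ {u u'}, VV S u → VV S u' → ∃ n, orderOf (u * u') = 2 ^ n := fun hu hu' => by
    obtain ⟨k, hk⟩ := exists_pow_eq_one_of_mem c.syl.pgroup (mul_mem (c.vv_mem hu).1 (c.vv_mem hu').1)
    obtain ⟨n, -, e⟩ := (Nat.dvd_prime_pow Nat.prime_two).mp (orderOf_dvd_of_pow_eq_one hk)
    exact ⟨n, e⟩
  obtain ⟨n, hn⟩ := ho hv hw
  have h4 : ∀ {u u'}, VV S u → VV S u' → (u * u') ^ 2 ^ n = 1 := fun {u u'} hu hu' => by
    obtain ⟨k, hk⟩ := ho hu hu'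
    have := hm (u, u') ⟨hu, hu'⟩
    rw [hk, hn] at this
    exact orderOf_dvd_iff_pow_eq_one.mp (hk ▸ pow_dvd_pow 2 ((Nat.pow_le_pow_iff_right one_lt_two).mp this))
  obtain ⟨hvS, hv2, -⟩ := c.vv_mem hv
  obtain ⟨hwS, hw2, -⟩ := c.vv_mem hw
  have h5 : w * v ≠ v * w := fun e => by
    obtain ⟨k, h5, -⟩ := c.ex_pow h1 h2 h3
    have h6 : 2 ^ n ∣ 2 := hn ▸ orderOf_dvd_of_pow_eq_one (by
      rw [pow_two, mul_assoc, ← mul_assoc w, e, mul_assoc, hw2, mul_one, hv2])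
    exact h5 (by rw [← pow_two, ← pow_mul, mul_comm, pow_mul,
      orderOf_dvd_iff_pow_eq_one.mp ((orderOf_dvd_of_pow_eq_one (h4 h1 h2)).trans h6), one_pow])
  obtain ⟨k, h6, h7⟩ := c.ex_pow hv hw h5
  have h8 : z ∈ zpowers (v * w) := c.pz_pow hv hw (hz v hv) h6 h7 ▸ mul_mem (pow_mem (mem_zpowers _) k) (pow_mem (mem_zpowers _) k)
  obtain rfl | ⟨n, rfl⟩ := n.eq_zero_or_eq_succ_pred.imp id fun e => (⟨_, e⟩ : ∃ m, n = m + 1)
  · exact (h6 (by rw [orderOf_eq_one_iff.mp hn]; simp)).elim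
  refine ⟨v, w, hv, hw, n, hn, h8, fun u hu => ?_⟩
  suffices ∀ k u, VV S u → (v * u) ^ 2 ^ k = 1 → ∃ j : ℤ, u = v * (v * w) ^ j from this _ u hu (h4 hv hu)
  intro k
  induction k with
  | zero => exact fun u _ e => ⟨0, by
      rw [zpow_zero, mul_one]; exact mul_left_cancel ((by simpa using e : v * u = 1).trans hv2.symm)⟩
  | succ k ih =>
    intro u hu e
    obtain ⟨huS, hu2, -⟩ := c.vv_mem hu
    have e1 : v * (u * v * u⁻¹) = (v * u) ^ 2 := by rw [inv_eq_of_mul_eq_one_right hu2, pow_two]; group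
    obtain ⟨j, hj⟩ := ih _ (c.vv_cj hv (le_normalizer huS)) (by rwa [e1, ← pow_mul, ← pow_succ'])
    obtain ⟨i, rfl⟩ : 2 ∣ j := by
      have e2 : (v * w) ^ (j * 2 ^ n) = 1 := by
        rw [zpow_mul, show (v * w) ^ j = (v * u) ^ 2 by rw [← e1, hj, ← mul_assoc, hv2, one_mul]]
        have := h4 hv hu
        rw [pow_succ', pow_mul] at this
        exact_mod_cast this
      rw [← orderOf_dvd_iff_zpow_eq_one, hn] at e2
      exact (mul_dvd_mul_iff_right (c := 2 ^ n) (by positivity)).mp (by simpa [pow_succ'] using e2)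
    have e3 : VV S (v * (v * w) ^ i) := by
      obtain ⟨d, hd, e⟩ := H4.reflection_conj hv2 hw2 i
      have hd' := le_normalizer (zpowers_le.mpr (mul_mem hvS hwS) hd)
      exact e.elim (fun e => e.2 ▸ c.vv_cj hv hd') fun e => e.2 ▸ c.vv_cj hw hd'
    have e4 : v * (v * w) ^ i * u * v = v * (v * (v * w) ^ i * u) := by
      have e5 := H4.mul_zpow_eq_of_inverts (H4.left_conj_mul_eq_inv hv2 hw2) i
      rw [mul_assoc _ u, mul_inv_eq_iff_eq_mul.mp hj, two_mul, zpow_add]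
      rw [zpow_neg] at e5
      generalize (v * w) ^ i = b at *
      calc v * b * (v * (b * b) * u) = b⁻¹ * (v * v) * (b * b) * u := by rw [e5]; group
        _ = v * v * b * u := by rw [hv2]; group
        _ = _ := by group
    by_cases e5 : u * (v * (v * w) ^ i) = v * (v * w) ^ i * u
    · obtain ⟨l, rfl⟩ := mem_zpowers_iff.mp h8
      exact ((hz _ e3).cm u hu e5).elim (fun e => ⟨i, e⟩) fun e => ⟨i + l, by rw [e, zpow_add, mul_assoc]⟩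
    · obtain ⟨l, e6, e7⟩ := c.ex_pow e3 hu e5
      exact ((hz v hv).nsq _ (pow_mem (mul_mem (c.vv_mem e3).1 huS) l) (Commute.pow_left e4 l)
        (c.pz_pow e3 hu (hz _ e3) e6 e7)).elim

theorem d0a (hv : VV S v) (p : PZ S v z) (h1 : g ∈ S) (h2 : g ∈ 𝐂(S)) : D0 (S ⊓ 𝐂[v]) g ∨ D0 (S ⊓ 𝐂[v]) (g * z) := by
  obtain ⟨x, hx, h3, h4⟩ := c.exx hv
  obtain rfl := (c.pz0 hv hx h3 h4).uniq p
  obtain ⟨D, hD, h, h5, h6, h7, Y, hY, y, hy, u, hu, e⟩ := c.vv_of hv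
  rw [h7] at h3 h4 ⊢
  obtain ⟨F, Z⟩ := c.fz h hD
  have hX := c.sy h hD
  have hx' : x ∈ S ⊓ 𝐍(D) := ⟨hx, h3⟩
  have hg : g ∈ D := h.mem c.syl.pgroup hD h1 (cent_anti hD h2)
  have k : ∀ d ∈ D, d ∈ 𝐂((S ⊓ 𝐍(D) : Subgroup G)) → d ∈ 𝐂(Y) → D0 D d := fun d hd e1 e2 R hR r hr => by
    by_contra e3
    obtain ⟨u', hu', e4⟩ := Z.comm hR hr hd h
    have e5 : u'⁻¹ * (r * u' * r⁻¹) ≠ 1 := fun e => e3 (mul_inv_eq_iff_eq_mul.mp (inv_mul_eq_one.mp (e4 ▸ e)).symm)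
    have k2 : ∀ {Q}, IsSylowIn 2 Q 𝐍(D) → d ∈ 𝐂(Q) → u'⁻¹ * (r * u' * r⁻¹) ∉ 𝐂(Q) := fun {Q} hQ e6 e7 => by
      by_cases e8 : R ≤ Q ⊔ 𝐂(D)
      · exact e3 (le_centralizer_iff.mp (e8.trans (sup_le (le_centralizer_iff.mp (zpowers_le.mpr e6))
          (cent_anti (zpowers_le.mpr hd)))) (mem_zpowers d) r hr)
      · exact e5 (by simp [F.nd hR hQ (Or.inr e8) hr (fun e => e3 (h.ab hd r e)) hu' e7 r hr])
    rcases F.two hX hY hR (c.q2 h hD hX) hx' h4 hy hr hu' hu (e ▸ h6) (k2 hX e1) with e6 | e6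
    · exact k2 hY e2 (e6 ▸ F.quad hY hy hu)
    · exact k2 (hY.cj_of_mem_normalizer (le_normalizer h3)) (by simpa [e1 x hx'] using cent_cj e2 x)
        (e6 ▸ cent_cj (F.quad hY hy hu) x)
  have h8 : g ∈ 𝐂((S ⊓ 𝐍(D) : Subgroup G)) := cent_anti inf_le_left h2
  by_cases e1 : g ∈ 𝐂(Y)
  · exact Or.inl (k g hg h8 e1)
  have h9 := comm_mem_zz h3 h5
  refine Or.inr (k _ (mul_mem hg (zz_le D h9)) (mul_mem h8 (F.quad hX hx' h5)) ?_)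
  obtain ⟨u', h10, d, h11, h12, rfl⟩ := Z Y hY g hg
  rw [mul_assoc, h.ab (zz_le D h9) d h11, ← mul_assoc]
  refine mul_mem (c.q2 h hD hY u' h10 _ h9 (fun e => e1 (mul_mem e h12)) fun e2 =>
    h6 (F.nd hX hY (Or.inl fun e3 => h6 ?_) hx' h4 h5 e2)) h12
  obtain ⟨a, ha, b, hb, rfl⟩ := (mem_sup_of_le_normalizer (inf_le_right.trans (nc D))).mp (e3 hy)
  rw [e, mul_assoc a, ← hb u (zz_le D hu), show a * (u * b) * (a * b)⁻¹ = a * u * a⁻¹ by group]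
  exact F.quad hX ha hu

theorem d0b (h1 : g ∈ S) (h2 : g ∈ 𝐂(S)) (h3 : ∀ D ≤ S, Ess D → D0 D g) : g = 1 := by
  let A : Subgroup G := S ⊓ 𝐂(S) ⊓ ⨅ (D) (_ : D ≤ S) (_ : Ess D) (Y) (_ : IsSylowIn 2 Y 𝐍(D)), 𝐂(Y)
  have hA : ∀ a, a ∈ A ↔ (a ∈ S ∧ a ∈ 𝐂(S)) ∧ ∀ D ≤ S, Ess D → D0 D a := fun a => by
    simp only [A, mem_inf, mem_iInf, D0]
  have h4 : A ≤ S := inf_le_left.trans inf_le_left
  have h5 : A ≤ 𝐂(A) := (inf_le_left.trans inf_le_right).trans (cent_anti h4)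
  by_contra e
  obtain ⟨z, h6, h7, -⟩ := exists_orderOf_centralized (P := ⊥) IsPGroup.of_bot (c.syl.pgroup.to_le h4) bot_le
    fun e' => e (mem_bot.mp (e' ▸ (hA g).mpr ⟨⟨h1, h2⟩, h3⟩))
  refine c.scl ((zz_le A).trans h4) (fun e => ne_one_of_orderOf_two h7 (mem_bot.mp (e ▸ (mem_zz' h5).mpr
    ⟨h6, mul_self_of_orderOf_two h7⟩))) (fun a ha => ((mem_zz' h5).mp ha).2)
    (le_trans (fun m hm => mem_normalizer_of_conj_mem fun a ha => ?_) (norm_zz A)) fun D hD h Y hY y hy d _ hd => ?_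
  · obtain ⟨⟨h8, h9⟩, h10⟩ := (hA a).mp ha
    exact (hA _).mpr ⟨⟨conj_mem_of_mem_normalizer hm h8, conj_mem_of_mem_normalizer (nc S hm) h9⟩, fun D hD h => by
      simpa only [cj_cj_inv] using (h10 _ (cj_le_of_mem_normalizer (inv_mem hm) hD) (h.cj m⁻¹)).cj m⟩
  · rwa [((hA d).mp (zz_le A hd)).2 D hD h Y hY y hy, mul_inv_cancel_right]

theorem main : ∃ m, 2 ≤ m ∧ Nonempty (S ≃* DihedralGroup m) := by
  obtain ⟨z, hz⟩ := c.exz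
  obtain ⟨v, w, hv, hw, n, hn, hza, hall⟩ := c.dh hz
  obtain ⟨hvS, hv2, hv1⟩ := c.vv_mem hv
  obtain ⟨hwS, hw2, hw1⟩ := c.vv_mem hw
  have hi := H4.mul_zpow_eq_of_inverts (H4.left_conj_mul_eq_inv hv2 hw2)
  have hr := H4.reflection_conj hv2 hw2
  have h1 := H4.zpowers_mul_le_closure_pair v w
  have h2 : v ∈ closure ({v, w} : Set G) := subset_closure (by simp)
  have hT : closure {v, w} ≤ S := (closure_le _).mpr (by simp [Set.insert_subset_iff, hvS, hwS])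
  have hVT : ∀ u, VV S u → u ∈ closure ({v, w} : Set G) := fun u hu => by
    obtain ⟨j, rfl⟩ := hall u hu
    exact mul_mem h2 (h1 (zpow_mem (mem_zpowers _) j))
  have nT : 𝐍(S) ≤ 𝐍(closure ({v, w} : Set G)) := fun m hm => mem_normalizer_of_cj_le (cj_le_iff.mpr ((closure_le _).mpr
    fun u hu => mem_cj.mpr (by
      rw [inv_inv]; exact hVT _ (c.vv_cj (hu.elim (fun e => e ▸ hv) fun e => Set.mem_singleton_iff.mp e ▸ hw) hm))))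
  have hc : ∀ g, g * v = v * g → g * (v * w) = v * w * g → g ∈ 𝐂(closure ({v, w} : Set G)) := fun g e1 e2 => by
    refine le_centralizer_iff.mp ((closure_le _).mpr ?_) (mem_zpowers g)
    rw [centralizer_zpowers]
    rintro _ (rfl | rfl)
    · exact mem_centralizer_singleton_iff.mpr e1.symm
    · exact mem_centralizer_singleton_iff.mpr (mul_left_cancel (a := v) (by rw [← mul_assoc, ← e2, ← mul_assoc, e1, mul_assoc]))
  have na : 𝐍(S) ≤ 𝐍(zpowers (v * w)) := fun m hm => mem_normalizer_of_cj_le (cj_le_iff.mpr (zpowers_le.mpr (mem_cj.mpr (by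
    obtain ⟨i, e1⟩ := hall _ (c.vv_cj hv hm)
    obtain ⟨j, e2⟩ := hall _ (c.vv_cj hw hm)
    rw [inv_inv, ← conj_mul, e1, e2, hi i, mul_assoc, ← mul_assoc v v, hv2, one_mul, ← zpow_add]
    exact zpow_mem (mem_zpowers _) _))))
  generalize e0 : v * w = a at *
  have haS : a ∈ S := hT (h1 (mem_zpowers a))
  let K : Subgroup G :=
    { carrier := {m | m ∈ 𝐍(S) ∧ ∃ i : ℤ, m * v * m⁻¹ = v * a ^ (2 * i)}
      one_mem' := ⟨one_mem _, 0, by simp⟩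
      mul_mem' := by
        rintro g h ⟨h3, i, e1⟩ ⟨h4, j, e2⟩
        obtain ⟨r, e3⟩ := mem_zpowers_iff.mp (conj_mem_of_mem_normalizer (na h3) (mem_zpowers a))
        refine ⟨mul_mem h3 h4, i + r * j, ?_⟩
        rw [show g * h * v * (g * h)⁻¹ = g * (h * v * h⁻¹) * g⁻¹ by group, e2, ← conj_mul, e1, ← conj_zpow, ← e3]
        group
      inv_mem' := by
        rintro g ⟨h3, i, e1⟩
        obtain ⟨r, e3⟩ := mem_zpowers_iff.mp (conj_mem_of_mem_normalizer (na (inv_mem h3)) (mem_zpowers a))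
        refine ⟨inv_mem h3, -(r * i), ?_⟩
        rw [show 2 * -(r * i) = r * -(2 * i) by ring, zpow_mul, e3, conj_zpow, zpow_neg, ← inv_mul_eq_iff_eq_mul.mpr e1]
        group }
  have hK : ∀ g ∈ 𝐍(S), ∀ h ∈ 𝐍(S), g ∉ K → h ∉ K → g * h ∈ K := fun g h3 h h4 h5 h6 => by
    obtain ⟨i, e1⟩ := hall _ (c.vv_cj hv h3)
    obtain ⟨j, e2⟩ := hall _ (c.vv_cj hv h4)
    obtain ⟨r, e3⟩ := mem_zpowers_iff.mp (conj_mem_of_mem_normalizer (na h3) (mem_zpowers a))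
    obtain ⟨i, rfl⟩ := (Int.even_or_odd i).resolve_left fun ⟨i, e⟩ => h5 ⟨h3, i, by rw [e1, e, two_mul]⟩
    obtain ⟨j, rfl⟩ := (Int.even_or_odd j).resolve_left fun ⟨j, e⟩ => h6 ⟨h4, j, by rw [e2, e, two_mul]⟩
    obtain ⟨r, rfl⟩ := (Int.even_or_odd r).resolve_left fun ⟨r, e⟩ => by
      have e4 : a ^ (2 ^ n : ℤ) = 1 := by
        rw [← conj_eq_one_iff (a := g), ← conj_zpow, ← e3, ← zpow_mul, ← orderOf_dvd_iff_zpow_eq_one, hn, e]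
        exact ⟨r, by push_cast; ring⟩
      rw [← orderOf_dvd_iff_zpow_eq_one, hn] at e4
      exact absurd (Nat.le_of_dvd (by positivity) (by exact_mod_cast e4 : 2 ^ (n + 1) ∣ 2 ^ n)) (by omega)
    refine ⟨mul_mem h3 h4, i + (2 * r * j + r + j + 1), ?_⟩
    rw [show g * h * v * (g * h)⁻¹ = g * (h * v * h⁻¹) * g⁻¹ by group, e2, ← conj_mul, e1, ← conj_zpow, ← e3]
    group
  have dec : S ≤ closure {v, w} ⊔ S ⊓ 𝐂(closure ({v, w} : Set G)) := tr c.perf c.H c.syl c.nab (fun s hs m hm => by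
    obtain ⟨-, i, e1⟩ := comm_mem_of_idx hK (le_normalizer hs) hm
    have e2 := cyc_comm (na (le_normalizer hs)) (na hm)
    have e3 : s⁻¹ * (m * s * m⁻¹) ∈ S := mul_mem (inv_mem hs) (conj_mem_of_mem_normalizer hm hs)
    generalize s⁻¹ * (m * s * m⁻¹) = g at *
    rw [← inv_mul_cancel_left (a ^ i) g]
    refine mul_mem_sup (inv_mem (h1 (zpow_mem (mem_zpowers a) i))) ⟨mul_mem (zpow_mem haS i) e3, hc _ ?_ ?_⟩
    · rw [mul_assoc, mul_inv_eq_iff_eq_mul.mp e1, hi, ← mul_assoc v, hi]; group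
    · rw [mul_assoc, e2]; group) (c.ess_le fun u hu => mem_sup_left (hVT u hu))
  have dec' : ∀ s ∈ S, ∃ t ∈ closure ({v, w} : Set G), ∃ g ∈ S ⊓ 𝐂(closure ({v, w} : Set G)), t * g = s := fun s hs =>
    (mem_sup_of_le_normalizer' (inf_le_right.trans (cn _))).mp (dec hs)
  have hZ : S ⊓ 𝐂(closure ({v, w} : Set G)) ≤ 𝐂(S) := fun g hg s hs => by
    obtain ⟨t, ht, g', hg', rfl⟩ := dec' s hs
    obtain ⟨D, -, h, -, -, e, -⟩ := c.vv_of hv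
    have k : ∀ g ∈ S ⊓ 𝐂(closure ({v, w} : Set G)), g ∈ D := fun g hg =>
      e ▸ mem_inf.mpr ⟨hg.1, mem_centralizer_singleton_iff.mpr (hg.2 v h2).symm⟩
    rw [mul_assoc, h.ab (k g hg) g' (k g' hg'), ← mul_assoc, hg.2 t ht, mul_assoc]
  have hb : ∀ g ∈ S, g ∈ 𝐂(S) → D0 (S ⊓ 𝐂[v]) g → D0 (S ⊓ 𝐂[w]) g → g = 1 := fun g h3 h4 h5 h6 =>
    c.d0b h3 h4 fun D hD h => by
      obtain ⟨u, hu, rfl⟩ := c.exv h hD
      obtain ⟨j, rfl⟩ := hall u hu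
      obtain ⟨d, hd, e⟩ := hr j
      have k : ∀ {u}, D0 (S ⊓ 𝐂[u]) g → D0 (S ⊓ 𝐂[d * u * d⁻¹]) g := fun h => by
        simpa only [cj_inf, cj_eq_self (le_normalizer (hT (h1 hd))), cj_centralizer_singleton, h4 d (hT (h1 hd)),
          mul_inv_cancel_right] using h.cj d
      exact e.elim (fun e => e.2 ▸ k h5) fun e => e.2 ▸ k h6
  have hzT := h1 hza
  have hzC : z ∈ 𝐂(S) := hZ ⟨hT hzT, hc z (hz v hv).comm (by
    obtain ⟨l, rfl⟩ := mem_zpowers_iff.mp hza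
    group)⟩
  have hd : ∀ g ∈ S, g ∈ 𝐂(S) → g ∉ closure ({v, w} : Set G) → ∃ g', g'⁻¹ * g ∈ closure ({v, w} : Set G) ∧
      g' ∈ S ∧ g' ∈ 𝐂(S) ∧ D0 (S ⊓ 𝐂[v]) g' ∧ D0 (S ⊓ 𝐂[w]) (g' * z) := fun g h3 h4 h5 => by
    obtain ⟨g', h6, h7, h8, h9⟩ : ∃ g', g'⁻¹ * g ∈ closure ({v, w} : Set G) ∧ g' ∈ S ∧ g' ∈ 𝐂(S) ∧ D0 (S ⊓ 𝐂[v]) g' :=
      (c.d0a hv (hz v hv) h3 h4).elim (fun e => ⟨g, by simp, h3, h4, e⟩)
        fun e => ⟨g * z, by simpa using hzT, mul_mem h3 (hT hzT), mul_mem h4 hzC, e⟩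
    exact ⟨g', h6, h7, h8, h9, (c.d0a hw (hz w hw) h7 h8).resolve_left fun e => h5 (by simpa [hb g' h7 h8 h9 e] using h6)⟩
  have e : S = closure {v, w} := le_antisymm (tr2 c.perf c.H c.syl c.nab nT (fun s hs s' hs' e1 e2 => by
    obtain ⟨t, ht, g, hg, rfl⟩ := dec' s hs
    obtain ⟨t', ht', g', hg', rfl⟩ := dec' s' hs'
    obtain ⟨k, h3, h4, h5, h6, h7⟩ := hd g hg.1 (hZ hg) fun e => e1 (mul_mem ht e)
    obtain ⟨k', h3', h4', h5', h6', h7'⟩ := hd g' hg'.1 (hZ hg') fun e => e2 (mul_mem ht' e)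
    have e3 := hb _ (mul_mem h4 h4') (mul_mem h5 h5') (fun Y hY => mul_mem (h6 Y hY) (h6' Y hY)) fun Y hY => by
      have := mul_mem (h7 Y hY) (h7' Y hY)
      rwa [mul_assoc, ← mul_assoc z, ← hzC k' h4', mul_assoc k', (hz v hv).sq, mul_one] at this
    have e4 := mul_mem h3 h3'
    rw [mul_assoc, ← mul_assoc g, inv_mem h5' g hg.1, mul_assoc, ← mul_assoc, ← mul_inv_rev, h5 k' h4', e3, inv_one,
      one_mul] at e4
    rw [mul_assoc, ← mul_assoc g, ← hg.2 t' ht', mul_assoc]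
    exact mul_mem ht (mul_mem ht' e4)) (c.ess_le hVT)) hT
  refine ⟨orderOf (v * w), by rw [e0, hn]; exact Nat.le_self_pow (by omega) 2, ?_⟩
  rw [e]
  exact H4.nonempty_closure_involutions_equiv_dihedral (orderOf_two_of hv1 hv2) (orderOf_two_of hw1 hw2)

end St

end Cfsg.Agent.H9.AI
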