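import Cfsg.Agent.H9.MS2

/-! Groups with a maximal Sylow `2`-subgroup of order `128`, part 3. -/

set_option autoImplicit false

namespace Cfsg.Agent.H9.MS

open Subgroup H7 H8 GW

variable {G : Type*} [Group G] [Finite G]

/-- The structure of a maximal pair. -/
structure ST (z w a b : G) (C : Subgroup G) : Prop extends MP z w where
  aS : a ∈ Cz z
  aw : a * w * a⁻¹ = w * b
  a2 : a * a = 1
  ac : ∃ g ∈ Cz z, g * w * g⁻¹ = a
  b1 : b ≠ 1
  bD : b ∈ DD z w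
  b2 : b * b = 1
  bC : b ∉ C
  zb : z * b ∈ C
  cm : ∀ x ∈ DD z w, ∀ y ∈ DD z w, x * y = y * x
  C_le : C ≤ DD z w
  Ca : C ≤ Cz a
  nc : ∀ c ∈ C, c ≠ 1 → ¬ Cz z ≤ Cz c
  dec : ∀ d ∈ DD z w, ∃ c ∈ C, d = c ∨ d = c * b ∨ d = c * w ∨ d = c * b * w
  card4 : Nat.card ↥(DD z w) = 4 * Nat.card C
  C4 : Nat.card C ≤ 4
  three : ∀ x ∈ DD z w, IsConj z x → x = z ∨ x = w ∨ x = w * b

theorem comm_of_le_four {C : Subgroup G} (h : Nat.card C = 1 ∨ Nat.card C = 2 ∨ Nat.card C = 4) {x y : G}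
    (hx : x ∈ C) (hy : y ∈ C) : x * y = y * x := by
  rcases h with h | h | h
  · rw [card_eq_one.mp h, mem_bot] at hx
    rw [hx, one_mul, mul_one]
  · exact comm2 bot_le (by rw [h, card_bot]) (fun a ha x _ => by rw [mem_bot.mp ha, one_mul, mul_one])
      hx hy
  · exact comm_of_isMulCommutative (IsPGroup.isMulCommutative_of_card_eq_prime_sq (p := 2) h) hx hy

namespace MP

variable {z w : G} (h : MP z w)
include h

theorem exists_st : ∃ a b C, ST z w a b C := by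
  obtain ⟨s, s1, s2, s3, s4⟩ := h.exists_t h.omw
  obtain ⟨r, r1, r3, r2⟩ := exists_mem_normalizer_not_mem (h.pg (IsConj.refl z)).isNilpotent
    (inf_le_left : TT z w ≤ _) fun e => s2 ⟨h.max _ (fun e => ne_one_of_orderOf_two h.hz
      (mem_bot.mp (e ▸ h.zD))) (e.trans inf_le_right) inf_le_left s3, s1⟩
  have aD := h.not_mem r1 r2 r3
  have ma := h.conj r1
  have e1 := cjD (w := w) r1
  have e2 := T_le r1 r2
  have aT : r * w * r⁻¹ ∈ TT z w := conj_mem_of_mem_normalizer r2 (D_le h.wD)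
  have e5 : ∀ g ∈ TT z w, r⁻¹ * g * r ∈ TT z w := fun g hg => conj_mem_of_mem_normalizer' r2 hg
  obtain ⟨a, ha⟩ : ∃ a, r * w * r⁻¹ = a := ⟨_, rfl⟩
  rw [ha] at aD ma e1 e2 aT
  have a2 := h.sq ma.cw
  have nf : ∀ y ∈ normalizer ((DD z w : Subgroup G) : Set G), y * a * y⁻¹ ∉ DD z w := fun y hy e =>
    aD (by simpa [mul_assoc] using conj_mem_of_mem_normalizer' hy e)
  have na : ∀ u, Om z w u → u ≠ z → u ∉ Cz a := fun u hu e1 e2 =>
    e1 (h.fix hu h.omz (Cz_symm e2) aT.1 aD)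
  have pair : ∀ y ∈ normalizer ((DD z w : Subgroup G) : Set G), ∀ u v, Om z w u → Om z w v →
      u ≠ y * z * y⁻¹ → v ≠ y * z * y⁻¹ → u * v ∈ Cz (y * a * y⁻¹) := fun y hy u v hu hv u1 v1 => by
    have k : ∀ u, Om z w u → u ≠ y * z * y⁻¹ → y⁻¹ * u * y⁻¹⁻¹ ∉ DD z a := fun u hu u1 e =>
      na _ (om_conj hu (inv_mem hy)) (fun e => u1 (by rw [← e]; group)) e.2
    have hu' := om_conj hu (inv_mem hy)
    have hv' := om_conj hv (inv_mem hy)
    have := conj_mem_Cz (g := y) (ma.uniq (e2 (D_le (h.om_mem hu'))) (e2 (D_le (h.om_mem hv')))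
      (k u hu u1) (k v hv v1) (h.sq hu'.1 ▸ one_mem _) (h.sq hv'.1 ▸ one_mem _)).2
    rw [inv_eq_of_mul_eq_one_right (h.sq hu'.1)] at this
    simpa [mul_assoc] using this
  have tr : ∀ u, Om z w u → u ≠ z → ∃ y ∈ normalizer ((DD z w : Subgroup G) : Set G),
      y * z * y⁻¹ = u := fun u hu u1 => by
    obtain ⟨t, t1, t2, t3, t4⟩ := h.exists_t hu
    obtain ⟨y, y1, -, y2⟩ := h.dih h.omz hu u1.symm aT.1 t1 aD t2 aT.2 t3 (a2 ▸ one_mem _) t4
    exact ⟨y, y1, y2⟩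
  have ow := om_conj h.omw aT.2
  have wz : a * w * a⁻¹ ≠ z := fun e => h.ne (by rw [← conj_eq aT.1] at e; simpa using e)
  have three : ∀ u, Om z w u → u = z ∨ u = w ∨ u = a * w * a⁻¹ := fun u hu => by
    by_contra e
    push Not at e
    obtain ⟨y, y1, rfl⟩ := tr u hu e.1
    have k1 := Cz_symm (pair y y1 _ _ ow h.omw e.2.2.symm e.2.1.symm)
    have k2 := pair 1 (one_mem _) _ _ h.omw hu (by simpa using h.ne) (by simpa using e.1)
    rw [one_mul, inv_one, mul_one] at k2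
    have k3 : a * (y * z * y⁻¹) * a⁻¹ = a * w * a⁻¹ * w * (y * z * y⁻¹) := by
      rw [mul_assoc _ w, ← conj_eq (Cz_symm k2)]
      calc _ = a * (w * w) * (y * z * y⁻¹) * a⁻¹ := by rw [h.sq h.cw]; group
        _ = _ := by group
    refine na _ hu e.1 (Cz_symm (mem_of_conj (h.fix (om_conj hu aT.2) hu ?_ (conj_mem_Cz aT.1)
      (nf y y1))))
    rw [k3]
    exact Cz_symm (mul_mem (Cz_symm k1) (Cz_symm (conj_mem_Cz aT.1)))
  have cT := card_le_of_mul_mem D_le aT fun g hg g1 => by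
    refine ⟨mul_mem hg.1 aT.1, mem_of_conj ?_⟩
    rcases three _ (om_conj h.omw (inv_mem hg.2)) with e | e | e
    · exact absurd (by rw [← conj_eq (inv_mem hg.1)] at e; simpa using e) h.ne
    · exact absurd ⟨hg.1, (Cz w).inv_mem_iff.mp (mem_of_conj e)⟩ g1
    · rw [show g * a * w * (g * a)⁻¹ = g * (a * w * a⁻¹) * g⁻¹ by group, ← e]; group
  have cD : Nat.card ↥(DD z a) = Nat.card ↥(DD z w) := by rw [← e1, card_cj]
  have iE : ∀ y ∈ normalizer ((DD z w : Subgroup G) : Set G), ∀ u ∈ DD z w, ∀ v ∈ DD z w,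
      u ∉ Cz (y * a * y⁻¹) → v ∉ Cz (y * a * y⁻¹) → u * v ∈ Cz (y * a * y⁻¹) :=
    fun y hy u hu v hv u1 v1 => by
      have k : ∀ u, u ∉ Cz (y * a * y⁻¹) → y⁻¹ * u * y ∉ DD z a := fun u u1 e =>
        u1 (by simpa [mul_assoc] using conj_mem_Cz (g := y) e.2)
      simpa [mul_assoc] using conj_mem_Cz (g := y) (mul_mem2
        (e1 ▸ cj_le_of_mem_normalizer r2 D_le) (by omega) (D_le (conj_mem_of_mem_normalizer' hy hu))
        (D_le (conj_mem_of_mem_normalizer' hy hv)) (k u u1) (k v v1)).2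
  have iE1 := iE 1 (one_mem _)
  simp only [one_mul, inv_one, mul_one] at iE1
  obtain ⟨y, y1, y2⟩ := tr w h.omw h.ne
  have iE2 := iE y y1
  have a'w : y * a * y⁻¹ ∈ Cz w := y2 ▸ conj_mem_Cz aT.1
  have a'D := nf y y1
  generalize y * a * y⁻¹ = a' at *
  obtain ⟨b, hb⟩ : ∃ b, b = w * (a * w * a⁻¹) := ⟨_, rfl⟩
  have aw : a * w * a⁻¹ = w * b := by rw [hb, ← mul_assoc, h.sq h.cw, one_mul]
  have wa := na w h.omw h.ne
  have bD : b ∈ DD z w := hb ▸ mul_mem h.wD (h.om_mem ow)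
  have ba : b ∈ Cz a := hb ▸ iE1 _ h.wD _ (h.om_mem ow) wa (na _ ow wz)
  have ba' : b ∉ Cz a' := fun e => wa (Cz_symm (mem_of_conj (h.fix ow h.omw
    (Cz_symm (aw ▸ mul_mem (Cz_symm a'w) e)) a'w a'D)))
  have za' : z ∉ Cz a' := fun e => a'D ⟨Cz_symm e, a'w⟩
  have nc : ∀ {X : Subgroup G}, X ≠ ⊥ → X ≤ DD z w ⊓ Cz a ⊓ Cz a' →
      ¬ Cz z ≤ normalizer (X : Set G) := fun {X} h1 h2 h3 => a'D ⟨h.max X h1 h3
        (h2.trans (inf_le_left.trans (inf_le_left.trans inf_le_left))) (centralizer_le_normalizer _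
          (mem_centralizer_of_le (h2.trans inf_le_right))), a'w⟩
  have dec : ∀ d ∈ DD z w, ∃ c ∈ DD z w ⊓ Cz a ⊓ Cz a', d = c ∨ d = c * b ∨ d = c * w ∨
      d = c * b * w := fun d hd => by
    have k : ∀ d ∈ DD z w ⊓ Cz a, ∃ c ∈ DD z w ⊓ Cz a ⊓ Cz a', d = c ∨ d = c * b := fun d hd => by
      by_cases e : d ∈ Cz a'
      · exact ⟨d, ⟨hd, e⟩, Or.inl rfl⟩
      · exact ⟨d * b⁻¹, mem_inf.mpr ⟨mul_mem hd (inv_mem (⟨bD, ba⟩ : b ∈ DD z w ⊓ Cz a)),
          iE2 _ hd.1 _ (inv_mem bD) e fun e => ba' ((Cz a').inv_mem_iff.mp e)⟩, Or.inr (by group)⟩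
    by_cases e : d ∈ Cz a
    · obtain ⟨c, hc, k⟩ := k d ⟨hd, e⟩
      exact ⟨c, hc, k.imp_right Or.inl⟩
    · obtain ⟨c, hc, k⟩ := k (d * w⁻¹) (mem_inf.mpr ⟨mul_mem hd (inv_mem h.wD),
        iE1 _ hd _ (inv_mem h.wD) e fun e => wa ((Cz a).inv_mem_iff.mp e)⟩)
      exact ⟨c, hc, Or.inr (Or.inr (k.imp mul_inv_eq_iff_eq_mul.mp mul_inv_eq_iff_eq_mul.mp))⟩
  have c1 := two_mul_le (inf_le_left (b := Cz a)) h.wD fun e => wa e.2
  have c2 := card_le_of_mul_mem (inf_le_left (b := Cz a)) h.wD fun d hd d1 =>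
    ⟨mul_mem hd h.wD, iE1 _ hd _ h.wD (fun e => d1 ⟨hd, e⟩) wa⟩
  have bE : b ∈ DD z w ⊓ Cz a := mem_inf.mpr ⟨bD, ba⟩
  have c3 := two_mul_le (inf_le_left (b := Cz a')) bE fun e => ba' e.2
  have c4 := card_le_of_mul_mem (inf_le_left (b := Cz a')) bE
    fun d hd d1 => ⟨mul_mem hd bE, iE2 _ hd.1 _ bD (fun e => d1 ⟨hd, e⟩) ba'⟩
  have c5 := two_mul_le D_le aT aD
  have c6 := two_mul_le inf_le_left r1 r3
  rw [h.card] at c6
  have zb : z * b ∈ DD z w ⊓ Cz a ⊓ Cz a' :=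
    ⟨mul_mem ⟨h.zD, Cz_symm aT.1⟩ ⟨bD, ba⟩, iE2 _ h.zD _ bD za' ba'⟩
  have cb : ∀ c ∈ DD z w ⊓ Cz a ⊓ Cz a', b ∈ Cz c := fun c hc =>
    hb ▸ mul_mem (Cz_symm hc.1.1.2) (mul_mem (mul_mem (Cz_symm hc.1.2) (Cz_symm hc.1.1.2))
      (inv_mem (Cz_symm hc.1.2)))
  have CD : DD z w ⊓ Cz a ⊓ Cz a' ≤ DD z w := inf_le_left.trans inf_le_left
  have CE : DD z w ⊓ Cz a ⊓ Cz a' ≤ DD z w ⊓ Cz a := inf_le_left
  have C4 : Nat.card ↥(DD z w ⊓ Cz a ⊓ Cz a') ≤ 4 := by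
    by_contra e
    have k1 := h.pw (CD.trans inf_le_left)
    have k2 : TT z w ≤ normalizer ((DD z w ⊓ Cz a ⊓ Cz a' : Subgroup G) : Set G) := fun g hg => by
      have k : DD z w ≤ normalizer ((DD z w ⊓ Cz a ⊓ Cz a' : Subgroup G) : Set G) := fun d hd => by
        have hw := centralizer_le_normalizer _ (mem_centralizer_of_le (CD.trans inf_le_right))
        have hb' := centralizer_le_normalizer _ (mem_centralizer_of_le fun c hc => Cz_symm (cb c hc))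
        obtain ⟨c, hc, rfl | rfl | rfl | rfl⟩ := dec d hd
        exacts [le_normalizer hc, mul_mem (le_normalizer hc) hb', mul_mem (le_normalizer hc) hw,
          mul_mem (mul_mem (le_normalizer hc) hb') hw]
      by_cases e : g ∈ DD z w
      · exact k e
      · exact (mul_mem_cancel_right (centralizer_le_normalizer _ (mem_centralizer_of_le
          (CE.trans inf_le_right)))).mp (k (mul_mem2 D_le cT hg aT e aD))
    have k3 : r * r ∈ TT z w := mul_mem2 inf_le_left (by rw [h.card]; omega) r1 r1 r3 r3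
    have k4 : cj r (DD z w ⊓ Cz a ⊓ Cz a') ≤ DD z w ⊓ Cz a := by
      refine (cj_mono r CE).trans ?_
      rw [show DD z w ⊓ Cz a = DD z w ⊓ DD z a by
        rw [← inf_assoc, inf_eq_left.mpr (inf_le_left : DD z w ≤ Cz z)], cj_inf, ← e1, ← cj_mul,
        cj_eq_self k3.2, inf_comm]
    generalize DD z w ⊓ Cz a ⊓ Cz a' = C at *
    refine nc (X := C ⊓ cj r C) (fun e => ?_) inf_le_left (h.le_normalizer_of r1 r3 (by omega)
      (H8.le_normalizer_inf k2 fun g hg => ?_) (cj_eq_self_iff.mp ?_))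
    · have := card_mul_card_le_of_disjoint CE k4 e
      rw [card_cj, show Nat.card C = 8 by omega] at this
      omega
    · rw [← cj_normalizer, mem_cj]; exact k2 (e5 g hg)
    · rw [cj_inf, ← cj_mul, cj_eq_self (k2 k3), inf_comm]
  have cm : ∀ x ∈ DD z w, ∀ y ∈ DD z w, x * y = y * x := fun x hx y hy => by
    have k1 := h.pw (CD.trans inf_le_left)
    have k : ∀ x, b ∈ Cz x → w ∈ Cz x → DD z w ⊓ Cz a ⊓ Cz a' ≤ Cz x → DD z w ≤ Cz x :=
      fun x h1 h2 h3 d hd => by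
        obtain ⟨c, hc, rfl | rfl | rfl | rfl⟩ := dec d hd
        exacts [h3 hc, mul_mem (h3 hc) h1, mul_mem (h3 hc) h2, mul_mem (mul_mem (h3 hc) h1) h2]
    exact mem_Cz.mp (k y (Cz_symm (k b (self_mem b) (Cz_symm bD.2) (fun c hc => Cz_symm (cb c hc)) hy))
      (Cz_symm hy.2) (fun c hc => Cz_symm (k c (cb c hc) (Cz_symm hc.1.1.2)
        (fun d hd => mem_Cz.mpr (comm_of_le_four (by omega) hd hc)) hy)) hx)
  refine ⟨a, b, DD z w ⊓ Cz a ⊓ Cz a', h, aT.1, aw, a2, ⟨r, r1, ha⟩, fun e => ba' (e ▸ one_mem _), bD, ?_,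
    fun e => ba' e.2, zb, cm, CD, CE.trans inf_le_right, fun c hc c1 e => nc (zpowers_ne_bot.mpr c1)
      (zpowers_le.mpr hc) (e.trans (Cz_le_normalizer c)), dec, by omega, C4, fun x hx e =>
      aw ▸ three x ⟨e, fun d hd => mem_Cz.mpr (cm _ hd _ hx)⟩⟩
  rw [hb]
  exact mul_sq (h.sq h.cw) (h.sq ow.1) (cm _ h.wD _ (h.om_mem ow))

theorem not_sq {u g : G} (hu : IsConj z u) (hg : g ∈ Cz z) (e : g * g = u) : u = z := by
  by_contra hne
  have gu : g ∈ Cz u := mem_Cz.mpr (by rw [← e, mul_assoc])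
  have uz : u ∈ Cz z := e ▸ mul_mem hg hg
  have c1 := h.mx z u (IsConj.refl z) hu (Ne.symm hne) (Cz_symm uz)
  rcases c1.eq_or_lt with c1 | c1
  · obtain ⟨a, b, C, k⟩ := exists_st ⟨h.toHy, hu, hne, uz, c1 ▸ h.mx⟩
    obtain ⟨c, hc, e1⟩ := k.dec g ⟨hg, gu⟩
    have cD := k.C_le hc
    have : g * g = c * c := by
      have k1 : ∀ x ∈ DD z u, ∀ y ∈ DD z u, y * y = 1 → x * y * (x * y) = x * x := fun x hx y hy e => by
        rw [mul_assoc, ← mul_assoc y, k.cm _ hy _ hx, mul_assoc, e, mul_one]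
      rcases e1 with rfl | rfl | rfl | rfl
      · rfl
      · exact k1 _ cD _ k.bD k.b2
      · exact k1 _ cD _ k.wD (h.sq hu)
      · rw [k1 _ (mul_mem cD k.bD) _ k.wD (h.sq hu), k1 _ cD _ k.bD k.b2]
    have k2 := k.aw
    rw [conj_eq (Cz_symm (k.Ca (e ▸ this ▸ mul_mem hc hc))), left_eq_mul] at k2
    exact k.b1 k2
  obtain ⟨a, b, C, k⟩ := h.exists_st
  have c2 := k.card4
  have c3 := k.C4
  have c4 := h.pw (inf_le_left : DD z u ≤ _)
  have u2 := h.sq hu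
  have u1 := ne_one_of_orderOf_two (h.ord hu)
  have og : orderOf g = 2 ^ (1 + 1) := orderOf_eq_prime_pow (by rwa [pow_one, pow_two, e])
    (by rw [show 2 ^ (1 + 1) = 2 * 2 by rfl, pow_mul, pow_two, pow_two, e, u2])
  have sq : ∀ x ∈ zpowers g, x * x = 1 ∨ x * x = u := fun x hx => by
    obtain ⟨i, rfl⟩ := mem_zpowers_iff.mp hx
    rw [← zpow_add, ← two_mul, zpow_mul, zpow_two, e]
    exact mem_zpowers_sq u2 (zpow_mem_zpowers u i)
  have zg : z ∉ zpowers g := fun hz => by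
    rcases eq_pow_of_mem_zpowers_of_mul_self (m := 2) og two_pos hz (sq_of_two h.hz) with e1 | e1
    · exact ne_one_of_orderOf_two h.hz e1
    · exact hne (by rw [e1, pow_two, e])
  obtain ⟨n, n1, n2, n3⟩ := exists_mem_normalizer_not_mem (h.pg (IsConj.refl z)).isNilpotent
    (inf_le_left : DD z u ≤ _) fun e => h.not_le (IsConj.refl z) hu (Ne.symm hne) (e.trans inf_le_right)
  have k1 := conj_mem_of_mem_normalizer n3 (⟨hg, gu⟩ : g ∈ DD z u)
  have k2 : n * g * n⁻¹ * (n * g * n⁻¹) = n * u * n⁻¹ := by rw [← e]; group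
  have k3 : n * u * n⁻¹ = 1 ∨ n * u * n⁻¹ = u := by
    rw [← k2]
    by_cases e1 : n * g * n⁻¹ ∈ zpowers g
    · exact sq _ e1
    · have := sq _ (mul_mem2 (zpowers_le.mpr (⟨hg, gu⟩ : g ∈ DD z u)) (by
        rw [Nat.card_zpowers, og]; omega) k1 ⟨self_mem z, Cz_symm uz⟩ e1 zg)
      generalize n * g * n⁻¹ = x at *
      rwa [mul_assoc, ← mul_assoc z, ← mem_Cz.mp k1.1, mul_assoc, sq_of_two h.hz, mul_one] at this
  exact n2 ⟨n1, mem_of_conj (k3.resolve_left fun e => u1 (by simpa using e))⟩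

theorem transfer {M : Subgroup G} (hM : M ≤ Cz z) (h2 : M.relIndex (Cz z) = 2)
    (hZ : ∀ u ∈ Cz z, IsConj z u → u ≠ z → u ∈ M) {v : G} (hv : v ∈ Cz z) (hvM : v ∉ M) {j : ℕ}
    (e : v ^ 2 ^ (j + 1) = z) : False := by
  have key : ∀ i ≤ j, ∀ g : G, g⁻¹ * v ^ 2 ^ i * g ∈ Cz z → g⁻¹ ∈ Cz z := fun i hi g hg => by
    refine mem_of_conj (h.not_sq (isConj_cj (IsConj.refl z) _) (pow_mem hg (2 ^ (j - i))) ?_)
    rw [← pow_add, ← two_mul, ← pow_succ', show g⁻¹ * v ^ 2 ^ i * g = g⁻¹ * v ^ 2 ^ i * g⁻¹⁻¹ by simp,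
      conj_pow, ← pow_mul, ← pow_add, show i + (j - i + 1) = j + 1 by omega, e]
  have sq : ∀ i, v ^ 2 ^ (i + 1) ∈ M := fun i => by
    rw [pow_succ, pow_mul, pow_two]; exact mul_self_mem_of_relIndex_two h2 (pow_mem hv _)
  have e2 : v ^ 2 ^ (j + 2) = 1 := by rw [pow_succ, pow_mul, e, pow_two, sq_of_two h.hz]
  obtain ⟨K, hK, -⟩ := H6.exists_index_two_of_not_conj h.odd h2 ⟨_, e2⟩ (fun g hg => hvM
    ((conj_mem_iff_of_relIndex_two h2 hv (key 0 (Nat.zero_le _) g (by simpa using hM hg))).mp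
      (by simpa using hg))) fun k g hk hg => by
    obtain ⟨k, rfl⟩ : ∃ i, k = i + 1 := ⟨k - 1, by omega⟩
    rcases lt_trichotomy k j with c | rfl | c
    · simpa using (conj_mem_iff_of_relIndex_two h2 (pow_mem hv _) (key _ c g hg)).mpr (sq k)
    · rw [e] at hg ⊢
      by_cases e1 : g⁻¹ * z * g = z
      · rw [e1, ← e]; exact sq k
      · exact hZ _ hg (by simpa using isConj_cj (IsConj.refl z) g⁻¹) e1
    · rw [show k + 1 = j + 2 + (k - j - 1) by omega, pow_add, pow_mul, e2]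
      simp
  exact h.two K hK

end MP

end Cfsg.Agent.H9.MS
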