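import Cfsg.Agent.H9.MS3
import Cfsg.Agent.H8.Hyperplane

/-! Groups with a maximal Sylow `2`-subgroup of order `128`, part 4. -/

set_option autoImplicit false

namespace Cfsg.Agent.H9.MS

open Subgroup H7 H8 GW

variable {G : Type*} [Group G] [Finite G]

/-- A dihedral frame. -/
structure Fr (z w b : G) (C : Subgroup G) (ρ : G) (k : ℕ) : Prop where
  mem : ρ ∈ Cz z
  ord : orderOf ρ = 2 ^ (k + 2)
  inv : w * ρ * w⁻¹ = ρ⁻¹
  pow : ρ ^ 2 ^ (k + 1) = b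
  cw : ∃ g ∈ Cz z, g * w * g⁻¹ = w * ρ
  act : ∀ c ∈ C, c ∈ Cz ρ ∨ (c * c ≠ 1 ∧ k ≠ 0 ∧ c * ρ * c⁻¹ = ρ * b)

omit [Finite G] in
theorem zc {ρ x c : G} (hx : x ∈ zpowers ρ) (hc : c ∈ Cz ρ) : c ∈ Cz x :=
  Cz_symm (zpowers_le.mpr (Cz_symm hc) hx)

omit [Finite G] in
theorem zz {ρ x y : G} (hx : x ∈ zpowers ρ) (hy : y ∈ zpowers ρ) : x * y = y * x :=
  comm_of_mem_zpowers hx hy

theorem mem_nz {g ρ : G} (h : g * ρ * g⁻¹ ∈ zpowers ρ) : g ∈ normalizer (zpowers ρ : Set G) :=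
  mem_normalizer_of_cj_le (by rwa [cj_zpowers, zpowers_le])

omit [Finite G] in
theorem sq_mem {ρ x : G} (hx : x ∈ zpowers ρ) : x * x ∈ zpowers (ρ * ρ) := by
  obtain ⟨i, rfl⟩ := mem_zpowers_iff.mp hx
  rw [← (Commute.refl ρ).mul_zpow]
  exact zpow_mem_zpowers _ _

omit [Finite G] in
theorem exists_sq {ρ x : G} (hx : x ∈ zpowers (ρ * ρ)) : ∃ q ∈ zpowers ρ, x = q * q := by
  obtain ⟨i, rfl⟩ := mem_zpowers_iff.mp hx
  exact ⟨_, zpow_mem_zpowers ρ i, (Commute.refl ρ).mul_zpow i⟩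

omit [Finite G] in
theorem sq_le (ρ : G) : zpowers (ρ * ρ) ≤ zpowers ρ :=
  zpowers_le.mpr (mul_mem (mem_zpowers ρ) (mem_zpowers ρ))

namespace ST

variable {z w a b : G} {C : Subgroup G} (h : ST z w a b C)
include h

theorem w2 : w * w = 1 := h.sq h.cw

theorem sq_eq {d : G} (hd : d ∈ DD z w) : ∃ c ∈ C, d * d = c * c := by
  obtain ⟨c, hc, e1⟩ := h.dec d hd
  have cD := h.C_le hc
  have k1 : ∀ x ∈ DD z w, ∀ y ∈ DD z w, y * y = 1 → x * y * (x * y) = x * x := fun x hx y hy e => by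
    rw [mul_assoc, ← mul_assoc y, h.cm _ hy _ hx, mul_assoc, e, mul_one]
  refine ⟨c, hc, ?_⟩
  rcases e1 with rfl | rfl | rfl | rfl
  · rfl
  · exact k1 _ cD _ h.bD h.b2
  · exact k1 _ cD _ h.wD h.w2
  · rw [k1 _ (mul_mem cD h.bD) _ h.wD h.w2, k1 _ cD _ h.bD h.b2]

theorem cardC : Nat.card C = 1 ∨ Nat.card C = 2 ∨ Nat.card C = 4 := by
  have := h.pw (h.C_le.trans inf_le_left)
  have := h.C4
  omega

theorem pow4 {c : G} (hc : c ∈ C) : c * c * (c * c) = 1 := by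
  have : c ^ 4 = 1 := orderOf_dvd_iff_pow_eq_one.mp ((C.orderOf_dvd_natCard hc).trans (by
    rcases h.cardC with e | e | e <;> rw [e] <;> norm_num))
  rw [← this, show 4 = 2 + 2 by rfl, pow_add, pow_two]

theorem card_eq {c : G} (hc : c ∈ C) (h1 : c * c ≠ 1) : Nat.card C = 4 ∧ orderOf c = 2 * 2 := by
  have : orderOf c = 2 ^ (1 + 1) := orderOf_eq_prime_pow (by rwa [pow_one, pow_two])
    (by rw [show 2 ^ (1 + 1) = 2 + 2 by rfl, pow_add, pow_two, h.pow4 hc])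
  have k := Nat.le_of_dvd Nat.card_pos (C.orderOf_dvd_natCard hc)
  have := h.C4
  exact ⟨by omega, by omega⟩

theorem fr0 : Fr z w b C (w * a) 0 := by
  have e : w * a * (w * a) = b := by
    have := h.aw
    rw [inv_eq_of_mul_eq_one_right h.a2] at this
    rw [mul_assoc, ← mul_assoc a, this, ← mul_assoc, h.w2, one_mul]
  refine ⟨mul_mem h.comm h.aS, orderOf_eq_prime_pow (by simpa [pow_two, e] using h.b1) ?_,
    H4.left_conj_mul_eq_inv h.w2 h.a2, by simpa [pow_two] using e, ?_,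
    fun c hc => Or.inl (Cz_symm (mul_mem (Cz_symm (h.C_le hc).2) (Cz_symm (h.Ca hc))))⟩
  · rw [show 2 ^ (0 + 1 + 1) = 2 + 2 by rfl, pow_add, pow_two, e, h.b2]
  · rw [← mul_assoc, h.w2, one_mul]; exact h.ac

variable {ρ : G} {k : ℕ} (f : Fr z w b C ρ k)
include f

omit h [Finite G] in
theorem bΦ : b ∈ zpowers (ρ * ρ) := by
  rw [← f.pow, pow_succ', pow_mul, pow_two]; exact npow_mem_zpowers _ _

omit h [Finite G] in
theorem bρ : b ∈ zpowers ρ := sq_le ρ (bΦ f)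

omit h [Finite G] in
theorem winv {x : G} (hx : x ∈ zpowers ρ) : w * x * w⁻¹ = x⁻¹ := H4.conj_eq_inv_of_mem_zpowers f.inv hx

omit h in
theorem invol {x : G} (hx : x ∈ zpowers ρ) (h2 : x * x = 1) : x = 1 ∨ x = b :=
  f.pow ▸ eq_pow_of_mem_zpowers_of_mul_self (by rw [f.ord, pow_succ']) (by positivity) hx h2

omit h in
theorem of_w {x : G} (hx : x ∈ zpowers ρ) (hw : x ∈ Cz w) : x = 1 ∨ x = b :=
  invol f hx (by nth_rewrite 1 [← conj_eq (Cz_symm hw), winv f hx]; exact inv_mul_cancel x)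

omit h in
theorem of_w' {x : G} (hx : x ∈ zpowers ρ) (hw : x ∈ Cz w) : x ∈ zpowers (ρ * ρ) := by
  rcases of_w f hx hw with rfl | rfl
  exacts [one_mem _, bΦ f]

theorem of_C {x : G} (hx : x ∈ zpowers ρ) (hc : x ∈ C) : x = 1 :=
  (of_w f hx (h.C_le hc).2).resolve_right fun e => h.bC (e ▸ hc)

omit h in
theorem idxΦ : (zpowers (ρ * ρ)).relIndex (zpowers ρ) = 2 :=
  relIndex_eq_of_card (sq_le ρ) (by
    rw [Nat.card_zpowers, Nat.card_zpowers, ← pow_two, orderOf_pow' ρ two_ne_zero, f.ord, pow_succ,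
      Nat.gcd_eq_right (dvd_mul_left _ _), Nat.mul_div_cancel _ two_pos])

omit h in
theorem wρ : w ∉ Cz ρ := fun e => by
  have := relIndex_eq_one.mpr (zpowers_le.mpr (of_w' f (mem_zpowers ρ) (Cz_symm e)))
  rw [idxΦ f] at this
  omega

theorem Dn : DD z w ≤ normalizer (zpowers ρ : Set G) := fun d hd => by
  have k1 : C ≤ normalizer (zpowers ρ : Set G) := fun c hc => by
    rcases f.act c hc with e | ⟨-, -, e⟩
    · exact Cz_le_normalizer ρ e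
    · exact mem_nz (e ▸ mul_mem (mem_zpowers ρ) (bρ f))
  have k2 := le_normalizer (bρ f)
  have k3 : w ∈ normalizer (zpowers ρ : Set G) := mem_nz (f.inv ▸ inv_mem (mem_zpowers ρ))
  obtain ⟨c, hc, rfl | rfl | rfl | rfl⟩ := h.dec d hd
  exacts [k1 hc, mul_mem (k1 hc) k2, mul_mem (k1 hc) k3, mul_mem (mul_mem (k1 hc) k2) k3]

theorem memP {x : G} (hx : x ∈ DD z w ⊔ zpowers ρ) :
    ∃ c ∈ C, ∃ r ∈ zpowers ρ, x = c * r ∨ x = c * w * r := by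
  obtain ⟨d, hd, r, hr, rfl⟩ := (mem_sup_of_le_normalizer (h.Dn f)).mp hx
  obtain ⟨c, hc, rfl | rfl | rfl | rfl⟩ := h.dec d hd
  · exact ⟨_, hc, r, hr, Or.inl rfl⟩
  · exact ⟨c, hc, _, mul_mem (bρ f) hr, Or.inl (mul_assoc _ _ _)⟩
  · exact ⟨c, hc, r, hr, Or.inr rfl⟩
  · exact ⟨c, hc, _, mul_mem (bρ f) hr, Or.inr (by rw [mul_assoc c, mem_Cz.mp h.bD.2]; group)⟩

theorem cardP : Nat.card ↥(DD z w ⊔ zpowers ρ) = 2 ^ (k + 3) * Nat.card C := by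
  have k1 := L0.card_sup_mul_card_inf_of_le_normalizer (h.Dn f)
  have k2 : DD z w ⊓ zpowers ρ = zpowers b := le_antisymm (fun x hx => by
    rcases of_w f hx.2 hx.1.2 with rfl | rfl
    exacts [one_mem _, mem_zpowers _]) (zpowers_le.mpr ⟨h.bD, bρ f⟩)
  rw [k2, Nat.card_zpowers, Nat.card_zpowers, orderOf_two_of h.b1 h.b2, f.ord, h.card4] at k1
  refine Nat.eq_of_mul_eq_mul_right two_pos (k1.trans (by ring))

omit h [Finite G] in
theorem P_le : DD z w ⊔ zpowers ρ ≤ Cz z := sup_le inf_le_left (zpowers_le.mpr f.mem)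

theorem inv1 {y : G} (hy : y ∈ DD z w ⊔ zpowers ρ) (y2 : y * y = 1) :
    ∃ c ∈ C, c * c = 1 ∧ c ∈ Cz ρ ∧ (y = c ∨ y = c * b ∨ ∃ r ∈ zpowers ρ, y = c * w * r) := by
  obtain ⟨c, hc, r, hr, e⟩ := h.memP f hy
  have k1 := conj_mem_of_mem_normalizer' (h.Dn f (h.C_le hc)) hr
  have k2 : c * c = 1 := by
    refine h.of_C f ?_ (mul_mem hc hc)
    rcases e with rfl | rfl
    · rw [show c * c = c * r * (c * r) * (c⁻¹ * r * c * r)⁻¹ by group, y2, one_mul]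
      exact inv_mem (mul_mem k1 hr)
    · rw [show c * c = c * (w * r * c * w * r) * (c⁻¹ * (w * r * c * w * r))⁻¹ by group,
        show c * (w * r * c * w * r) = c * w * r * (c * w * r) by group, y2, one_mul,
        show c⁻¹ * (w * r * c * w * r) = c⁻¹ * w * c * (c⁻¹ * r * c) * w * r by group,
        show c⁻¹ * w * c = w by rw [mul_assoc, ← mem_Cz.mp (h.C_le hc).2]; group]
      nth_rewrite 2 [← inv_eq_of_mul_eq_one_right h.w2]
      rw [winv f k1]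
      exact inv_mem (mul_mem (inv_mem k1) hr)
  have k3 := (f.act c hc).resolve_right fun e => e.1 k2
  refine ⟨c, hc, k2, k3, ?_⟩
  rcases e with rfl | rfl
  · rw [mul_assoc, ← mul_assoc r, ← mem_Cz.mp (zc hr k3), mul_assoc, ← mul_assoc, k2, one_mul] at y2
    rcases invol f hr y2 with rfl | rfl
    exacts [Or.inl (mul_one c), Or.inr (Or.inl rfl)]
  · exact Or.inr (Or.inr ⟨r, hr, rfl⟩)

omit h [Finite G] in
theorem conj_w {q : G} (hq : q ∈ zpowers ρ) {r : G} (hr : r ∈ zpowers ρ) :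
    q⁻¹ * (w * r) * q = w * (r * (q * q)) := by
  rw [← winv f hq, ← mul_assoc r, zz hr hq]
  group

omit h in
theorem refl_conj {r : G} (hr : r ∈ zpowers ρ) : ∃ g ∈ Cz z, g * w * g⁻¹ = w * r := by
  have k := zpowers_le.mpr f.mem
  by_cases e : r ∈ zpowers (ρ * ρ)
  · obtain ⟨q, hq, rfl⟩ := exists_sq e
    exact ⟨q⁻¹, inv_mem (k hq), by simpa using conj_w f hq (one_mem _)⟩
  · obtain ⟨g, hg, e1⟩ := f.cw
    obtain ⟨q, hq, e2⟩ := exists_sq (mul_mem_of_relIndex_two (idxΦ f) (inv_mem (mem_zpowers ρ)) hr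
      (fun e => by
        have := relIndex_eq_one.mpr (zpowers_le.mpr (inv_mem_iff.mp e))
        rw [idxΦ f] at this
        omega) e)
    refine ⟨q⁻¹ * g, mul_mem (inv_mem (k hq)) hg, ?_⟩
    rw [show q⁻¹ * g * w * (q⁻¹ * g)⁻¹ = q⁻¹ * (g * w * g⁻¹) * q by group, e1,
      conj_w f hq (mem_zpowers ρ), ← e2, mul_inv_cancel_left]

theorem ne_z {r : G} (hr : r ∈ zpowers ρ) : w * r ≠ z := fun e => wρ f
  ((mul_mem_cancel_right (Cz_symm (zc hr (self_mem ρ)))).mp (e ▸ Cz_symm f.mem))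

theorem isConj_w {r : G} (hr : r ∈ zpowers ρ) : IsConj z (w * r) := by
  obtain ⟨g, -, e⟩ := refl_conj f hr
  exact e ▸ isConj_cj h.cw g

theorem conjZ {y : G} (hy : y ∈ DD z w ⊔ zpowers ρ) (h1 : IsConj z y) (h2 : y ≠ z) :
    ∃ r ∈ zpowers ρ, y = w * r := by
  have k0 : ∀ y ∈ DD z w, IsConj z y → y ≠ z → y = w ∨ y = w * b := fun y hy h1 h2 =>
    (h.three y hy h1).resolve_left h2
  have k : y ∈ DD z w → ∃ r ∈ zpowers ρ, y = w * r := fun hy => by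
    rcases k0 y hy h1 h2 with e | e
    exacts [⟨1, one_mem _, by rw [mul_one, e]⟩, ⟨b, bρ f, e⟩]
  obtain ⟨c, hc, -, c1, rfl | rfl | ⟨r, hr, rfl⟩⟩ := h.inv1 f hy (h.sq h1)
  · exact k (h.C_le hc)
  · exact k (mul_mem (h.C_le hc) h.bD)
  obtain ⟨g, hg, e⟩ := refl_conj f hr
  have k1 : ∀ y ∈ Cz z, y ∈ Cz (w * r) → IsConj z y → y ≠ z → y = w * r ∨ y = g * (w * b) * g⁻¹ :=
    fun y y1 y2 y3 y4 => by
      rcases k0 (g⁻¹ * y * g⁻¹⁻¹) (mem_inf.mpr ⟨mul_mem (mul_mem (inv_mem hg) y1) (inv_mem (inv_mem hg)),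
        by simpa [← e, mul_assoc] using conj_mem_Cz (g := g⁻¹) y2⟩) (isConj_cj y3 _)
        (fun e => y4 (by rw [← conj_eq hg, ← e]; group)) with e1 | e1
      · exact Or.inl (by rw [← e, ← e1]; group)
      · exact Or.inr (by rw [← e1]; group)
  have k2 := mul_mem hr (bρ f)
  rcases k1 _ (P_le f hy) (mul_assoc c w r ▸ mul_mem (Cz_symm (mul_mem (Cz_symm (h.C_le hc).2)
    (Cz_symm (zc hr c1)))) (self_mem _)) h1 h2 with e1 | e1
  · exact ⟨r, hr, e1⟩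
  · refine ⟨_, k2, e1.trans ((k1 _ (mul_mem h.comm (zpowers_le.mpr f.mem k2)) (mul_assoc w r b ▸
      mul_mem (self_mem _) (Cz_symm (mul_mem (Cz_symm h.bD.2) (mem_Cz.mpr (zz hr (bρ f))))))
      (h.isConj_w f k2) (h.ne_z f k2)).resolve_left fun e => h.b1 (by simpa using e)).symm⟩

omit h in
theorem cls {s t r q : G} (hs : s ∈ Cz z) (ht : t ∈ Cz z) (hr : r ∈ zpowers ρ)
    (e1 : s * w * s⁻¹ = w * r) (e2 : t * w * t⁻¹ = w * q) (e : r⁻¹ * q ∈ zpowers (ρ * ρ)) :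
    ∃ x ∈ zpowers ρ, ∃ d ∈ DD z w, t = x * s * d := by
  obtain ⟨x, hx, e3⟩ := exists_sq e
  have k := zpowers_le.mpr f.mem hx
  refine ⟨x⁻¹, inv_mem hx, s⁻¹ * x * t,
    mem_inf.mpr ⟨mul_mem (mul_mem (inv_mem hs) k) ht, mem_of_conj ?_⟩, by group⟩
  have := conj_w f hx hr
  rw [← e3, mul_inv_cancel_left, ← e1, ← e2] at this
  rw [show s⁻¹ * x * t * w * (s⁻¹ * x * t)⁻¹ = s⁻¹ * x * (t * w * t⁻¹) * x⁻¹ * s by group, ← this]
  group

theorem norm {s : G} (hs : s ∈ Cz z)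
    (hn : s ∈ normalizer ((DD z w ⊔ zpowers ρ : Subgroup G) : Set G)) :
    s ∈ normalizer (zpowers ρ : Set G) ∧ ∃ r ∈ zpowers ρ, s * w * s⁻¹ = w * r ∧
      (r ∈ zpowers (ρ * ρ) → s ∈ DD z w ⊔ zpowers ρ) := by
  have k : ∀ r ∈ zpowers ρ, ∃ q ∈ zpowers ρ, s * (w * r) * s⁻¹ = w * q := fun r hr =>
    h.conjZ f (conj_mem_of_mem_normalizer hn (mul_mem (mem_sup_left h.wD) (mem_sup_right hr)))
      (isConj_cj (h.isConj_w f hr) s) fun e => h.ne_z f hr (by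
        rw [← conj_eq hs] at e; simpa using e)
  obtain ⟨r, hr, e1⟩ := k 1 (one_mem _)
  obtain ⟨q, hq, e2⟩ := k ρ (mem_zpowers ρ)
  rw [mul_one] at e1
  refine ⟨mem_nz ?_, r, hr, e1, fun e => ?_⟩
  · rw [show s * ρ * s⁻¹ = (s * w * s⁻¹)⁻¹ * (s * (w * ρ) * s⁻¹) by group, e1, e2]
    simpa using mul_mem (inv_mem hr) hq
  · obtain ⟨x, hx, d, hd, rfl⟩ := cls f (one_mem _) hs (one_mem _) (by simp) e1 (by simpa using e)
    exact mul_mem (mul_mem (mem_sup_right hx) (one_mem _)) (mem_sup_left hd)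

theorem mulP {s t : G} (hs : s ∈ Cz z ⊓ normalizer ((DD z w ⊔ zpowers ρ : Subgroup G) : Set G))
    (ht : t ∈ Cz z ⊓ normalizer ((DD z w ⊔ zpowers ρ : Subgroup G) : Set G))
    (s1 : s ∉ DD z w ⊔ zpowers ρ) (t1 : t ∉ DD z w ⊔ zpowers ρ) : s * t ∈ DD z w ⊔ zpowers ρ := by
  obtain ⟨-, r, hr, e1, e2⟩ := h.norm f (inv_mem hs).1 (inv_mem hs).2
  obtain ⟨-, q, hq, e3, e4⟩ := h.norm f ht.1 ht.2
  obtain ⟨x, hx, d, hd, rfl⟩ := cls f (inv_mem hs).1 ht.1 hr e1 e3 (mul_mem_of_relIndex_two (idxΦ f)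
    (inv_mem hr) hq (fun e => s1 (inv_mem_iff.mp (e2 (inv_mem_iff.mp e)))) fun e => t1 (e4 e))
  rw [← mul_assoc, ← mul_assoc]
  exact mul_mem (conj_mem_of_mem_normalizer hs.2 (mem_sup_right hx)) (mem_sup_left hd)

theorem conj_c {v c : G} (hv : v ∈ Cz z ⊓ normalizer ((DD z w ⊔ zpowers ρ : Subgroup G) : Set G))
    (hc : c ∈ DD z w ⊓ Cz ρ) : v * c * v⁻¹ ∈ DD z w ⊓ Cz ρ := by
  obtain ⟨k1, r, hr, e, -⟩ := h.norm f hv.1 hv.2
  have k2 : v * c * v⁻¹ ∈ Cz ρ := by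
    simpa [mul_assoc] using conj_mem_Cz (g := v)
      (zc (conj_mem_of_mem_normalizer' k1 (mem_zpowers ρ)) hc.2)
  exact ⟨⟨mul_mem (mul_mem hv.1 hc.1.1) (inv_mem hv).1, Cz_symm ((mul_mem_cancel_right
    (Cz_symm (zc hr k2))).mp (e ▸ Cz_symm (conj_mem_Cz hc.1.2)))⟩, k2⟩

theorem not_fix {v c r : G} (hv : v ∈ Cz z ⊓ normalizer ((DD z w ⊔ zpowers ρ : Subgroup G) : Set G))
    (v1 : v ∉ DD z w ⊔ zpowers ρ) (hc : c ∈ DD z w ⊓ Cz ρ) (hr : r ∈ zpowers ρ) :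
    v ∉ Cz (c * w * r) := fun e => by
  obtain ⟨k1, q, hq, e1, e2⟩ := h.norm f hv.1 hv.2
  have k2 := conj_mem_of_mem_normalizer k1 hr
  have k3 : r * (v * r * v⁻¹)⁻¹ ∈ zpowers (ρ * ρ) := by
    rw [mul_mem_iff_of_relIndex_two (idxΦ f) hr (inv_mem k2), inv_mem_iff]
    refine mem_normalizer_iff.mp (mem_nz ?_) r
    rw [show v * (ρ * ρ) * v⁻¹ = v * ρ * v⁻¹ * (v * ρ * v⁻¹) by group]
    exact sq_mem (conj_mem_of_mem_normalizer k1 (mem_zpowers ρ))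
  have k4 : r * (v * r * v⁻¹)⁻¹ * q⁻¹ = w⁻¹ * (c⁻¹ * (v * c * v⁻¹)) * w := by
    have := conj_eq e
    rw [show v * (c * w * r) * v⁻¹ = v * c * v⁻¹ * (v * w * v⁻¹) * (v * r * v⁻¹) by group, e1] at this
    rw [show v * c * v⁻¹ = c * w * r * (v * r * v⁻¹)⁻¹ * (w * q)⁻¹ by rw [← this]; group]
    group
  refine v1 (e2 (inv_mem_iff.mp ((mul_mem_cancel_left k3).mp (of_w' f
    (mul_mem (sq_le ρ k3) (inv_mem hq)) ?_))))
  rw [k4]
  exact mul_mem (mul_mem (inv_mem (self_mem w)) (mul_mem (inv_mem hc.1.2) (h.conj_c f hv hc).1.2))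
    (self_mem w)

theorem out {y : G} (hy : y ∈ Cz z ⊓ normalizer ((DD z w ⊔ zpowers ρ : Subgroup G) : Set G))
    (y1 : y ∉ DD z w ⊔ zpowers ρ) (y2 : y * y = 1) : orderOf (w * y) = 2 ^ (k + 1 + 2) ∧
      (w * y) ^ 2 ^ (k + 1 + 1) = b ∧ ρ ∈ zpowers (w * y) ∧ y * ρ * y⁻¹ = ρ⁻¹ := by
  obtain ⟨-, r, hr, e1, e2⟩ := h.norm f hy.1 hy.2
  have k1 : (w * y) ^ 2 = r := by
    rw [inv_eq_of_mul_eq_one_right y2] at e1
    rw [pow_two, mul_assoc, ← mul_assoc y, e1, ← mul_assoc, h.w2, one_mul]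
  obtain ⟨i, rfl⟩ : ∃ i : ℕ, ρ ^ i = r := mem_powers_iff_mem_zpowers.mpr hr
  have k2 : Nat.Coprime i (orderOf ρ) := by
    rw [f.ord]
    refine Nat.Coprime.pow_right _ (Nat.coprime_two_right.mpr (Nat.not_even_iff_odd.mp ?_))
    rintro ⟨j, rfl⟩
    exact y1 (e2 (pow_add ρ j j ▸ sq_mem (npow_mem_zpowers ρ j)))
  have k3 : orderOf (ρ ^ i) = 2 ^ (k + 2) := by rw [k2.symm.orderOf_pow, f.ord]
  have k4 : ρ ∈ zpowers (w * y) :=
    zpowers_le.mpr (k1 ▸ npow_mem_zpowers _ 2) (mem_zpowers_pow_iff.mpr k2)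
  have k5 : (w * y) ^ 2 ^ (k + 1 + 1) ≠ 1 := by
    rw [pow_succ', pow_mul, k1]
    exact pow_ne_one_of_lt_orderOf (by positivity) (k3 ▸ Nat.pow_lt_pow_right one_lt_two (by omega))
  have k6 : (w * y) ^ 2 ^ (k + 1 + 1 + 1) = 1 := by
    rw [pow_succ', pow_mul, k1, ← k3, pow_orderOf_eq_one]
  refine ⟨orderOf_eq_prime_pow k5 k6, (invol f ?_ ?_).resolve_left k5, k4,
    H4.conj_eq_inv_of_mem_zpowers (H4.right_conj_mul_eq_inv h.w2 y2) k4⟩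
  · rw [pow_succ', pow_mul, k1]; exact pow_mem hr _
  · rw [← pow_add, ← two_mul, ← pow_succ', k6]

end ST

end Cfsg.Agent.H9.MS
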