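import Cfsg.Agent.H9.MS4

/-! Groups with a maximal Sylow `2`-subgroup of order `128`, part 5. -/

set_option autoImplicit false

namespace Cfsg.Agent.H9.MS

open Subgroup H7 H8 GW

variable {G : Type*} [Group G] [Finite G]

namespace ST

variable {z w a b : G} {C : Subgroup G} (h : ST z w a b C) {ρ : G} {k : ℕ} (f : Fr z w b C ρ k)
include h f

theorem step (hc : C ≤ Cz ρ) (h4 : Nat.card ↥(DD z w ⊔ zpowers ρ) ≤ 32) :
    ∃ σ, Fr z w b C σ (k + 1) := by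
  have nil := (h.pg (IsConj.refl z)).isNilpotent
  obtain ⟨s, s1, s2, s3⟩ := exists_mem_normalizer_not_mem nil (P_le f) fun e => by
    have := card_le_of_le e
    rw [h.card] at this
    omega
  have PN : DD z w ⊔ zpowers ρ ≤ Cz z ⊓ normalizer ((DD z w ⊔ zpowers ρ : Subgroup G) : Set G) :=
    le_inf (P_le f) le_normalizer
  have c1 := card_le_of_mul_mem PN (mem_inf.mpr ⟨s1, s3⟩) fun t ht t1 => h.mulP f ht ⟨s1, s3⟩ t1 s2
  obtain ⟨t, t1, t2, t3⟩ := exists_mem_normalizer_not_mem nil (inf_le_left : Cz z ⊓ normalizer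
    ((DD z w ⊔ zpowers ρ : Subgroup G) : Set G) ≤ _) fun e => by
      have := card_le_of_le e
      rw [h.card] at this
      omega
  have yN := conj_mem_of_mem_normalizer t3 (PN (mem_sup_left h.wD))
  have my := h.toMP.conj t1
  have yP : t * w * t⁻¹ ∉ DD z w ⊔ zpowers ρ := fun e => by
    obtain ⟨r, hr, e1⟩ := h.conjZ f e my.cw my.ne
    obtain ⟨-, q, hq, e2, e3⟩ := h.norm f s1 s3
    have k : ∀ s q, s ∈ Cz z ⊓ normalizer ((DD z w ⊔ zpowers ρ : Subgroup G) : Set G) →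
        q ∈ zpowers ρ → s * w * s⁻¹ = w * q → q⁻¹ * r ∉ zpowers (ρ * ρ) := fun s q hs hq e1' e => by
      obtain ⟨x, hx, d, hd, rfl⟩ := cls f hs.1 t1 hq e1' e1 e
      exact t2 (mul_mem (mul_mem (PN (mem_sup_right hx)) hs) (PN (mem_sup_left hd)))
    exact k s q ⟨s1, s3⟩ hq e2 (mul_mem_of_relIndex_two (idxΦ f) (inv_mem hq) hr
      (fun e => s2 (e3 (inv_mem_iff.mp e))) (by simpa using k 1 1 (one_mem _) (one_mem _) (by simp)))
  have eD := MP.cjD (w := w) t1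
  have DN : DD z (t * w * t⁻¹) ≤ _ := eD ▸ cj_le_of_mem_normalizer t3 (le_sup_left.trans PN)
  have cD : Nat.card ↥(DD z (t * w * t⁻¹)) = Nat.card ↥(DD z w) := by rw [← eD, card_cj]
  have sqD : ∀ x ∈ DD z (t * w * t⁻¹), x * x ≠ 1 → ∃ c ∈ C, c * c ≠ 1 := fun x hx x1 => by
    rw [← eD, mem_cj] at hx
    obtain ⟨c, hc, e⟩ := h.sq_eq hx
    refine ⟨c, hc, fun e1 => x1 ?_⟩
    rw [e1] at e
    simpa [← mul_assoc] using congrArg (fun u => t * u * t⁻¹) e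
  obtain ⟨y, hy⟩ : ∃ y, t * w * t⁻¹ = y := ⟨_, rfl⟩
  rw [hy] at yN my yP DN cD sqD
  have y2 := h.sq my.cw
  obtain ⟨o1, o2, o3, o4⟩ := h.out f yN yP y2
  have CE : C ≤ DD z w ⊓ Cz ρ := le_inf h.C_le hc
  have bE : b ∈ DD z w ⊓ Cz ρ := ⟨h.bD, mem_Cz.mpr (zz (bρ f) (mem_zpowers ρ))⟩
  have yinv : ∀ r ∈ zpowers ρ, y * r * y⁻¹ = r⁻¹ := fun r hr => H4.conj_eq_inv_of_mem_zpowers o4 hr
  have yb : y * b * y⁻¹ = b := by rw [yinv _ (bρ f), inv_eq_of_mul_eq_one_right h.b2]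
  have F1 : ∀ x ∈ DD z y ⊓ (DD z w ⊔ zpowers ρ), x ∉ DD z w ⊓ Cz ρ → ∃ c ∈ C, ∃ r ∈ zpowers ρ,
      x = c * r ∧ r * r = b ∧ y * c * y⁻¹ = c * b := fun x hx x1 => by
    obtain ⟨c, hc', r, hr, rfl | rfl⟩ := h.memP f hx.2
    · have k1 := conj_eq (Cz_symm hx.1.2)
      rw [show y * (c * r) * y⁻¹ = y * c * y⁻¹ * (y * r * y⁻¹) by group, yinv r hr,
        mul_inv_eq_iff_eq_mul, mul_assoc c] at k1
      have k2 := (of_w f (mul_mem hr hr) (((Cz w).mul_mem_cancel_left (h.C_le hc').2).mp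
        (k1 ▸ (h.conj_c f yN (CE hc')).1.2))).resolve_left fun e => x1 (by
          rcases invol f hr e with rfl | rfl
          exacts [by simpa using CE hc', mul_mem (CE hc') bE])
      exact ⟨c, hc', r, hr, rfl, k2, k2 ▸ k1⟩
    · exact absurd (Cz_symm hx.1.2) (h.not_fix f yN yP (CE hc') hr)
  have c2 := card_le_of_mul_mem (inf_le_left (b := DD z w ⊔ zpowers ρ)) my.wD fun x hx x1 =>
    mem_inf.mpr ⟨mul_mem hx my.wD, h.mulP f (DN hx) yN (fun e => x1 ⟨hx, e⟩) yP⟩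
  have c3 := two_mul_le (inf_le_left (b := Cz ρ)) h.wD fun e => wρ f e.2
  have key : ∀ c ∈ C, c ∉ Cz y → y * c * y⁻¹ = c * b ∧ ∃ c ∈ C, c * c ≠ 1 := fun c hc' c1 => by
    by_cases e : DD z y ⊓ (DD z w ⊔ zpowers ρ) ≤ DD z w ⊓ Cz ρ
    · exact absurd ((eq_of_le_of_card_ge e (by omega)).ge (CE hc')).1.2 c1
    obtain ⟨x, hx, x1⟩ := SetLike.not_le_iff_exists.mp e
    obtain ⟨d, hd, r, hr, rfl, r2, e1⟩ := F1 x hx x1
    have c4 := card_le_of_mul_mem (inf_le_left (b := DD z w ⊓ Cz ρ)) hx fun x' hx' x2 => by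
      obtain ⟨d', hd', r', hr', rfl, r2', -⟩ := F1 x' hx' fun e => x2 ⟨hx', e⟩
      refine mem_inf.mpr ⟨mul_mem hx' hx, ?_⟩
      rw [show d' * r' * (d * r) = d' * d * (r' * r) by
        rw [mul_assoc, ← mul_assoc r', ← mem_Cz.mp (zc hr' (hc hd))]; group]
      refine mul_mem (CE (mul_mem hd' hd)) ?_
      rcases invol f (mul_mem hr' hr) (by
        rw [mul_assoc, ← mul_assoc r, zz hr hr', mul_assoc, r2, ← mul_assoc, r2', h.b2]) with e | e
      exacts [e ▸ one_mem _, e ▸ bE]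
    have c5 := card_le_of_le (le_inf inf_le_right (inf_le_left.trans (inf_le_left.trans inf_le_right)) :
      DD z y ⊓ (DD z w ⊔ zpowers ρ) ⊓ (DD z w ⊓ Cz ρ) ≤ DD z w ⊓ Cz ρ ⊓ Cz y)
    have k1 := conj_eq (Cz_symm (mul_mem2 (inf_le_left (b := Cz y)) (by omega) (CE hc') (CE hd)
      (fun e => c1 e.2) fun e => h.b1 (by rwa [conj_eq (Cz_symm e.2), left_eq_mul] at e1)).2)
    rw [show y * (c * d) * y⁻¹ = y * c * y⁻¹ * (y * d * y⁻¹) by group, e1, h.cm _ (h.C_le hd) _ h.bD,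
      ← mul_assoc, mul_left_inj] at k1
    refine ⟨by rw [eq_mul_inv_of_mul_eq k1, inv_eq_of_mul_eq_one_right h.b2], sqD _ hx.1 fun e => h.bC ?_⟩
    rw [mul_assoc, ← mul_assoc r, ← mem_Cz.mp (zc hr (hc hd)), mul_assoc, r2, ← mul_assoc] at e
    exact eq_inv_of_mul_eq_one_right e ▸ inv_mem (mul_mem hd hd)
  refine ⟨w * y, mul_mem h.comm yN.1, o1, H4.left_conj_mul_eq_inv h.w2 y2, o2,
    ⟨t, t1, by rw [← mul_assoc w, h.w2, one_mul, hy]⟩, fun c hc' => ?_⟩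
  by_cases e : c ∈ Cz y
  · exact Or.inl (Cz_symm (mul_mem (Cz_symm (h.C_le hc').2) (Cz_symm e)))
  obtain ⟨k1, d, hd, d1⟩ := key c hc' e
  refine Or.inr ⟨fun c2 => ?_, by omega, ?_⟩
  · obtain ⟨k2, k3⟩ := h.card_eq hd d1
    rcases eq_pow_of_mem_zpowers_of_mul_self k3 two_pos ((eq_of_le_of_card_ge (zpowers_le.mpr hd)
      (by rw [Nat.card_zpowers, k2, k3])).ge hc') c2 with rfl | rfl
    · exact e (one_mem _)
    · refine e ?_
      by_cases e1 : d ∈ Cz y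
      · exact pow_mem e1 2
      · refine Cz_symm (mem_of_conj ?_)
        rw [← conj_pow, (key d hd e1).1, pow_two, pow_two, mul_assoc, ← mul_assoc b,
          ← h.cm _ (h.C_le hd) _ h.bD, mul_assoc, h.b2, mul_one]
  · rw [inv_eq_of_mul_eq_one_right y2] at k1
    calc _ = c * w * c⁻¹ * y * (y * c * y) * c⁻¹ := by
          rw [show c * w * c⁻¹ * y * (y * c * y) * c⁻¹ = c * w * c⁻¹ * (y * y) * c * y * c⁻¹ by group, y2]
          group
      _ = _ := by rw [conj_eq (h.C_le hc').2, k1, h.cm _ (h.C_le hc') _ h.bD]; group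

theorem invC {c : G} (hc : c ∈ C) (c2 : c * c = 1) : DD z w ⊔ zpowers ρ ≤ Cz c :=
  sup_le (fun d hd => mem_Cz.mpr (h.cm _ hd _ (h.C_le hc)))
    (zpowers_le.mpr (Cz_symm ((f.act c hc).resolve_right fun e => e.1 c2)))

omit f in
theorem exists_inv {c : G} (hc : c ∈ C) (c1 : c ≠ 1) : ∃ d ∈ zpowers c, d ≠ 1 ∧ d * d = 1 := by
  by_cases e : c * c = 1
  exacts [⟨c, mem_zpowers c, c1, e⟩, ⟨_, mul_mem (mem_zpowers c) (mem_zpowers c), e, h.pow4 hc⟩]

theorem fin (h2 : Nat.card ↥(DD z w ⊔ zpowers ρ) = 64) :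
    ∃ σ ∈ Cz z, orderOf σ = 64 ∧ w * σ * w⁻¹ = σ⁻¹ := by
  have cP := h.cardP f
  have c4 := h.C4
  have k0 : k ≠ 0 := by rintro rfl; omega
  have i2 := relIndex_eq_of_card (P_le f) (k := 2) (by rw [h.card, h2])
  have nP : ∀ s ∈ Cz z, s ∈ Cz z ⊓ normalizer ((DD z w ⊔ zpowers ρ : Subgroup G) : Set G) :=
    fun s hs => ⟨hs, mem_normalizer_of_conj_mem fun x hx =>
      (conj_mem_iff_of_relIndex_two i2 (P_le f hx) hs).mpr hx⟩
  have bS : Cz z ≤ Cz b := fun s hs => mem_of_conj ((invol f (conj_mem_of_mem_normalizer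
    (h.norm f hs (nP s hs).2).1 (bρ f)) (by
      rw [show s * b * s⁻¹ * (s * b * s⁻¹) = s * (b * b) * s⁻¹ by group, h.b2]; group)).resolve_left
    fun e => h.b1 (by simpa using e))
  have bz : b = z := by
    have : z * b = 1 := by_contra fun e => h.nc _ h.zb e fun s hs =>
      Cz_symm (mul_mem (Cz_symm hs) (Cz_symm (bS hs)))
    rw [← inv_eq_of_mul_eq_one_right this, inv_eq_of_mul_eq_one_right (sq_of_two h.hz)]
  have K1 : ∀ c ∈ C, c * c = 1 → ∀ v ∈ Cz z, v ∉ DD z w ⊔ zpowers ρ → v ∈ Cz c → c = 1 :=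
    fun c hc c2 v hv v1 v2 => by_contra fun c1 => h.nc c hc c1 fun s hs => by
      by_cases e : s ∈ DD z w ⊔ zpowers ρ
      · exact h.invC f hc c2 e
      · exact (mul_mem_cancel_right v2).mp (h.invC f hc c2 (mul_mem_of_relIndex_two i2 hs hv e v1))
  by_cases hI : ∀ v ∈ Cz z, v * v = 1 → v ∈ DD z w ⊔ zpowers ρ
  · exfalso
    obtain ⟨v, hv, v1⟩ := SetLike.not_le_iff_exists.mp fun e : Cz z ≤ DD z w ⊔ zpowers ρ => by
      rw [relIndex_eq_one.mpr e] at i2; omega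
    obtain ⟨j, j1, j2⟩ := exists_pow_ne_one_pow_eq_one (fun e : v = 1 => v1 (e ▸ one_mem _))
      (exists_pow_eq_one_of_mem (h.pg (IsConj.refl z)) hv)
    rw [pow_two] at j2
    have k1 := hI _ (pow_mem hv _) j2
    have k2 : v ∈ Cz (v ^ 2 ^ j) := Cz_symm (pow_mem (self_mem v) _)
    obtain _ | j := j
    · exact v1 (by simpa using k1)
    refine h.transfer (P_le f) i2 (fun u hu u1 _ => hI u hu (h.sq u1)) hv v1 (j := j) ?_
    obtain ⟨c, hc, c2, c3, e | e | ⟨r, hr, e⟩⟩ := h.inv1 f k1 j2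
    · exact absurd (e.trans (K1 c hc c2 v hv v1 (e ▸ k2))) j1
    · rw [e, K1 c hc c2 v hv v1 (Cz_symm ((mul_mem_cancel_right (Cz_symm (bS hv))).mp
        (Cz_symm (e ▸ k2)))), one_mul, bz]
    · exact absurd (e ▸ k2) (h.not_fix f (nP v hv) v1 ⟨h.C_le hc, c3⟩ hr)
  push Not at hI
  obtain ⟨y, hy, y2, y1⟩ := hI
  obtain ⟨o1, o2, o3, o4⟩ := h.out f (nP y hy) y1 y2
  have σS := mul_mem h.comm hy
  by_cases hC : Nat.card C = 1
  · exact ⟨_, σS, by rw [o1, ← h2, cP, hC, mul_one], H4.left_conj_mul_eq_inv h.w2 y2⟩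
  exfalso
  have cL := H4.card_closure_involutions (h.ord h.cw) (orderOf_two_of (fun e : y = 1 => y1 (e ▸ one_mem _)) y2)
  have wL : w ∈ closure ({w, y} : Set G) := subset_closure (by simp)
  have yL : y ∈ closure ({w, y} : Set G) := subset_closure (by simp)
  have ρL : zpowers ρ ≤ closure ({w, y} : Set G) :=
    zpowers_le.mpr (zpowers_le.mpr (mul_mem wL yL) o3)
  obtain ⟨M, M1, M2, M3⟩ := exists_between_card (h.pg (IsConj.refl z)) (m := 6)
    (B := closure ({w, y} : Set G)) ((closure_le _).mpr (by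
      rintro x (rfl | rfl)
      exacts [h.comm, hy])) (by
        rw [cL, o1, show k + 1 + 2 = k + 3 by ring]
        have := h.cardC
        have : 2 ^ (k + 3) * 2 ≤ 2 ^ (k + 3) * Nat.card C := Nat.mul_le_mul_left _ (by omega)
        omega) (by rw [h.card]; norm_num)
  have iM := relIndex_eq_of_card M2 (k := 2) (by rw [h.card, M3]; norm_num)
  have ρ4 : ρ * ρ * (ρ * ρ) ≠ 1 := by
    rw [← pow_two, ← pow_two, ← pow_mul]
    exact pow_ne_one_of_lt_orderOf (by omega) (f.ord ▸ Nat.pow_lt_pow_right (m := 2) one_lt_two (by omega))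
  obtain ⟨c, hc, cM⟩ := SetLike.not_le_iff_exists.mp fun e : C ≤ M => by
    have k1 : DD z w ⊔ zpowers ρ ≤ M := fun x hx => by
      obtain ⟨c, hc, r, hr, rfl | rfl⟩ := h.memP f hx
      exacts [mul_mem (e hc) (M1 (ρL hr)), mul_mem (mul_mem (e hc) (M1 wL)) (M1 (ρL hr))]
    exact y1 ((eq_of_le_of_card_ge k1 (by rw [M3, h2]; norm_num)).ge (M1 yL))
  have bρ' := zz (bρ f) (mem_zpowers ρ)
  refine h.transfer M2 iM (fun u hu u1 u2 => M1 ?_) (mul_mem (h.C_le hc).1 f.mem)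
    (fun e => cM ((mul_mem_cancel_right (M1 (ρL (mem_zpowers ρ)))).mp e)) (j := k) ?_
  · by_cases e : u ∈ DD z w ⊔ zpowers ρ
    · obtain ⟨r, hr, rfl⟩ := h.conjZ f e u1 u2
      exact mul_mem wL (ρL hr)
    have p1 := (h.out f (nP u hu) e (h.sq u1)).2.2.2
    have p2 : y * u ∈ Cz ρ := mem_of_conj (by
      rw [show y * u * ρ * (y * u)⁻¹ = y * (u * ρ * u⁻¹) * y⁻¹ by group, p1, ← conj_inv, o4, inv_inv])
    have p3 := H4.left_conj_mul_eq_inv y2 (h.sq u1)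
    obtain ⟨d, hd, r, hr, e1 | e1⟩ := h.memP f (mul_mem_of_relIndex_two i2 hy hu y1 e)
    · have p4 : d ∈ Cz ρ := (mul_mem_cancel_right (Cz_symm (zc hr (self_mem ρ)))).mp (e1 ▸ p2)
      rw [e1, show y * (d * r) * y⁻¹ = y * d * y⁻¹ * (y * r * y⁻¹) by group,
        H4.conj_eq_inv_of_mem_zpowers o4 hr, mem_Cz.mp (zc hr p4), mul_inv_rev, mul_left_inj] at p3
      have p5 : d = 1 := by_contra fun d1 => by
        obtain ⟨x, x1, x2, x3⟩ := h.exists_inv hd d1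
        exact x2 (K1 x (zpowers_le.mpr hd x1) x3 y hy y1 (mem_of_conj (by
          rw [H4.conj_eq_inv_of_mem_zpowers p3 x1, inv_eq_of_mul_eq_one_right x3])))
      exact (mul_mem_cancel_left yL).mp (e1 ▸ p5 ▸ mul_mem (one_mem _) (ρL hr))
    · have p4 := conj_eq ((mul_mem_cancel_right (Cz_symm (zc hr (self_mem ρ)))).mp (e1 ▸ p2))
      rw [show d * w * ρ * (d * w)⁻¹ = d * (w * ρ * w⁻¹) * d⁻¹ by group, f.inv, ← conj_inv] at p4
      refine absurd ?_ ρ4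
      rcases f.act d hd with p | ⟨-, -, p⟩
      · rw [conj_eq p] at p4
        rw [show ρ * ρ = 1 by nth_rewrite 1 [← p4]; simp, one_mul]
      · rw [p] at p4
        rw [show ρ * ρ = b by
          nth_rewrite 1 [← p4]; simp [inv_eq_of_mul_eq_one_right h.b2], h.b2]
  · obtain ⟨k, rfl⟩ : ∃ j, k = j + 1 := ⟨k - 1, by omega⟩
    have p1 : ∃ x ∈ zpowers ρ, c * ρ * (c * ρ) = c * c * x ∧ x * x = ρ * ρ * (ρ * ρ) := by
      rcases f.act _ (inv_mem hc) with p | ⟨-, -, p⟩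
      · exact ⟨_, mul_mem (mem_zpowers ρ) (mem_zpowers ρ), by
          rw [mul_assoc, ← mul_assoc ρ, ← mem_Cz.mp (inv_mem_iff.mp p)]; group, rfl⟩
      · refine ⟨_, mul_mem (mul_mem (mem_zpowers ρ) (bρ f)) (mem_zpowers ρ), by rw [← p]; group, ?_⟩
        rw [mul_assoc ρ b ρ, bρ', ← mul_assoc ρ ρ b, mul_assoc (ρ * ρ) b, ← mul_assoc b,
          ((show Commute b ρ from bρ').mul_right bρ').eq, mul_assoc (ρ * ρ) b b, h.b2, mul_one]
    have p2 : c * c ∈ Cz ρ := by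
      rcases f.act _ hc with p | ⟨-, -, p⟩
      · exact mul_mem p p
      · refine mem_of_conj ?_
        rw [show c * c * ρ * (c * c)⁻¹ = c * (c * ρ * c⁻¹) * c⁻¹ by group, p,
          show c * (ρ * b) * c⁻¹ = c * ρ * c⁻¹ * (c * b * c⁻¹) by group, p,
          h.cm _ (h.C_le hc) _ h.bD, mul_inv_cancel_right, mul_assoc, h.b2, mul_one]
    obtain ⟨x, x1, x2, x3⟩ := p1
    have p3 : (c * ρ) ^ 4 = ρ ^ 4 := by
      rw [show 4 = 2 + 2 by rfl, pow_add, pow_add, pow_two, pow_two, x2, ← x3, mul_assoc,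
        ← mul_assoc x, ← mem_Cz.mp (zc x1 p2), mul_assoc (c * c) x, ← mul_assoc (c * c), h.pow4 hc,
        one_mul]
    rw [← bz, ← f.pow, show 2 ^ (k + 1 + 1) = 4 * 2 ^ k by ring, pow_mul, pow_mul, p3]

theorem main_aux (n : ℕ) (hn : k + n = 6) : ∃ σ ∈ Cz z, orderOf σ = 64 ∧ w * σ * w⁻¹ = σ⁻¹ := by
  induction n generalizing k ρ with
  | zero =>
    have := Nat.le_of_dvd (by omega) (h.dvd (zpowers_le.mpr f.mem))
    rw [Nat.card_zpowers, f.ord, show k = 6 by omega] at this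
    omega
  | succ n ih =>
    have cP := h.cardP f
    by_cases e : Nat.card ↥(DD z w ⊔ zpowers ρ) = 64
    · exact h.fin f e
    by_cases e1 : Nat.card ↥(DD z w ⊔ zpowers ρ) = 128
    · have k1 : C = ⊥ := eq_bot_iff.mpr fun c hc => by_contra fun c1 => by
        obtain ⟨x, x1, x2, x3⟩ := h.exists_inv hc c1
        exact h.nc x (zpowers_le.mpr hc x1) x2 ((eq_of_le_of_card_ge (P_le f)
          (by rw [h.card, e1])).ge.trans (h.invC f (zpowers_le.mpr hc x1) x3))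
      rw [k1, card_bot, e1, pow_succ] at cP
      exact ⟨ρ, f.mem, by rw [f.ord]; omega, f.inv⟩
    have k1 := h.pw (P_le f)
    obtain ⟨σ, g⟩ := h.step f (fun c hc => (f.act c hc).resolve_right fun ⟨k2, k3, _⟩ => by
      have := Nat.pow_le_pow_right two_pos (show 4 ≤ k + 3 by omega)
      rw [(h.card_eq hc k2).1] at cP
      omega) (by omega)
    exact ih g (by omega)

end ST

theorem Hy.bsw {z : G} (h : Hy z) (hz : ∃ g : G, g * z * g⁻¹ ∈ Cz z ∧ g * z * g⁻¹ ≠ z) :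
    ∃ w σ : G, orderOf σ = 64 ∧ BSW z w (zpowers σ) := by
  obtain ⟨g0, g1, g2⟩ := hz
  obtain ⟨⟨u, v⟩, ⟨h1, h2, h3, h4⟩, hm⟩ := Set.exists_max_image
    {x : G × G | IsConj z x.1 ∧ IsConj z x.2 ∧ x.1 ≠ x.2 ∧ x.1 ∈ Cz x.2}
    (fun x => Nat.card ↥(Cz x.1 ⊓ Cz x.2)) (Set.toFinite _)
    ⟨(_, z), isConj_cj (IsConj.refl z) g0, IsConj.refl z, g2, g1⟩
  obtain ⟨g, rfl⟩ := isConj_iff.mp h2
  have e : g⁻¹ * (g * z * g⁻¹) * g⁻¹⁻¹ = z := by group
  have mp : MP z (g⁻¹ * u * g⁻¹⁻¹) := ⟨h, isConj_cj h1 _, fun e1 => h3 (by rw [← e1]; group),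
    e ▸ conj_mem_Cz h4, fun a b k1 k2 k3 k4 => (hm (a, b) ⟨k1, k2, k3, k4⟩).trans (by
      rw [← card_cj g⁻¹, cj_inf, cj_Cz, cj_Cz, e, inf_comm])⟩
  generalize g⁻¹ * u * g⁻¹⁻¹ = w at mp
  obtain ⟨a, b, C, st⟩ := mp.exists_st
  obtain ⟨σ, s1, s2, s3⟩ := st.main_aux st.fr0 6 rfl
  have k1 := zpowers_le.mpr s1
  have i2 := relIndex_eq_of_card k1 (k := 2) (by rw [h.card, Nat.card_zpowers, s2])
  have inv : ∀ x ∈ zpowers σ, w * x * w⁻¹ = x⁻¹ := fun x hx => H4.conj_eq_inv_of_mem_zpowers s3 hx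
  have nσ : ∀ x ∈ Cz σ, w * x ∉ Cz σ := fun x hx e => by
    rw [conj_eq ((mul_mem_cancel_right hx).mp e)] at s3
    have : σ ^ 2 = 1 := by rw [pow_two]; nth_rewrite 1 [s3]; simp
    exact pow_ne_one_of_lt_orderOf two_ne_zero (by omega) this
  have zσ : zpowers σ ≤ Cz σ := zpowers_le.mpr (self_mem σ)
  have wK : w ∉ zpowers σ := fun e => nσ 1 (one_mem _) (by simpa using zσ e)
  have zK : z ∈ zpowers σ := by_contra fun e => nσ _ (zσ (inv_mem (mul_mem_of_relIndex_two i2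
    (self_mem z) st.comm e wK))) (by
      simpa using Cz_symm s1)
  have un : ∀ x ∈ zpowers σ, x * x = 1 → x = 1 ∨ x = z := fun x hx x2 =>
    mem_zpowers_cases hx zK x2 h.hz
  refine ⟨w, σ, s2, h.hz, fun a ha b hb => zz ha hb, zK, st.w2, wK, fun c hc => ?_, inv, un,
    fun g x hx x1 e => ?_, fun u hu => ?_⟩
  · by_cases e : c ∈ zpowers σ
    exacts [Or.inl e, Or.inr (mul_mem_of_relIndex_two i2 (mem_Cz.mpr hc) st.comm e wK)]
  · obtain ⟨j, j1, j2⟩ := exists_pow_ne_one_pow_eq_one x1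
      (exists_pow_eq_one_of_mem (h.pg (IsConj.refl z)) (k1 hx))
    have k2 := pow_mem e (2 ^ j)
    rw [conj_pow, (un _ (pow_mem hx _) (by rwa [← pow_two])).resolve_left j1] at k2
    exact mem_Cz.mp (mem_of_conj ((un _ k2 (h.sq (isConj_cj (IsConj.refl z) g))).resolve_left
      fun e => ne_one_of_orderOf_two h.hz (by simpa using e)))
  · obtain ⟨g, hg⟩ := H6.thompson_transfer h.two h.odd i2 (t := u) (by rw [pow_two, sq_of_two hu])
    have k2 : orderOf (g⁻¹ * u * g⁻¹⁻¹) = 2 := by rw [orderOf_conj, hu]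
    rw [inv_inv] at k2
    exact isConj_iff.mpr ⟨g, by
      rw [← (un _ hg (sq_of_two k2)).resolve_left (ne_one_of_orderOf_two k2)]; group⟩

end Cfsg.Agent.H9.MS
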