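import Cfsg.Agent.H9.Cocyc
import Cfsg.Agent.H9.Quat
import Cfsg.Agent.H6.Count
import Cfsg.Agent.H4.Dihedral

/-! `2`-groups with `|Z₄| = 16` and a large special subgroup `2^(3+8)`. -/

set_option autoImplicit false

namespace Cfsg.Agent.H9

open Subgroup
open scoped commutatorElement

variable {T : Type*} [Group T]

theorem le_of_relIndex_two {M S Y : Subgroup T} (hM : M.relIndex S = 2) {b : T} (hb : b ∈ S)
    (hbM : b ∉ M) (h1 : ∀ x ∈ S, x ∈ M → x ∈ Y) (h2 : b ∈ Y) : S ≤ Y := fun s hs => by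
  by_cases h : s ∈ M
  · exact h1 s hs h
  · exact (mul_mem_cancel_right h2).mp
      (h1 _ (mul_mem hs hb) (mul_mem_of_relIndex_two hM hs hb h hbM))

/-- A section with a unique minimal normal subgroup embeds in the regular module. -/
theorem exists_gen_of_relIndex [Finite T] {W N : Subgroup T} [hW : W.Normal] [hN : N.Normal]
    (hNW : N ≤ W) (hsq : ∀ a ∈ W, a * a ∈ N) {ζ : T} (hζ : ζ ∉ N)
    (hmin : ∀ Y : Subgroup T, Y.Normal → N ≤ Y → ¬ Y ≤ N → ζ ∈ Y) :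
    N.relIndex W ≤ 2 ^ W.index ∧ (N.relIndex W = 2 ^ W.index →
      ∃ v ∈ W, ∀ Y : Subgroup T, N ≤ Y → (∀ t, t * v * t⁻¹ ∈ Y) → W ≤ Y) := by
  classical
  by_cases hWN : W ≤ N
  · exact ⟨by rw [relIndex_eq_one.mpr hWN]; exact Nat.one_le_two_pow,
      fun _ => ⟨1, one_mem _, fun Y h _ => hWN.trans h⟩⟩
  obtain ⟨M, hNM, hMW, hM, hζM⟩ := exists_relIndex_two_not_mem hNW hsq (hmin W hW hNW hWN) hζ
  obtain ⟨l, hl⟩ := exists_sign_of_relIndex_two hM
  let Φ : W →* (T ⧸ W → ℤˣ) := MonoidHom.pi fun q => l.comp (MulAut.conjNormal q.out⁻¹).toMonoidHom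
  have hΦ : ∀ (x : W) (t : T), Φ x t = 1 ↔ t⁻¹ * x * t ∈ M := fun x t => by
    obtain ⟨w, hw⟩ := QuotientGroup.mk_out_eq_mul W t
    refine (hl _).trans ?_
    show ((t : T ⧸ W).out)⁻¹ * x * ((t : T ⧸ W).out)⁻¹⁻¹ ∈ M ↔ _
    rw [hw, ← conj_mem_iff_of_relIndex_two hM (hW.conj_mem' _ x.2 t) (inv_mem w.2)]
    simp [mul_assoc]
  have hker : Φ.ker = N.subgroupOf W := by
    ext x
    rw [MonoidHom.mem_ker, mem_subgroupOf]
    refine ⟨fun h => ?_, fun h => funext fun q => ?_⟩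
    · by_contra hx
      refine hζM (normalCore_le M (hmin _ inferInstance (normal_le_normalCore.mpr hNM)
        fun h1 => hx (h1 fun t => ?_)))
      simpa using (hΦ x t⁻¹).mp (congrFun h _)
    · obtain ⟨t, rfl⟩ := QuotientGroup.mk_surjective q
      exact (hΦ x t).mpr (hNM (hN.conj_mem' _ h t))
  have h1 : N.relIndex W = Nat.card Φ.range := by rw [relIndex, ← hker, index_ker]
  have h2 : Nat.card (T ⧸ W → ℤˣ) = 2 ^ W.index := by
    rw [Nat.card_fun, Nat.card_eq_fintype_card (α := ℤˣ)]; rfl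
  refine ⟨h1 ▸ h2 ▸ card_le_card_group _, fun h => ?_⟩
  have h3 : Φ.range = ⊤ := eq_top_of_card_eq _ (by rw [← h1, h, h2])
  obtain ⟨v, hv⟩ : Pi.mulSingle (1 : T ⧸ W) (-1 : ℤˣ) ∈ Φ.range := h3 ▸ mem_top _
  refine ⟨v, v.2, fun Y hY hvY x hx => ?_⟩
  have h4 : ∀ (q : T ⧸ W) (u : ℤˣ), Pi.mulSingle q u ∈ (Y.subgroupOf W).map Φ := by
    intro q u
    rcases Int.units_eq_one_or u with rfl | rfl
    · simp
    obtain ⟨t, rfl⟩ := QuotientGroup.mk_surjective q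
    refine ⟨⟨_, hW.conj_mem _ v.2 t⟩, hvY t, funext fun r => ?_⟩
    obtain ⟨s, rfl⟩ := QuotientGroup.mk_surjective r
    have h5 := (hΦ ⟨_, hW.conj_mem _ v.2 t⟩ s).trans (Iff.trans (by simp [mul_assoc])
      (hΦ v (t⁻¹ * s)).symm)
    rw [hv] at h5
    by_cases h6 : (s : T ⧸ W) = t
    · rw [h6, Pi.mulSingle_eq_same]
      rw [QuotientGroup.mk_mul, QuotientGroup.mk_inv, h6, inv_mul_cancel, Pi.mulSingle_eq_same] at h5
      exact (Int.units_eq_one_or _).resolve_left fun h7 => absurd (h5.mp h7) (by decide)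
    · rw [Pi.mulSingle_eq_of_ne h6, h5, Pi.mulSingle_eq_of_ne]
      rw [QuotientGroup.mk_mul, QuotientGroup.mk_inv]
      exact fun h7 => h6 (inv_mul_eq_one.mp h7).symm
  obtain ⟨y, hy, hyx⟩ : Φ ⟨x, hx⟩ ∈ (Y.subgroupOf W).map Φ := by
    haveI := Fintype.ofFinite (T ⧸ W)
    rw [← Finset.univ_prod_mulSingle (Φ ⟨x, hx⟩)]
    exact prod_mem fun q _ => h4 q _
  have h5 : y⁻¹ * ⟨x, hx⟩ ∈ N.subgroupOf W := by
    rw [← hker, MonoidHom.mem_ker, map_mul, map_inv, hyx, inv_mul_cancel]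
  exact (mul_mem_cancel_left (inv_mem hy)).mp (hY h5)

theorem index_centralizer_le_of_comm_mem [Finite T] {Z : Subgroup T} {e : T}
    (h : ∀ y, ⁅e, y⁆ ∈ Z) : (centralizer ({e} : Set T)).index ≤ Nat.card Z := by
  rw [← H6.ncard_cl_eq_index, ← H6.ncard_subgroup]
  refine Set.ncard_le_ncard_of_injOn (fun x => e * x⁻¹) (fun x hx => ?_)
    fun x _ y _ hxy => inv_injective (mul_left_cancel hxy)
  obtain ⟨c, rfl⟩ := H6.mem_cl_iff.mp hx
  simpa [commutatorElement_def, mul_assoc] using h c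

/-- The upper central series. -/
abbrev Zs (T : Type*) [Group T] (i : ℕ) : Subgroup T := Subgroup.upperCentralSeries T i

theorem Zs_mono {i j : ℕ} (h : i ≤ j) : Zs T i ≤ Zs T j := Subgroup.upperCentralSeries_mono T h

/-- The hypothesis. -/
structure RuH (W : Subgroup T) : Prop where
  pg : IsPGroup 2 T
  big : 2 ^ 14 ≤ Nat.card T
  z4 : Nat.card (Zs T 4) = 16
  hW : W = centralizer ((Zs T 3 : Subgroup T) : Set T)
  hc : Nat.card (frattini W) ≤ 8
  hd : ∀ U : Subgroup W, U.index ≤ 16 → frattini W ≤ U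

namespace RuH

variable [Finite T] {W : Subgroup T} (h : RuH W)
include h

theorem step {N : Subgroup T} (hN : N.Normal) {i : ℕ} (h1 : ¬ N ≤ Zs T i) :
    ∃ x ∈ N, x ∉ Zs T i ∧ x ∈ Zs T (i + 1) := by
  haveI := Fact.mk Nat.prime_two
  obtain ⟨x, hx, h2, h3⟩ := exists_not_mem_comm_mem (K := ⊤)
    (isNilpotent_of_isPGroup (h.pg.to_subgroup ⊤)) le_top (normalizer_eq_top N).ge h1
  exact ⟨x, hx, h2, fun y => (h3 y trivial).1⟩

theorem cards : Nat.card (Zs T 1) = 2 ∧ Nat.card (Zs T 2) = 4 ∧ Nat.card (Zs T 3) = 8 := by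
  have key : ∀ i, i ≤ 4 → 2 * Nat.card (Zs T i) ≤ Nat.card (Zs T (i + 1)) := fun i hi => by
    obtain ⟨x, -, h1, h2⟩ := h.step (N := ⊤) inferInstance (i := i) fun h1 => by
      have := card_le_of_le (h1.trans (Zs_mono hi))
      have := h.big
      rw [card_top, h.z4] at *; omega
    have h3 := Zs_mono (T := T) (Nat.le_succ i)
    have h4 := card_lt_of_lt h3 fun h4 => h1 (h4 h2)
    obtain ⟨k, hk⟩ := card_dvd_of_le h3
    rw [hk] at h4 ⊢
    have : 2 ≤ k := by by_contra h5; interval_cases k <;> omega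
    nlinarith
  have h0 := key 0 (by omega)
  have h1 := key 1 (by omega)
  have h2 := key 2 (by omega)
  have h3 := key 3 (by omega)
  have h4 := h.z4
  rw [Zs, Subgroup.upperCentralSeries_zero, card_bot] at h0
  simp only [Nat.reduceAdd] at h0 h1 h2 h3
  omega

theorem rel {i : ℕ} (hi : i ≤ 3) : (Zs T i).relIndex (Zs T (i + 1)) = 2 := by
  refine relIndex_eq_of_card (Zs_mono (Nat.le_succ i)) ?_
  obtain ⟨h1, h2, h3⟩ := h.cards
  have h4 := h.z4
  interval_cases i <;> simp_all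

theorem le_of_normal {N : Subgroup T} (hN : N.Normal) {i : ℕ} (hi : i ≤ 3) (h1 : Zs T i ≤ N)
    (h2 : ¬ N ≤ Zs T i) : Zs T (i + 1) ≤ N := by
  obtain ⟨x, hx, h3, h4⟩ := h.step hN h2
  exact le_of_relIndex_two (h.rel hi) h4 h3 (fun _ _ h => h1 h) hx

theorem le_or_eq {N : Subgroup T} (hN : N.Normal) (i : ℕ) (hi : i ≤ 4) :
    Zs T i ≤ N ∨ ∃ j < i, N = Zs T j := by
  induction i with
  | zero => simp
  | succ i ih =>
    rcases ih (by omega) with h1 | ⟨j, hj, h1⟩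
    · by_cases h2 : N ≤ Zs T i
      · exact Or.inr ⟨i, by omega, le_antisymm h2 h1⟩
      · exact Or.inl (h.le_of_normal hN (by omega) h1 h2)
    · exact Or.inr ⟨j, by omega, h1⟩

omit [Finite T] in
theorem normal : W.Normal := h.hW ▸ inferInstance

omit [Finite T] in
theorem comm {x z : T} (hx : x ∈ W) (hz : z ∈ Zs T 3) : z * x = x * z := by
  rw [h.hW] at hx; exact hx z hz

omit h [Finite T] in
theorem cz1 {z : T} (hz : z ∈ Zs T 1) (t : T) : t * z = z * t := by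
  rw [Zs, Subgroup.upperCentralSeries_one] at hz; exact mem_center_iff.mp hz t

theorem mem_iff {e2 e3 : T} (h2 : e2 ∈ Zs T 2) (h2' : e2 ∉ Zs T 1) (h3 : e3 ∈ Zs T 3) (h3' : e3 ∉ Zs T 2)
    {x : T} : x ∈ W ↔ x * e2 = e2 * x ∧ x * e3 = e3 * x := by
  refine ⟨fun hx => ⟨(h.comm hx (Zs_mono (by omega) h2)).symm,
    (h.comm hx h3).symm⟩, fun ⟨h4, h5⟩ => h.hW ▸ fun z hz => ?_⟩
  have h6 : Zs T 2 ≤ centralizer ({x} : Set T) := le_of_relIndex_two (h.rel (by omega)) h2 h2'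
    (fun y _ hy => mem_centralizer_singleton_iff.mpr (cz1 hy x).symm)
    (mem_centralizer_singleton_iff.mpr h4.symm)
  exact mem_centralizer_singleton_iff.mp (le_of_relIndex_two (h.rel (i := 2) (by omega)) h3 h3'
    (fun y _ hy => h6 hy) (mem_centralizer_singleton_iff.mpr h5.symm) hz)

theorem exists_e {i : ℕ} (hi : i ≤ 3) : ∃ e ∈ Zs T (i + 1), e ∉ Zs T i :=
  SetLike.not_le_iff_exists.mp fun h1 => by have := h.rel hi; rw [relIndex_eq_one.mpr h1] at this; omega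

theorem main : Nat.card T = 2 ^ 14 ∧ W.index = 8 ∧ (Zs T 3).relIndex W = 2 ^ 8 ∧
    (frattini W).map W.subtype = Zs T 3 ∧
    ∃ v ∈ W, ∀ Y : Subgroup T, Zs T 3 ≤ Y → (∀ t, t * v * t⁻¹ ∈ Y) → W ≤ Y := by
  haveI := h.normal
  obtain ⟨e2, h2, h2'⟩ := h.exists_e (i := 1) (by omega)
  obtain ⟨e3, h3, h3'⟩ := h.exists_e (i := 2) (by omega)
  obtain ⟨c1, c2, c3⟩ := h.cards
  have hi : W.index ≤ 8 := by
    have h4 := index_centralizer_le_of_comm_mem (Subgroup.mem_upperCentralSeries_succ_iff.mp h2)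
    have h5 := index_centralizer_le_of_comm_mem (Subgroup.mem_upperCentralSeries_succ_iff.mp h3)
    rw [show W = centralizer ({e2} : Set T) ⊓ centralizer {e3} from Subgroup.ext fun x => by
      simp [h.mem_iff h2 h2' h3 h3', mem_centralizer_singleton_iff]]
    rw [c1] at h4; rw [c2] at h5
    exact index_inf_le.trans (Nat.mul_le_mul h4 h5)
  obtain ⟨F, hF⟩ : ∃ F, F = (frattini W).map W.subtype := ⟨_, rfl⟩
  haveI hFn : F.Normal := hF ▸ inferInstance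
  have hF8 : Nat.card F ≤ 8 := by rw [hF, card_map_of_injective W.subtype_injective]; exact h.hc
  obtain ⟨j, hj, hFj⟩ := (h.le_or_eq hFn 4 le_rfl).resolve_left fun h4 => by
    have := card_le_of_le h4; rw [h.z4] at this; omega
  obtain ⟨ζ, hζ, hζ'⟩ := h.exists_e (i := j) (by omega)
  obtain ⟨h4, h5⟩ := exists_gen_of_relIndex (W := W) (N := F) (hF ▸ map_subtype_le _)
    (fun a ha => hF ▸ mul_self_mem_map_frattini (h.pg.to_subgroup W) ha) (ζ := ζ) (hFj ▸ hζ')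
    fun Y hY h4 h5 => h.le_of_normal hY (by omega) (hFj ▸ h4) (hFj ▸ h5) hζ
  have h6 := W.card_mul_index
  have h7 := card_mul_relIndex (show F ≤ W from hF ▸ map_subtype_le _)
  have h8 := h.big
  have h9 : W.index = 8 := by
    by_contra h9
    have h10 : F.relIndex W ≤ 2 ^ 7 := h4.trans (Nat.pow_le_pow_right (by omega) (by omega))
    have := Nat.mul_le_mul (Nat.mul_le_mul hF8 h10) hi
    rw [h7, h6] at this; omega
  rw [h9] at h4 h5 h6
  have h10 : F.relIndex W = 2 ^ 8 := by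
    by_contra h10
    have := Nat.mul_le_mul hF8 (show F.relIndex W ≤ 255 by omega)
    omega
  have h11 : F = Zs T 3 := eq_of_le_of_card_ge (hFj ▸ Zs_mono (by omega))
    (by rw [h10] at h7; omega)
  rw [← hF, ← h11]
  exact ⟨by rw [h10, h11, c3] at h7; omega, h9, h10, rfl, h5 h10⟩

theorem le : Zs T 3 ≤ W := h.main.2.2.2.1 ▸ map_subtype_le _

theorem sq_mem {a : T} (ha : a ∈ W) : a * a ∈ Zs T 3 :=
  h.main.2.2.2.1 ▸ mul_self_mem_map_frattini (h.pg.to_subgroup W) ha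

theorem comm_mem {a b : T} (ha : a ∈ W) (hb : b ∈ W) : ⁅a, b⁆ ∈ Zs T 3 :=
  comm_mem_of_sq_mem (fun _ => h.sq_mem) ha hb

theorem le_of_relIndex_le {U : Subgroup T} (hU : U.relIndex W ≤ 16) : Zs T 3 ≤ U :=
  h.main.2.2.2.1 ▸ map_le_iff_le_comap.mpr (h.hd (U.subgroupOf W) hU)

theorem comm_mul {x y y' : T} (hx : x ∈ W) (hy : y ∈ W) (hy' : y' ∈ W) :
    ⁅x, y * y'⁆ = ⁅x, y⁆ * ⁅x, y'⁆ := by
  calc ⁅x, y * y'⁆ = ⁅x, y⁆ * (y * ⁅x, y'⁆) * y⁻¹ := by simp only [commutatorElement_def]; group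
    _ = _ := by rw [← h.comm hy (h.comm_mem hx hy')]; group

theorem not_small {A : Subgroup T} (hA : A ≤ W) (h3 : Zs T 3 ≤ A) (hi : A.relIndex W ≤ 4)
    (hc : ∀ a ∈ A, ∀ b ∈ A, ⁅a, b⁆ ∈ Zs T 2) : False := by
  have hr := h.rel (i := 2) (by omega)
  have key : ∀ a ∈ A, ∀ b ∈ A, (a * b * (a * b) ∈ Zs T 2 ↔ (a * a ∈ Zs T 2 ↔ b * b ∈ Zs T 2)) := by
    intro a ha b hb
    rw [← mul_mem_iff_of_relIndex_two hr (h.sq_mem (hA ha)) (h.sq_mem (hA hb)),
      show a * b * (a * b) = (a * a * ⁅a⁻¹, b⁆ * (a * a)⁻¹) * (a * a * (b * b)) by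
        simp only [commutatorElement_def]; group,
      mul_mem_cancel_left ((inferInstance : (Zs T 2).Normal).conj_mem _ (hc _ (inv_mem ha) b hb) _)]
  let A0 : Subgroup T :=
    { carrier := {a | a ∈ A ∧ a * a ∈ Zs T 2}
      mul_mem' := fun {a b} ha hb => ⟨mul_mem ha.1 hb.1, (key a ha.1 b hb.1).mpr (iff_of_true ha.2 hb.2)⟩
      one_mem' := ⟨one_mem _, by simp⟩
      inv_mem' := fun {a} ha => ⟨inv_mem ha.1, by rw [← mul_inv_rev]; exact inv_mem ha.2⟩ }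
  have h1 : A0.relIndex A ≤ 2 := by
    by_cases h1 : A ≤ A0
    · simp [relIndex_eq_one.mpr h1]
    obtain ⟨b, hb, hb'⟩ := SetLike.not_le_iff_exists.mp h1
    exact (relIndex_eq_two_of hb hb' fun s hs hs' => ⟨mul_mem hs hb, (key s hs b hb).mpr
      (iff_of_false (fun h => hs' ⟨hs, h⟩) fun h => hb' ⟨hb, h⟩)⟩).le
  obtain ⟨e, he, he'⟩ := h.exists_e (i := 2) (by omega)
  obtain ⟨U, -, hU, hU2, heU⟩ := exists_relIndex_two_not_mem (H := Zs T 2) (Q := A0)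
    (fun z hz => ⟨h3 (Zs_mono (by omega) hz), mul_mem hz hz⟩) (fun a ha => ha.2)
    ⟨h3 he, mul_self_mem_of_relIndex_two hr he⟩ he'
  refine heU (h.le_of_relIndex_le ?_ he)
  rw [← relIndex_mul_relIndex U A0 W hU (fun a ha => hA ha.1), hU2,
    ← relIndex_mul_relIndex A0 A W (fun a ha => ha.1) hA]
  nlinarith

theorem commutator_eq : (_root_.commutator W).map W.subtype = Zs T 3 := by
  haveI := h.normal
  have h1 : ∀ a ∈ W, ∀ b ∈ W, ⁅a, b⁆ ∈ (_root_.commutator W).map W.subtype := fun a ha b hb =>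
    ⟨⁅(⟨a, ha⟩ : W), ⟨b, hb⟩⁆, commutator_mem_commutator trivial trivial, rfl⟩
  refine le_antisymm (map_le_iff_le_comap.mpr (commutator_le.mpr fun a _ b _ =>
    h.comm_mem a.2 b.2)) ((h.le_or_eq inferInstance 3 (by omega)).resolve_right ?_)
  rintro ⟨j, hj, h2⟩
  exact h.not_small le_rfl h.le (by simp) fun a ha b hb =>
    Zs_mono (by omega) (h2 ▸ h1 a ha b hb)

theorem elem {z : T} (hz : z ∈ Zs T 3) : z * z = 1 := by
  let A : Subgroup T :=
    { carrier := {a | a ∈ Zs T 3 ∧ a * a = 1}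
      mul_mem' := fun {a b} ha hb => ⟨mul_mem ha.1 hb.1, by
        rw [mul_assoc, ← mul_assoc b, h.comm (h.le ha.1) hb.1, mul_assoc, hb.2, mul_one, ha.2]⟩
      one_mem' := ⟨one_mem _, mul_one _⟩
      inv_mem' := fun {a} ha => ⟨inv_mem ha.1, by rw [← mul_inv_rev, ha.2, inv_one]⟩ }
  have : Zs T 3 ≤ A := by
    rw [← h.commutator_eq]
    refine map_le_iff_le_comap.mpr (commutator_le.mpr fun a _ b _ => ⟨h.comm_mem a.2 b.2, ?_⟩)
    show ⁅(a : T), (b : T)⁆ * ⁅(a : T), (b : T)⁆ = 1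
    rw [← h.comm_mul a.2 b.2 b.2, commutatorElement_eq_one_iff_mul_comm, h.comm a.2 (h.sq_mem b.2)]
  exact (this hz).2

end RuH

end Cfsg.Agent.H9
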