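import Cfsg.Agent.H9.Ru

/-! The centre of `W` and the quotient `T / W`. -/

set_option autoImplicit false

namespace Cfsg.Agent.H9

open Subgroup
open scoped commutatorElement

variable {T : Type*} [Group T]

/-- Conjugation. -/
def kj (t x : T) : T := t * x * t⁻¹

theorem kj_mul (t x y : T) : kj t (x * y) = kj t x * kj t y := by simp [kj, mul_assoc]
theorem mul_kj (s t x : T) : kj (s * t) x = kj s (kj t x) := by simp [kj, mul_assoc]
theorem one_kj (x : T) : kj 1 x = x := by simp [kj]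
theorem kj_eq_iff {t x : T} : kj t x = x ↔ t * x = x * t := mul_inv_eq_iff_eq_mul
theorem inv_kj {t x y : T} (h : kj t x = y) : kj t⁻¹ y = x := by simp [← h, kj, mul_assoc]

/-- Coordinates for the action of `T` on `Z₃`. -/
structure RuE (W : Subgroup T) (e1 e2 e3 a p c : T) : Prop where
  m1 : e1 ∈ Zs T 1
  m2 : e2 ∈ Zs T 2
  m3 : e3 ∈ Zs T 3
  n1 : e1 ≠ 1
  n2 : e2 ∉ Zs T 1
  n3 : e3 ∉ Zs T 2
  a2 : kj a e2 = e2
  a3 : kj a e3 = e2 * e3
  p2 : kj p e2 = e1 * e2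
  p3 : kj p e3 = e3
  c2 : kj c e2 = e2
  c3 : kj c e3 = e1 * e3

namespace RuH

variable [Finite T] {W : Subgroup T} (h : RuH W)
include h

theorem eq_of_Z1 {e z : T} (he : e ∈ Zs T 1) (he1 : e ≠ 1) (hz : z ∈ Zs T 1) : z = 1 ∨ z = e :=
  eq_one_or_eq_of_card_le_two h.cards.1.le he he1 hz

omit h [Finite T] in
theorem kj_mul_inv_mem {i : ℕ} {e : T} (he : e ∈ Zs T (i + 1)) (t : T) :
    kj t e * e⁻¹ ∈ Zs T i := by
  simpa [commutatorElement_def, kj, mul_assoc] using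
    inv_mem (Subgroup.mem_upperCentralSeries_succ_iff.mp he t)

theorem kj2 {e1 e2 : T} (h1 : e1 ∈ Zs T 1) (n1 : e1 ≠ 1) (h2 : e2 ∈ Zs T 2) (t : T) :
    kj t e2 = e2 ∨ kj t e2 = e1 * e2 := by
  simpa [mul_inv_eq_iff_eq_mul] using h.eq_of_Z1 h1 n1 (kj_mul_inv_mem h2 t)

theorem exists_ruE : ∃ e1 e2 e3 a p c, RuE W e1 e2 e3 a p c := by
  obtain ⟨e1, m1, n1⟩ := h.exists_e (i := 0) (by omega)
  obtain ⟨e, he, he'⟩ := h.exists_e (i := 1) (by omega)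
  obtain ⟨e3, m3, n3⟩ := h.exists_e (i := 2) (by omega)
  replace n1 : e1 ≠ 1 := by simpa using n1
  have hW : W = centralizer ({e} : Set T) ⊓ centralizer {e3} := Subgroup.ext fun x => by
    simp [h.mem_iff he he' m3 n3, mem_centralizer_singleton_iff]
  have h4 := index_centralizer_le_of_comm_mem (Subgroup.mem_upperCentralSeries_succ_iff.mp he)
  have h5 := index_centralizer_le_of_comm_mem (Subgroup.mem_upperCentralSeries_succ_iff.mp m3)
  rw [h.cards.1] at h4; rw [h.cards.2.1] at h5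
  have h8 := h.main.2.1
  have hC : ∀ u ∈ Zs T 2, ∀ t, t * e = e * t → kj t u = u := fun u hu t ht =>
    kj_eq_iff.mpr (mem_centralizer_singleton_iff.mp (le_of_relIndex_two (h.rel (i := 1) (by omega))
      he he' (fun y _ hy => mem_centralizer_singleton_iff.mpr (cz1 hy t).symm)
        (mem_centralizer_singleton_iff.mpr ht.symm) hu)).symm
  obtain ⟨p, hp, hp'⟩ : ∃ p ∈ centralizer ({e3} : Set T), p ∉ centralizer ({e} : Set T) :=
    SetLike.not_le_iff_exists.mp fun h6 => by rw [hW, inf_eq_right.mpr h6] at h8; omega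
  obtain ⟨a, ha, ha'⟩ : ∃ a ∈ centralizer ({e} : Set T), kj a e3 * e3⁻¹ ∉ Zs T 1 := by
    by_contra h6
    simp only [not_exists, not_and, not_not] at h6
    have h7 := relIndex_mul_index (hW.le.trans inf_le_left)
    rw [h8, hW, inf_relIndex_left] at h7
    have h9 : (centralizer ({e3} : Set T)).relIndex (centralizer ({e} : Set T)) ≤ 2 := by
      by_cases h9 : centralizer ({e} : Set T) ≤ centralizer ({e3} : Set T)
      · simp [relIndex_eq_one.mpr h9]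
      obtain ⟨b, hb, hb'⟩ := SetLike.not_le_iff_exists.mp h9
      have key : ∀ s ∈ centralizer ({e} : Set T), s ∉ centralizer ({e3} : Set T) →
          kj s e3 = e1 * e3 := fun s hs hs' => mul_inv_eq_iff_eq_mul.mp
        ((h.eq_of_Z1 m1 n1 (h6 s hs)).resolve_left fun h1 => hs'
          (mem_centralizer_singleton_iff.mpr (kj_eq_iff.mp (mul_inv_eq_one.mp h1))))
      refine (relIndex_eq_two_of hb hb' fun s hs hs' => mem_centralizer_singleton_iff.mpr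
        (kj_eq_iff.mp ?_)).le
      rw [mul_kj, key b hb hb', kj_mul, key s hs hs', kj_eq_iff.mpr (cz1 m1 s), ← mul_assoc,
        h.elem (Zs_mono (by omega) m1), one_mul]
    nlinarith
  rw [mem_centralizer_singleton_iff] at ha hp hp'
  obtain ⟨e2, he2⟩ : ∃ e2, e2 = kj a e3 * e3⁻¹ := ⟨_, rfl⟩
  have m2 : e2 ∈ Zs T 2 := he2 ▸ kj_mul_inv_mem m3 a
  rw [← he2] at ha'
  have a2 := hC e2 m2 a ha
  have a3 : kj a e3 = e2 * e3 := by rw [he2]; group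
  have p2 : kj p e2 = e1 * e2 := (h.kj2 m1 n1 m2 p).resolve_left fun h1 => hp'
    (mem_centralizer_singleton_iff.mp (le_of_relIndex_two (h.rel (i := 1) (by omega))
      m2 ha' (fun y _ hy => mem_centralizer_singleton_iff.mpr (cz1 hy p).symm)
        (mem_centralizer_singleton_iff.mpr (kj_eq_iff.mp h1).symm) he)).symm
  have p3 := kj_eq_iff.mpr hp
  have k1 : ∀ t, kj t e1 = e1 := fun t => kj_eq_iff.mpr (cz1 m1 t)
  have s1 := h.elem (Zs_mono (by omega) m1)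
  have s2 := h.elem (Zs_mono (by omega) m2)
  have q2 : kj p⁻¹ e2 = e1 * e2 := inv_kj (by rw [kj_mul, k1, p2, ← mul_assoc, s1, one_mul])
  have b3 : kj a⁻¹ e3 = e2 * e3 := inv_kj (by rw [kj_mul, a2, a3, ← mul_assoc, s2, one_mul])
  refine ⟨e1, e2, e3, a, p, p * a * p⁻¹ * a⁻¹, m1, m2, m3, n1, ha', n3, a2, a3, p2, p3, ?_, ?_⟩
  · simp only [mul_kj, inv_kj a2, q2, kj_mul, k1, a2, p2]
    rw [← mul_assoc, s1, one_mul]
  · simp only [mul_kj, b3, q2, kj_mul, k1, a2, a3, inv_kj p3, p2, p3]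
    rw [← mul_assoc e1 e1, s1, one_mul, ← mul_assoc, ← mul_assoc, cz1 m1 e2, mul_assoc e1, s2,
      mul_one]

section

variable {e1 e2 e3 a p c : T} (E : RuE W e1 e2 e3 a p c)
include E

theorem cong {s t : T} (h2 : kj s e2 = kj t e2) (h3 : kj s e3 = kj t e3) : s⁻¹ * t ∈ W := by
  rw [h.mem_iff E.m2 E.n2 E.m3 E.n3, ← kj_eq_iff, ← kj_eq_iff, mul_kj, mul_kj, ← h2, ← h3]
  exact ⟨inv_kj rfl, inv_kj rfl⟩

theorem mem_of_kj {t : T} (h2 : kj t e2 = e2) (h3 : kj t e3 = e3) : t ∈ W := by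
  simpa using h.cong E (s := 1) (by rw [h2, one_kj]) (by rw [h3, one_kj])

theorem kj3 (t : T) : kj t e3 = e3 ∨ kj t e3 = e1 * e3 ∨ kj t e3 = e2 * e3 ∨
    kj t e3 = e1 * (e2 * e3) := by
  have h1 := kj_mul_inv_mem E.m3 t
  by_cases h2 : kj t e3 * e3⁻¹ ∈ Zs T 1
  · have := h.eq_of_Z1 E.m1 E.n1 h2
    simp only [mul_inv_eq_iff_eq_mul, one_mul] at this; tauto
  · have := h.eq_of_Z1 E.m1 E.n1 (mul_mem_of_relIndex_two (h.rel (i := 1) (by omega))
      (inv_mem E.m2) h1 (fun h3 => E.n2 (inv_mem_iff.mp h3)) h2)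
    simp only [inv_mul_eq_iff_eq_mul, mul_inv_eq_iff_eq_mul, mul_one, cz1 E.m1 e2, mul_assoc] at this
    tauto

theorem rules : (∀ t, kj t e1 = e1) ∧ (∀ x, e1 * (e1 * x) = x) ∧ (∀ x, e2 * (e2 * x) = x) ∧
    ∀ x, e2 * (e1 * x) = e1 * (e2 * x) :=
  ⟨fun t => kj_eq_iff.mpr (cz1 E.m1 t),
    fun x => by rw [← mul_assoc, h.elem (Zs_mono (by omega) E.m1), one_mul],
    fun x => by rw [← mul_assoc, h.elem (Zs_mono (by omega) E.m2), one_mul],
    fun x => by rw [← mul_assoc, cz1 E.m1, mul_assoc]⟩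

theorem dihedral : ∃ (_ : W.Normal), Nonempty (T ⧸ W ≃* DihedralGroup 4) := by
  haveI := h.normal
  obtain ⟨k1, s1, s2, s3⟩ := h.rules E
  have hne : (p * a) * (p * a) ∉ W := fun h1 => by
    have h2 := kj_eq_iff.mpr (h.comm h1 E.m3).symm
    simp only [mul_kj, kj_mul, k1, s1, s2, s3, E.a2, E.a3, E.p2, E.p3, mul_assoc] at h2
    exact E.n1 (mul_eq_right.mp h2)
  have mk : ∀ t, kj t e2 = e2 → kj t e3 = e3 → QuotientGroup.mk' W t = 1 := fun t h2 h3 =>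
    (QuotientGroup.eq_one_iff t).mpr (h.mem_of_kj E h2 h3)
  haveI := Fact.mk Nat.prime_two
  have hr2 : QuotientGroup.mk' W (p * a) * QuotientGroup.mk' W (p * a) ≠ 1 := fun h1 =>
    hne ((QuotientGroup.eq_one_iff _).mp h1)
  have hr : orderOf (QuotientGroup.mk' W (p * a)) = 4 :=
    orderOf_eq_prime_pow (p := 2) (n := 1) (by rwa [pow_one, pow_two]) (by
      rw [← map_pow, show (p * a) ^ 2 ^ (1 + 1) = p * a * (p * a) * (p * a * (p * a)) by
        simp [pow_succ, mul_assoc]]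
      refine mk _ ?_ ?_ <;>
        simp only [mul_kj, kj_mul, k1, s1, s2, s3, E.a2, E.a3, E.p2, E.p3, mul_assoc])
  have hs : QuotientGroup.mk' W p * QuotientGroup.mk' W p = 1 := by
    rw [← map_mul]
    refine mk _ ?_ ?_ <;>
      simp only [mul_kj, kj_mul, k1, s1, s2, s3, E.a2, E.a3, E.p2, E.p3, mul_assoc]
  have hi : QuotientGroup.mk' W p * QuotientGroup.mk' W (p * a) * (QuotientGroup.mk' W p)⁻¹ =
      (QuotientGroup.mk' W (p * a))⁻¹ := by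
    rw [inv_eq_of_mul_eq_one_left hs, ← mul_eq_one_iff_eq_inv, ← map_mul, ← map_mul, ← map_mul]
    refine mk _ ?_ ?_ <;>
      simp only [mul_kj, kj_mul, k1, s1, s2, s3, E.a2, E.a3, E.p2, E.p3, mul_assoc]
  obtain ⟨e⟩ := H4.nonempty_closure_equiv_dihedral_of_inverts hs hi (by
    rintro ⟨k, hk⟩
    simp only at hk
    rw [← hk, ((Commute.refl _).zpow_left k).eq, mul_inv_cancel_right] at hi
    exact hr2 (mul_eq_one_iff_eq_inv.mpr hi))
  rw [hr] at e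
  exact ⟨h.normal, ⟨(topEquiv.symm.trans (MulEquiv.subgroupCongr (eq_top_of_card_eq _ (by
    rw [Nat.card_congr e.toEquiv, DihedralGroup.nat_card, ← index_eq_card, h.main.2.1])).symm)).trans
      e⟩⟩

end

theorem O_mul {x y y' : T} (hx : x ∈ W) (hy : y ∈ W) (hy' : y' ∈ W) :
    ⁅x, y * y'⁆ ∈ Zs T 2 ↔ (⁅x, y⁆ ∈ Zs T 2 ↔ ⁅x, y'⁆ ∈ Zs T 2) := by
  rw [h.comm_mul hx hy hy',
    mul_mem_iff_of_relIndex_two (h.rel (i := 2) (by omega)) (h.comm_mem hx hy) (h.comm_mem hx hy')]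

omit h [Finite T] in
theorem O_symm {x y : T} : ⁅x, y⁆ ∈ Zs T 2 ↔ ⁅y, x⁆ ∈ Zs T 2 := by
  rw [← commutatorElement_inv, inv_mem_iff]

omit h [Finite T] in
theorem O_kj {x y : T} (t : T) : ⁅kj t x, kj t y⁆ ∈ Zs T 2 ↔ ⁅x, y⁆ ∈ Zs T 2 := by
  rw [kj, kj, ← conjugate_commutatorElement]
  exact ⟨fun h => by simpa [mul_assoc] using (inferInstance : (Zs T 2).Normal).conj_mem _ h t⁻¹,
    fun h => (inferInstance : (Zs T 2).Normal).conj_mem _ h t⟩

omit [Finite T] in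
theorem comm_eq_one {x z : T} (hx : x ∈ W) (hz : z ∈ Zs T 3) : ⁅x, z⁆ = 1 :=
  commutatorElement_eq_one_iff_mul_comm.mpr (h.comm hx hz).symm

omit [Finite T] in
theorem kj_mem {x : T} (hx : x ∈ W) (t : T) : kj t x ∈ W := h.normal.conj_mem x hx t

theorem comm_kj {x y s t : T} (hx : x ∈ W) (hy : y ∈ W) (hst : s⁻¹ * t ∈ W) :
    ⁅x, kj t y⁆ = ⁅x, kj s y⁆ := by
  have h1 : kj s ⁅s⁻¹ * t, y⁆ ∈ Zs T 3 :=
    (inferInstance : (Zs T 3).Normal).conj_mem _ (h.comm_mem hst hy) s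
  rw [show kj t y = kj s ⁅s⁻¹ * t, y⁆ * kj s y by simp only [kj, commutatorElement_def]; group,
    h.comm_mul hx (h.le h1) (h.kj_mem hy s), h.comm_eq_one hx h1, one_mul]

/-- The orthogonal complement modulo `Z₂`. -/
def perp (x : T) (hx : x ∈ W) : Subgroup T where
  carrier := {y | y ∈ W ∧ ⁅x, y⁆ ∈ Zs T 2}
  mul_mem' := fun {a b} ha hb => ⟨mul_mem ha.1 hb.1, (h.O_mul hx ha.1 hb.1).mpr (iff_of_true ha.2 hb.2)⟩
  one_mem' := ⟨one_mem _, by simp⟩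
  inv_mem' := fun {a} ha => ⟨inv_mem ha.1,
    ((h.O_mul hx ha.1 (inv_mem ha.1)).mp (by simp)).mp ha.2⟩

theorem le_perp {x : T} (hx : x ∈ W) : Zs T 3 ≤ h.perp x hx := fun z hz =>
  ⟨h.le hz, by rw [h.comm_eq_one hx hz]; exact one_mem _⟩

theorem relIndex_perp {x : T} (hx : x ∈ W) : (h.perp x hx).relIndex W ≤ 2 := by
  by_cases h1 : W ≤ h.perp x hx
  · simp [relIndex_eq_one.mpr h1]
  obtain ⟨b, hb, hb'⟩ := SetLike.not_le_iff_exists.mp h1
  exact (relIndex_eq_two_of hb hb' fun s hs hs' => ⟨mul_mem hs hb, (h.O_mul hx hs hb).mpr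
    (iff_of_false (fun h => hs' ⟨hs, h⟩) fun h => hb' ⟨hb, h⟩)⟩).le

section

variable {e1 e2 e3 a p c : T} (E : RuE W e1 e2 e3 a p c)
include E

theorem O_of_kj2 {x t : T} (hx : x ∈ W) (ht : kj t e2 = e2) : ⁅x, kj t x⁆ ∈ Zs T 2 := by
  obtain ⟨k1, s1, s2, s3⟩ := h.rules E
  by_contra hb
  have h1 := h.comm_mem hx (h.kj_mem hx t)
  have htt : (t * t)⁻¹ * 1 ∈ W := by
    refine h.cong E ?_ ?_
    · rw [mul_kj, ht, ht, one_kj]
    · rcases h.kj3 E t with h2 | h2 | h2 | h2 <;>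
        simp only [mul_kj, kj_mul, h2, ht, k1, s1, s2, s3, one_kj, mul_assoc]
  have h2 : t * ⁅x, kj t x⁆ = ⁅x, kj t x⁆ * t := by
    rw [← mul_inv_eq_iff_eq_mul, conjugate_commutatorElement]
    show ⁅kj t x, kj t (kj t x)⁆ = _
    rw [← mul_kj, ← h.comm_kj (h.kj_mem hx t) hx htt, one_kj, ← commutatorElement_inv,
      inv_eq_of_mul_eq_one_left (h.elem h1)]
  have h3 : t ∈ W := (h.mem_iff E.m2 E.n2 h1 hb).mpr ⟨kj_eq_iff.mp ht, h2⟩
  rw [h.comm_kj hx hx (s := 1) (by simpa using h3), one_kj] at hb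
  simp at hb

theorem norm_mem {x : T} (hx : x ∈ W) :
    x * kj a x * kj c (x * kj a x) * kj p (x * kj a x * kj c (x * kj a x)) ∈ Zs T 4 := by
  obtain ⟨k1, s1, s2, s3⟩ := h.rules E
  let S : T → Subgroup T := fun y =>
    (centralizer {QuotientGroup.mk' (Zs T 3) y}).comap (QuotientGroup.mk' (Zs T 3))
  have hS : ∀ y t, t ∈ S y ↔ QuotientGroup.mk' (Zs T 3) (kj t y) = QuotientGroup.mk' (Zs T 3) y :=
    fun y t => by
      simp only [S, mem_comap, mem_centralizer_singleton_iff, kj, map_mul, map_inv,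
        mul_inv_eq_iff_eq_mul]
  have hW : ∀ y ∈ W, W ≤ S y := fun y hy t ht => by
    rw [hS, eq_comm, ← mul_inv_eq_one, ← map_inv, ← map_mul]
    refine (QuotientGroup.eq_one_iff _).mpr ?_
    simpa [kj, commutatorElement_def, mul_assoc] using h.comm_mem hy ht
  have h1 : ∀ y ∈ W, ∀ t, t * t ∈ W → t ∈ S (y * kj t y) := fun y hy t ht => by
    rw [hS, kj_mul, ← mul_kj, map_mul, map_mul, (hS _ _).mp (hW y hy ht)]
    exact mem_centralizer_singleton_iff.mp (hW y hy (h.kj_mem hy t))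
  have h2 : ∀ y s t, s ∈ S y → t⁻¹ * s * t ∈ S y → s ∈ S (y * kj t y) := fun y s t h3 h4 => by
    rw [hS] at h3 h4 ⊢
    rw [kj_mul, map_mul, map_mul, h3, show kj s (kj t y) = t * kj (t⁻¹ * s * t) y * t⁻¹ by
      simp only [kj]; group, map_mul, map_mul, h4]
    simp [kj]
  have c2' := inv_kj E.c2
  have c3' : kj c⁻¹ e3 = e1 * e3 := inv_kj (by rw [kj_mul, k1, E.c3, s1])
  have hy1 := mul_mem hx (h.kj_mem hx a)
  have hy2 := mul_mem hy1 (h.kj_mem hy1 c)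
  have ha1 : a ∈ S (x * kj a x) := h1 x hx a (h.mem_of_kj E (by simp only [mul_kj, E.a2])
    (by simp only [mul_kj, kj_mul, E.a2, E.a3, s2]))
  have ha2 := h2 _ a c ha1 ((mul_mem_cancel_left (inv_mem ha1)).mp (hW _ hy1 (h.cong E
    (by simp only [mul_kj, E.a2, E.c2, c2'])
    (by simp only [mul_kj, kj_mul, E.a2, E.a3, E.c3, k1, c2', c3', s1, s3]))))
  have hc2 := h1 _ hy1 c (h.mem_of_kj E (by simp only [mul_kj, E.c2])
    (by simp only [mul_kj, kj_mul, E.c3, k1, s1]))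
  have hC : ∀ t, kj t e2 = e2 → t ∈ S (x * kj a x * kj c (x * kj a x)) := fun t ht => by
    rcases h.kj3 E t with h3 | h3 | h3 | h3
    · exact hW _ hy2 (h.mem_of_kj E ht h3)
    · exact (mul_mem_cancel_left (inv_mem hc2)).mp (hW _ hy2 (h.cong E (by rw [ht, E.c2])
        (by rw [h3, E.c3])))
    · exact (mul_mem_cancel_left (inv_mem ha2)).mp (hW _ hy2 (h.cong E (by rw [ht, E.a2])
        (by rw [h3, E.a3])))
    · exact (mul_mem_cancel_left (inv_mem (mul_mem hc2 ha2))).mp (hW _ hy2 (h.cong E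
        (by simp only [ht, mul_kj, E.a2, E.c2])
        (by simp only [h3, mul_kj, kj_mul, E.a3, E.c2, E.c3, s3])))
  have p2' : kj p⁻¹ e2 = e1 * e2 := inv_kj (by rw [kj_mul, k1, E.p2, s1])
  have hC' : ∀ t, kj t e2 = e2 → t ∈ S _ := fun t ht => h2 _ t p (hC t ht) (hC _ (by
    simp only [mul_kj, kj_mul, E.p2, k1, ht, p2', s1]))
  have hp := h1 _ hy2 p (h.mem_of_kj E (by simp only [mul_kj, kj_mul, E.p2, k1, s1])
    (by simp only [mul_kj, E.p3]))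
  intro t
  have h3 : t ∈ S (x * kj a x * kj c (x * kj a x) * kj p (x * kj a x * kj c (x * kj a x))) := by
    rcases h.kj2 E.m1 E.n1 E.m2 t with h3 | h3
    · exact hC' t h3
    · exact (mul_mem_cancel_left (inv_mem hp)).mp (hC' _ (by
        simp only [mul_kj, kj_mul, h3, k1, p2', s1]))
  rw [hS, eq_comm, ← mul_inv_eq_one, ← map_inv, ← map_mul] at h3
  have h4 := (QuotientGroup.eq_one_iff _).mp h3
  exact (show ∀ y, y * (kj t y)⁻¹ = ⁅y, t⁆ from fun y => by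
    simp only [kj, commutatorElement_def]; group) _ ▸ h4

theorem O_c (hZ : ∀ z ∈ Zs T 4, ∀ w ∈ W, w * z = z * w) {x : T} (hx : x ∈ W) (t : T) :
    ⁅x, kj t x⁆ ∈ Zs T 2 ↔ ⁅x, kj (c * t) x⁆ ∈ Zs T 2 := by
  obtain ⟨k1, s1, s2, s3⟩ := h.rules E
  have cg : ∀ s t, kj s e2 = kj t e2 → kj s e3 = kj t e3 →
      (⁅x, kj t x⁆ ∈ Zs T 2 ↔ ⁅x, kj s x⁆ ∈ Zs T 2) := fun s t h2 h3 => by
    rw [h.comm_kj hx hx (h.cong E h2 h3)]
  have hinv : ∀ t, ⁅x, kj t⁻¹ x⁆ ∈ Zs T 2 ↔ ⁅x, kj t x⁆ ∈ Zs T 2 := fun t => by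
    rw [← O_kj t, ← mul_kj, mul_inv_cancel, one_kj, O_symm]
  have h4 : ∀ t, kj t e2 = e1 * e2 → (kj t e3 = e2 * e3 ∨ kj t e3 = e1 * (e2 * e3)) →
      (⁅x, kj t x⁆ ∈ Zs T 2 ↔ ⁅x, kj (c * t) x⁆ ∈ Zs T 2) := fun t h2 h3 => by
    rw [← hinv]
    refine cg _ _ (inv_kj ?_).symm (inv_kj ?_).symm
    · simp only [mul_kj, kj_mul, h2, k1, E.c2, s1]
    · rcases h3 with h3 | h3 <;> simp only [mul_kj, kj_mul, h2, h3, k1, E.c2, E.c3, s1, s2, s3,
        mul_assoc]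
  have hp : ⁅x, kj p x⁆ ∈ Zs T 2 ↔ ⁅x, kj (p * c) x⁆ ∈ Zs T 2 := by
    have h1 : ⁅x, _⁆ ∈ Zs T 2 :=
      commutatorElement_eq_one_iff_mul_comm.mpr (hZ _ (h.norm_mem E hx) x hx) ▸ one_mem _
    simp only [kj_mul, ← mul_kj] at h1
    have m := fun t => h.kj_mem hx t
    rw [h.O_mul hx (mul_mem (mul_mem hx (m _)) (mul_mem (m _) (m _)))
        (mul_mem (mul_mem (m _) (m _)) (mul_mem (m _) (m _))),
      h.O_mul hx (mul_mem hx (m _)) (mul_mem (m _) (m _)), h.O_mul hx hx (m _),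
      h.O_mul hx (m _) (m _), h.O_mul hx (mul_mem (m _) (m _)) (mul_mem (m _) (m _)),
      h.O_mul hx (m _) (m _), h.O_mul hx (m _) (m _)] at h1
    have h5 := h.O_of_kj2 E hx E.a2
    have h6 := h.O_of_kj2 E hx E.c2
    have h7 := h.O_of_kj2 E hx (t := c * a) (by rw [mul_kj, E.a2, E.c2])
    have h8 := (h4 (p * a) (by rw [mul_kj, E.a2, E.p2]) (Or.inr (by
      rw [mul_kj, E.a3, kj_mul, E.p2, E.p3, mul_assoc]))).trans (cg (p * (c * a)) _
        (by simp only [mul_kj, kj_mul, E.a2, E.c2, E.p2, k1])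
        (by simp only [mul_kj, kj_mul, E.a3, E.c2, E.c3, E.p2, E.p3, k1, s1, s3, mul_assoc]))
    have h9 : ⁅x, x⁆ ∈ Zs T 2 := by simp
    simp only [h5, h6, h7, h8, h9, iff_self, true_iff, iff_true] at h1
    exact (show ∀ A B C : Prop, ((A ↔ C) ↔ (B ↔ C)) → (A ↔ B) by tauto) _ _ _ h1
  rcases h.kj2 E.m1 E.n1 E.m2 t with h2 | h2
  · exact iff_of_true (h.O_of_kj2 E hx h2) (h.O_of_kj2 E hx (by rw [mul_kj, h2, E.c2]))
  rcases h.kj3 E t with h3 | h3 | h3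
  · rw [cg p t (by rw [h2, E.p2]) (by rw [h3, E.p3]), hp]
    exact cg _ _ (by simp only [mul_kj, kj_mul, h2, E.c2, E.p2, k1])
      (by simp only [mul_kj, kj_mul, h3, E.c3, E.p3, k1])
  · rw [cg (p * c) t (by simp only [mul_kj, h2, E.c2, E.p2])
      (by simp only [mul_kj, kj_mul, h3, E.c3, E.p3, k1]), ← hp]
    exact cg _ _ (by simp only [mul_kj, kj_mul, h2, E.c2, E.p2, k1])
      (by simp only [mul_kj, kj_mul, h3, E.c3, E.p3, k1, s1])
  · exact h4 t h2 h3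

end

theorem center_eq : (center W).map W.subtype = Zs T 3 := by
  haveI := h.normal
  have h0 : Zs T 3 ≤ (center W).map W.subtype := fun z hz =>
    mem_center_map_subtype.mpr ⟨h.le hz, fun y hy => (h.comm hy hz).symm⟩
  refine le_antisymm ?_ h0
  by_contra h1
  have hZ : ∀ z ∈ Zs T 4, ∀ w ∈ W, w * z = z * w := fun z hz =>
    (mem_center_map_subtype.mp (h.le_of_normal inferInstance le_rfl h0 h1 hz)).2
  obtain ⟨e1, e2, e3, a, p, c, E⟩ := h.exists_ruE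
  obtain ⟨k1, s1, s2, s3⟩ := h.rules E
  obtain ⟨v, hv, gen⟩ := h.main.2.2.2.2
  have m := fun t => h.kj_mem hv t
  have hc : ∀ t, ∀ y ∈ W, (⁅kj t v, y⁆ ∈ Zs T 2 ↔ ⁅kj (c⁻¹ * t) v, y⁆ ∈ Zs T 2) := fun t => by
    let Y : Subgroup T :=
      { carrier := {y | y ∈ W ∧ (⁅kj t v, y⁆ ∈ Zs T 2 ↔ ⁅kj (c⁻¹ * t) v, y⁆ ∈ Zs T 2)}
        mul_mem' := fun {a b} ha hb => ⟨mul_mem ha.1 hb.1, by
          rw [h.O_mul (m _) ha.1 hb.1, h.O_mul (m _) ha.1 hb.1, ha.2, hb.2]⟩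
        one_mem' := ⟨one_mem _, by simp⟩
        inv_mem' := fun {a} ha => ⟨inv_mem ha.1, by
          rw [← (h.O_mul (m _) ha.1 (inv_mem ha.1)).mp (by simp),
            ← (h.O_mul (m _) ha.1 (inv_mem ha.1)).mp (by simp), ha.2]⟩ }
    refine fun y hy => (gen Y (fun z hz => ⟨h.le hz, by
      rw [h.comm_eq_one (m _) hz, h.comm_eq_one (m _) hz]⟩) (fun s => ⟨m s, ?_⟩) hy).2
    rw [← O_kj c (x := kj (c⁻¹ * t) v), ← mul_kj, mul_inv_cancel_left]
    have := h.O_c E hZ (m t) (s * t⁻¹)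
    rwa [mul_kj c, ← mul_kj, inv_mul_cancel_right] at this
  have hA : ∀ y ∈ h.perp v hv ⊓ h.perp _ (m a), ∀ t, kj t e2 = e2 → y ∈ h.perp _ (m t) := by
    rintro y ⟨hy, hy'⟩ t ht
    have key : ∀ s, ⁅kj s v, y⁆ ∈ Zs T 2 → kj s e2 = e2 → kj s e3 = kj t e3 ∨
        kj s e3 = kj (c⁻¹ * t) e3 → ⁅kj t v, y⁆ ∈ Zs T 2 := fun s h2 h3 h4 => by
      rcases h4 with h4 | h4
      · rwa [O_symm, h.comm_kj hy.1 hv (h.cong E (h3.trans ht.symm) h4), O_symm]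
      · rwa [hc t y hy.1, O_symm, h.comm_kj hy.1 hv (h.cong E (by
          rw [h3, mul_kj, ht, inv_kj E.c2]) h4), O_symm]
    have c3' : kj c⁻¹ e3 = e1 * e3 := inv_kj (by rw [kj_mul, k1, E.c3, s1])
    refine ⟨hy.1, ?_⟩
    rcases h.kj3 E t with h3 | h3 | h3 | h3
    · exact key 1 (by rw [one_kj]; exact hy.2) (one_kj _) (Or.inl (by rw [h3, one_kj]))
    · exact key 1 (by rw [one_kj]; exact hy.2) (one_kj _) (Or.inr (by
        simp only [h3, one_kj, mul_kj, kj_mul, k1, c3', s1]))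
    · exact key a hy'.2 E.a2 (Or.inl (by rw [h3, E.a3]))
    · exact key a hy'.2 E.a2 (Or.inr (by
        simp only [h3, E.a3, mul_kj, kj_mul, k1, c3', inv_kj E.c2, s1, s3]))
  obtain ⟨A1, hA1⟩ : ∃ A1, A1 = Zs T 3 ⊔ closure {x | ∃ t, kj t e2 = e2 ∧ kj t v = x} := ⟨_, rfl⟩
  have hle : ∀ Y, Zs T 3 ≤ Y → (∀ t, kj t e2 = e2 → kj t v ∈ Y) → A1 ≤ Y := fun Y h2 h3 =>
    hA1 ▸ sup_le h2 ((closure_le _).mpr (by rintro _ ⟨t, ht, rfl⟩; exact h3 t ht))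
  have hA1W : A1 ≤ W := hle W h.le fun t _ => m t
  have hperp : ∀ y ∈ h.perp v hv ⊓ h.perp _ (m a), ∀ x ∈ A1, ⁅y, x⁆ ∈ Zs T 2 := fun y hy x hx =>
    (hle (h.perp y hy.1.1) (h.le_perp _) (fun t ht => ⟨m t, O_symm.mp (hA y hy t ht).2⟩) hx).2
  have hA1A : A1 ≤ h.perp v hv ⊓ h.perp _ (m a) := hle _ (le_inf (h.le_perp _) (h.le_perp _))
    fun t ht => ⟨⟨m t, h.O_of_kj2 E hv ht⟩, m t, by
      have := h.O_of_kj2 E (m a) (t := t * a⁻¹) (by rw [mul_kj, inv_kj E.a2, ht])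
      rwa [← mul_kj, inv_mul_cancel_right] at this⟩
  have hdec : ∀ y ∈ W, ∃ y1 ∈ A1, ∃ y2 ∈ A1, y1 * kj p y2 = y := fun y hy => by
    have h2 : A1.map (MulAut.conj p).toMonoidHom ≤ normalizer (A1 : Set T) := by
      rintro _ ⟨w, hw, rfl⟩
      refine mem_normalizer_of_conj_mem fun x hx => ?_
      rw [← inv_mul_cancel_right (_ * x * _) x]
      exact mul_mem (hA1 ▸ mem_sup_left (h.comm_mem (h.kj_mem (hA1W hw) p) (hA1W hx))) hx
    obtain ⟨y1, h3, _, ⟨y2, h4, rfl⟩, rfl⟩ := (mem_sup_of_le_normalizer' h2).mp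
      (gen _ (le_sup_of_le_left (hA1 ▸ le_sup_left)) (fun t => by
        have mem : ∀ s, kj s e2 = e2 → kj s v ∈ A1 := fun s hs =>
          hA1 ▸ mem_sup_right (subset_closure ⟨s, hs, rfl⟩)
        rcases h.kj2 E.m1 E.n1 E.m2 t with h3 | h3
        · exact mem_sup_left (mem t h3)
        · refine mem_sup_right ⟨_, mem (p⁻¹ * t) (by rw [mul_kj, h3, ← E.p2]; exact inv_kj rfl), ?_⟩
          simp [kj, mul_assoc]) hy)
    exact ⟨y1, h3, y2, h4, rfl⟩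
  refine h.not_small (A := h.perp v hv ⊓ h.perp _ (m a)) (fun y hy => hy.1.1)
    (le_inf (h.le_perp _) (h.le_perp _))
    (relIndex_inf_le.trans (Nat.mul_le_mul (h.relIndex_perp _) (h.relIndex_perp _))) ?_
  intro y hy y' hy'
  obtain ⟨y1, h2, y2, h3, rfl⟩ := hdec y hy.1.1
  obtain ⟨y1', h2', y2', h3', rfl⟩ := hdec y' hy'.1.1
  have w2 := h.kj_mem (hA1W h3) p
  have w2' := h.kj_mem (hA1W h3') p
  have e1 := hperp _ hy' y1 h2
  rw [O_symm, h.O_mul (hA1W h2) (hA1W h2') w2'] at e1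
  rw [h.O_mul hy.1.1 (hA1W h2') w2', O_symm (y := kj p y2'), h.O_mul w2' (hA1W h2) w2, O_kj,
    O_symm (y := y1), ← e1]
  exact iff_of_true (hperp _ hy y1' h2')
    (iff_of_true (hperp _ (hA1A h2) _ h2') (hperp _ (hA1A h3') _ h3))

end RuH

end Cfsg.Agent.H9
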